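import Cfsg.Agent.Chev.All
import Cfsg.Agent.Chev.Syl
import Cfsg.Agent.Chev.TabX

/-! Maximal subgroups of `E₇(2)`: definitions. -/

set_option autoImplicit false

namespace CF.M7

open Module Submodule

/-- The prime field. -/
abbrev F := ZMod 2

/-- A Lie algebra with a form, a pair of opposite extremal vectors and the grading they define. -/
structure Dt (G L : Type) [Group G] [AddCommGroup L] [Module F L] where
  br : L →ₗ[F] L →ₗ[F] L
  fm : L →ₗ[F] L →ₗ[F] F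
  e : L
  f : L
  pj : ℤ → L →ₗ[F] L
  Q : Subgroup G

section
variable {G L : Type} [Group G] [AddCommGroup L] [Module F L] [DistribMulAction G L] [SMulCommClass G F L]

/-- Conjugate subgroups. -/
def Cj (M M' : Subgroup G) : Prop := ∃ g : G, M.map (MulAut.conj g).toMonoidHom = M'

/-- The image of a subspace. -/
def im (g : G) (U : Submodule F L) : Submodule F L := U.map (DistribSMul.toLinearMap F L g)

/-- The stabilizer of a subspace. -/
def St (G : Type) [Group G] [DistribMulAction G L] (Y : Submodule F L) : Subgroup G where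
  carrier := {g | ∀ v, g • v ∈ Y ↔ v ∈ Y}
  one_mem' v := by rw [one_smul]
  mul_mem' ha hb v := by rw [mul_smul, ha, hb]
  inv_mem' {a} ha v := by rw [← ha, smul_inv_smul]

namespace Dt
variable (D : Dt G L)

def h : L := D.br D.e D.f
/-- The homogeneous components. -/
def Lg (k : ℤ) : Submodule F L := LinearMap.eqLocus (D.pj k) LinearMap.id
/-- `x` is the root element of `a`. -/
def IsX (x : G) (a : L) : Prop := ∀ v, x • v = v + D.br a v + D.fm a v • a
/-- Extremal vectors. -/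
def Ex (a : L) : Prop := ∃ k : G, k • D.e = a
/-- The extremal vectors whose root element lies in `M`. -/
def EM (M : Subgroup G) : Set L := {a | D.Ex a ∧ ∃ x ∈ M, D.IsX x a}
/-- The orbit of `e`. -/
def OM (M : Subgroup G) : Set L := {a | ∃ k ∈ M, k • D.e = a}
/-- The isolated points. -/
def RM (M : Subgroup G) : Set L := {a | a ∈ D.EM M ∧ ∀ b ∈ D.EM M, D.fm a b = 0}
/-- The Levi subgroup. -/
def Lv : Subgroup G := MulAction.stabilizer G D.e ⊓ MulAction.stabilizer G D.f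
/-- The homomorphism `Q → L₁`. -/
def e1 (q : G) : L := D.pj 1 (q • D.h)
/-- The image of `M ∩ Q` in `L₁`. -/
def UM (M : Subgroup G) : Set L := {u | ∃ q ∈ M, q ∈ D.Q ∧ D.e1 q = u}

/-- The normalizer of `U` in `L₀`. -/
def NU (U : Submodule F L) : Submodule F L where
  carrier := {v | v ∈ D.Lg 0 ∧ ∀ u ∈ U, D.br v u ∈ U}
  zero_mem' := ⟨zero_mem _, fun u _ => by simp⟩
  add_mem' ha hb := ⟨add_mem ha.1 hb.1, fun u hu => by simpa using add_mem (ha.2 u hu) (hb.2 u hu)⟩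
  smul_mem' c _ ha := ⟨smul_mem _ c ha.1, fun u hu => by simpa using smul_mem _ c (ha.2 u hu)⟩

/-- The centralizer of `U` in `L₀`. -/
def CU (U : Submodule F L) : Submodule F L where
  carrier := {v | v ∈ D.Lg 0 ∧ ∀ u ∈ U, D.br v u = 0}
  zero_mem' := ⟨zero_mem _, fun u _ => by simp⟩
  add_mem' ha hb := ⟨add_mem ha.1 hb.1, fun u hu => by simp [ha.2 u hu, hb.2 u hu]⟩
  smul_mem' c _ ha := ⟨smul_mem _ c ha.1, fun u hu => by simp [ha.2 u hu]⟩

/-- The graded subspace defined by `U`. -/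
def YU (U : Submodule F L) : Submodule F L :=
  U.comap (D.pj 1) ⊓ U.comap (D.br D.e ∘ₗ D.pj (-1)) ⊓ (D.NU U).comap (D.pj 0)

/-- The section `A / B` is reducible under the normalizer of `U`. -/
def Spl (U A B : Submodule F L) : Prop := ∃ W, B < W ∧ W < A ∧ ∀ a ∈ D.NU U, ∀ w ∈ W, D.br a w ∈ W

/-- The facts that are used about the group and the Lie algebra. -/
structure Ax : Prop where
  fin : Finite L
  finG : Finite G
  br_smul : ∀ (g : G) a b, g • D.br a b = D.br (g • a) (g • b)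
  fm_smul : ∀ (g : G) a b, D.fm (g • a) (g • b) = D.fm a b
  faith : ∀ g : G, (∀ v : L, g • v = v) → g = 1
  br_self : ∀ a, D.br a a = 0
  jac : ∀ a b c, D.br a (D.br b c) = D.br (D.br a b) c + D.br b (D.br a c)
  fm_self : ∀ a, D.fm a a = 0
  fm_br : ∀ a b c, D.fm (D.br a b) c = D.fm a (D.br b c)
  sq : ∀ v, D.br D.e (D.br D.e v) = 0
  fm_ef : D.fm D.e D.f = 1
  exX : ∃ y ∈ D.Q, D.IsX y D.e
  exf : D.Ex D.f
  dec : ∀ v, v = D.pj (-2) v + D.pj (-1) v + D.pj 0 v + D.pj 1 v + D.pj 2 v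
  pj_pj : ∀ i j v, D.pj i (D.pj j v) = if i = j then D.pj j v else 0
  pj_big : ∀ k v, 2 < |k| → D.pj k v = 0
  pj_e : ∀ v, D.pj 2 v = D.fm v D.f • D.e
  pj_f : ∀ v, D.pj (-2) v = D.fm v D.e • D.f
  br_gr : ∀ {i j a b}, a ∈ D.Lg i → b ∈ D.Lg j → D.br a b ∈ D.Lg (i + j)
  fm_gr : ∀ {i j a b}, a ∈ D.Lg i → b ∈ D.Lg j → i + j ≠ 0 → D.fm a b = 0
  h_gr : ∀ {k v}, v ∈ D.Lg k → D.br D.h v = (k : F) • v
  Q_fil : ∀ q ∈ D.Q, ∃ u ∈ D.Lg 1, ∀ k, ∀ v ∈ D.Lg k, ∀ j ≤ k + 1, D.pj j (q • v) = D.pj j (v + D.br u v)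
  Q_sur : ∀ u ∈ D.Lg 1, ∃ q ∈ D.Q, D.e1 q = u
  Q_ker : ∀ q ∈ D.Q, D.e1 q = 0 → q = 1 ∨ D.IsX q D.e
  Q_nrm : ∀ k : G, k • D.e = D.e → ∀ q ∈ D.Q, k * q * k⁻¹ ∈ D.Q
  P_dec : ∀ k : G, k • D.e = D.e → ∃ q ∈ D.Q, q • D.f = k • D.f
  gen : ∀ (M : Subgroup G) (x : G), D.Q ≤ M → x ∈ M → D.IsX x D.f → M = ⊤
  lv_triv : ∀ l ∈ D.Lv, (∀ v ∈ D.Lg 1, l • v = v) → l = 1

/-- The checked properties of a subspace `U` of `L₁`. -/
structure Dat (U : Submodule F L) : Prop where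
  le : U ≤ D.Lg 1
  ne : U ≠ ⊥
  nt : U ≠ D.Lg 1
  nd : ∀ u ∈ U, (∀ v ∈ U, D.br u v = 0) → u = 0
  hq : ∀ u ∈ U, ∃ q ∈ D.Q, q ∈ St G (D.YU U) ∧ D.e1 q = u
  irr : ∀ N, U ≤ N → N ≤ D.Lg 1 → (∀ l ∈ D.Lv, l ∈ St G U → ∀ v ∈ N, l • v ∈ N) → N = U ∨ N = D.Lg 1
  big : ∀ S : Submodule F L, St G (D.YU U) ≤ St G S → D.EM (St G (D.YU U)) ⊆ S → 22 ≤ finrank F S
  dN : 2 * finrank F U + finrank F (D.NU U) ≤ 109
  dC : finrank F (D.CU U) ≤ 26

/-- Overgroups of the stabilizer of `YU U`. -/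
structure Std (M : Subgroup G) (U : Submodule F L) : Prop where
  dat : D.Dat U
  st : St G (D.YU U) ≤ M
  um : D.UM M = U

/-- Parabolic subgroups. -/
def Par (M : Subgroup G) : Prop :=
  ∃ N : Submodule F L, M ≤ St G N ∧ 27 ≤ finrank F N ∧ finrank F N ≤ 111 ∧ N ≤ span F (D.RM M)

/-- The normalizer of the torus `3⁷`. -/
structure Tw (M : Subgroup G) : Prop where
  um : D.UM M ⊆ {0}
  f : D.f ∈ D.OM M
  eq : D.EM M = D.OM M
  card : (D.EM M).ncard = 189

/-- Overgroups of `L₂(128)`. -/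
structure Lz (M : Subgroup G) : Prop where
  inv : ∀ N : Submodule F L, M ≤ St G N → finrank F N ≤ 21 ∨ 112 ≤ finrank F N
  ex : ∃ a ∈ M, a ^ 127 = 1 ∧ ∀ v, D.Ex v → a • v ≠ v

end Dt
end

/-! ### the group `E₇(2)` -/

open CF.Chev Cfsg.Lie Matrix Sum

abbrev L7 := chevE7.Idx → F
abbrev G7 := ↥(chevE7.group F)

/-- The root with a given index. -/
def rt (r : ℕ) : Fin chevE7.nroots := ⟨r % 126, Nat.mod_lt _ (by norm_num)⟩
/-- The root vectors. -/
def rv (r : ℕ) : L7 := LieBasis.bv F (inr (rt r))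
/-- The root elements. -/
noncomputable def xr (r : ℕ) : G7 :=
  ⟨(cbE7.adSt F).x (rt r) 1, linkE7.group_eq F ▸ (cbE7.adSt F).x_mem_Gp _ _⟩
/-- The element given by a word. -/
noncomputable def wG (w : List ℕ) : G7 := (w.map xr).prod
/-- The Gram matrix of the invariant form. -/
noncomputable def gram : Matrix chevE7.Idx chevE7.Idx F := Matrix.of fun
  | inl i, inl j => (cbE7.car i j : F)
  | inr r, inr s => if s = cbE7.neg r then 1 else 0
  | _, _ => 0
/-- The degree of a basis vector. -/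
noncomputable def dg (c : chevE7.Idx) : ℤ := cbE7.wt c ⟨0, by decide⟩

/-- The data of `E₇(2)`. -/
noncomputable def D7 : Dt G7 L7 where
  br := toLin'.toLinearMap ∘ₗ cbE7.ad F
  fm := Matrix.toLinearMap₂' F gram
  e := rv 125
  f := rv 0
  pj k := toLin' (diagonal fun c => if dg c = k then 1 else 0)
  Q := Subgroup.closure {g | ∃ r, 0 < dg (inr (rt r)) ∧ g = xr r}

/-- The vector with a given bit mask: bit `r < 126` is the root `r`, bit `126 + i` the coroot `i`. -/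
def toL (n : ℕ) : L7 := fun c => if n.testBit (cd c) then 1 else 0

end CF.M7
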