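import Cfsg.Agent.M7.A
import Cfsg.Agent.E7t.C

/-! Maximal subgroups of `E₇(2)`: the Lie algebra. -/

set_option autoImplicit false

namespace CF.M7

open Module Submodule CF.Chev Cfsg.Lie Sum

namespace B1

theorem smul_eq (g : G7) (v : L7) : g • v = E7t.π g v := (E7t.π_apply g v).symm
theorem br_eq (a b : L7) : D7.br a b = E7t.br a b := rfl
theorem gram_eq : gram = Matrix.of E7t.gM := by
  ext (i | r) (j | s) <;> rfl
theorem fm_eq (a b : L7) : D7.fm a b = E7t.gf a b :=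
  congrArg (fun M => Matrix.toLinearMap₂' F M a b) gram_eq
theorem e_eq : D7.e = E7t.e E7t.θ := rfl
theorem f_eq : D7.f = E7t.e E7t.θ' := rfl
theorem h_eq : D7.h = E7t.hv E7t.θ := E7t.br_θ_θ'
theorem rv_eq (r : ℕ) : rv r = E7t.e (rt r) := rfl
theorem xr_eq (r : ℕ) : xr r = E7t.x (rt r) := rfl
theorem rt_val {r : ℕ} (h : r < 126) : (rt r).val = r := Nat.mod_eq_of_lt h
theorem rt_fin (r : E7t.Rt) : rt r.val = r := Fin.ext (rt_val r.2)

end B1

open B1

section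
variable {r : ℕ} {k : ℤ} {v : L7}

theorem dg_inl (i : Fin chevE7.rank) : dg (inl i) = 0 := rfl

theorem dg_rt (h : r < 126) :
    dg (inr (rt r)) = if r = 0 then -2 else if r ≤ 32 then -1 else if r ≤ 92 then 0 else if r ≤ 124 then 1 else 2 := by
  have := E7t.deg_val (rt r)
  rwa [rt_val h] at this

theorem pj_apply (k : ℤ) (v : L7) (c : chevE7.Idx) : D7.pj k v c = if dg c = k then v c else 0 := by
  simp [D7, Matrix.mulVec_diagonal]

theorem B1.pj_eq (k : ℤ) (v : L7) : D7.pj k v = E7t.pr k v := funext (pj_apply k v)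

theorem mem_Lg : v ∈ D7.Lg k ↔ ∀ c, dg c ≠ k → v c = 0 := by
  refine ⟨fun h c hc => ?_, fun h => (pj_eq k v).trans (E7t.pr_of_mem h)⟩
  rw [← show D7.pj k v = v from h, pj_apply, if_neg hc]

theorem B1.lg_iff : v ∈ D7.Lg k ↔ v ∈ E7t.Lk k := mem_Lg

theorem fm_rv (h : r < 126) (v : L7) : D7.fm (rv r) v = v (inr (rt (125 - r))) := by
  refine (fm_eq _ _).trans ((E7t.gf_e (rt r) v).trans (congrArg (fun s => v (inr s)) (Fin.ext ?_)))
  exact (E7t.neg_val (rt r)).trans (by rw [rt_val h, rt_val (by omega)])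

theorem B1.isX_iff {x : G7} {a : L7} : D7.IsX x a ↔ ∀ v, E7t.π x v = E7t.X a v :=
  forall_congr' fun v => by rw [smul_eq, fm_eq]; rfl

theorem isX_xr (r : ℕ) : D7.IsX (xr r) (rv r) := isX_iff.2 (E7t.π_x _)

theorem gen_xr : Subgroup.closure (Set.range xr) = ⊤ :=
  eq_top_iff.2 fun g _ => E7t.G_ind (p := fun g => g ∈ Subgroup.closure (Set.range xr)) (one_mem _)
    (fun _ r => mul_mem (Subgroup.subset_closure ⟨r.val, congrArg E7t.x (rt_fin r)⟩)) g

theorem br_smul7 (g : G7) (a b : L7) : g • D7.br a b = D7.br (g • a) (g • b) := by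
  rw [smul_eq, smul_eq, smul_eq]; exact E7t.π_br g a b

theorem fm_smul7 (g : G7) (a b : L7) : D7.fm (g • a) (g • b) = D7.fm a b := by
  rw [fm_eq, fm_eq, smul_eq, smul_eq]; exact E7t.π_gf g a b

theorem br_self7 (a : L7) : D7.br a a = 0 := E7t.br_self a

theorem jac7 (a b c : L7) : D7.br a (D7.br b c) = D7.br (D7.br a b) c + D7.br b (D7.br a c) :=
  (E7t.add_eq_zero_iff.1 (by
    have := E7t.jacobi a b c
    change E7t.br a (E7t.br b c) + (E7t.br (E7t.br a b) c + E7t.br b (E7t.br a c)) = 0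
    rw [this, add_assoc, E7t.add_self, add_zero, E7t.add_self]))

theorem fm_self7 (a : L7) : D7.fm a a = 0 := (fm_eq a a).trans (E7t.gf_self a)

theorem fm_br7 (a b c : L7) : D7.fm (D7.br a b) c = D7.fm a (D7.br b c) :=
  (fm_eq _ _).trans ((E7t.gf_br a b c).trans (fm_eq _ _).symm)

theorem sq7 (r : ℕ) (v : L7) : D7.br (rv r) (D7.br (rv r) v) = 0 := E7t.br_br_e _ v

theorem dec7 (v : L7) : v = D7.pj (-2) v + D7.pj (-1) v + D7.pj 0 v + D7.pj 1 v + D7.pj 2 v := by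
  simp only [pj_eq]; exact E7t.sum_pr v

theorem pj_pj7 (i j : ℤ) (v : L7) : D7.pj i (D7.pj j v) = if i = j then D7.pj j v else 0 := by
  funext c
  split_ifs with h
  · rw [pj_apply, pj_apply, h]; split_ifs <;> rfl
  · rw [pj_apply, pj_apply]
    split_ifs with h1 h2
    exacts [absurd (h1.symm.trans h2) h, rfl, rfl]

theorem pj_big7 (k : ℤ) (v : L7) (h : 2 < |k|) : D7.pj k v = 0 := funext fun c => by
  have h1 : dg c ≤ 2 := E7t.deg_le c
  have h2 : -2 ≤ dg c := E7t.le_deg c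
  rw [pj_apply, if_neg fun e => by rw [← e, lt_abs] at h; omega]; rfl

theorem pj_e7 (v : L7) : D7.pj 2 v = D7.fm v D7.f • D7.e :=
  (pj_eq 2 v).trans ((E7t.pr_two v).trans (congrArg (· • D7.e)
    ((fm_eq _ _).trans ((E7t.gf_comm _ _).trans (E7t.gf_θ' v))).symm))

theorem pj_f7 (v : L7) : D7.pj (-2) v = D7.fm v D7.e • D7.f :=
  (pj_eq _ v).trans ((E7t.pr_neg_two v).trans (congrArg (· • D7.f)
    ((fm_eq _ _).trans ((E7t.gf_comm _ _).trans (E7t.gf_θ v))).symm))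

theorem br_gr7 {i j : ℤ} {a b : L7} (ha : a ∈ D7.Lg i) (hb : b ∈ D7.Lg j) : D7.br a b ∈ D7.Lg (i + j) :=
  lg_iff.2 (E7t.br_Lk (lg_iff.1 ha) (lg_iff.1 hb))

theorem fm_gr7 {i j : ℤ} {a b : L7} (ha : a ∈ D7.Lg i) (hb : b ∈ D7.Lg j) (h : i + j ≠ 0) : D7.fm a b = 0 :=
  (fm_eq a b).trans (E7t.gf_Lk (lg_iff.1 ha) (lg_iff.1 hb) h)

theorem h_gr7 (h : v ∈ D7.Lg k) : D7.br D7.h v = (k : F) • v := by
  rw [h_eq]; exact E7t.br_h (lg_iff.1 h)

end

end CF.M7
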