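import Cfsg.Agent.M7.B1
import Cfsg.Agent.E7t.D

/-! Maximal subgroups of `E₇(2)`: the axioms. -/

set_option autoImplicit false

namespace CF.E7t

open CF.Chev Sum

theorem Q_fil {q : G} (hq : q ∈ Q) :
    ∃ u ∈ Lk 1, ∀ k, ∀ v ∈ Lge k, π q v + (v + br u v) ∈ Lge (k + 2) :=
  U_ind (p := fun q => ∃ u ∈ Lk 1, ∀ k, ∀ v ∈ Lge k, π q v + (v + br u v) ∈ Lge (k + 2))
    ⟨0, zero_mem _, fun k v _ => by simp⟩ (fun g r hg hr ⟨u, hu, ih⟩ => by
    have r1 : 1 ≤ deg (inr r) := hr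
    refine ⟨u + pr 1 (e r), add_mem hu (pr_mem 1 _), fun k v hv => ?_⟩
    have h1 := br_Lge (e_mem_Lge r1) (Q_Lge hg hv)
    have h2 := br_Lge (add_pr_mem (e_mem_Lge r1)) hv
    have h3 : gf (e r) (π g v) • e r ∈ Lge (k + 2) := by
      by_cases k1 : 0 < deg (inr r) + k
      · simp [gf_Lge (e_mem_Lge le_rfl) (P_Lge (Q_le_P hg) hv) k1]
      · exact Submodule.smul_mem _ _ (e_mem_Lge (by omega))
    rw [show 1 + (k + 1) = k + 2 by ring] at h1
    rw [show 1 + 1 + k = k + 2 by ring] at h2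
    convert add_mem (add_mem (add_mem (ih k v hv) h1) h2) h3 using 1
    simp only [π_mul, π_x, X_apply, map_add, LinearMap.add_apply]
    generalize gf (e r) (π g v) • e r = z
    refine c2 ?_
    match_scalars <;> decide) hq

theorem eq_one_of_fix {l : G} (h1 : π l (e θ) = e θ) (h2 : π l (e θ') = e θ')
    (h3 : ∀ v ∈ Lk 1, π l v = v) : l = 1 := by
  have k1 : ∀ r, π l (e r) = e r → x r ∈ Subgroup.centralizer {l} := fun r h => by
    have := (h ▸ (isR_x r).conj l).eq (isR_x r)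
    rw [Subgroup.mem_centralizer_singleton_iff, ← mul_inv_eq_iff_eq_mul.1 this]
  have k2 := eq_top_of_Q (M := Subgroup.centralizer {l}) (fun q hq => U_ind (one_mem _)
    (fun g r _ hr => mul_mem (k1 r (by
      by_cases e1 : deg (inr r) = 1
      · exact h3 _ (bv_mem e1)
      · have e2 : 0 < deg (inr r) := hr
        obtain rfl : r = θ := inr_injective (eq_θ (c := inr r) (by omega))
        exact h1))) hq) (k1 _ h2)
  have k3 : ∀ r, π l (e r) = e r := fun r => by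
    have := Subgroup.mem_centralizer_singleton_iff.1 (k2.ge (Subgroup.mem_top (x r)))
    exact IsR.eq_vec (by simpa [← this] using (isR_x r).conj l) (isR_x r)
  refine π_inj (LinearMap.ext fun v => ?_)
  rw [π_one]
  induction v using ind with
  | h0 => simp
  | h1 a b ha hb => simp [ha, hb]
  | h2 c =>
    rcases c with i | r
    · have := π_br l (e (c7.simple i)) (e (c7.neg (c7.simple i)))
      rwa [k3, k3, br_e_neg, hv, c7.hv_simple] at this
    · exact k3 r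

theorem Q_sur {u : V} (hu : u ∈ Lk 1) : ∃ q ∈ Q, pr 1 (π q (hv θ) + hv θ) = u := by
  obtain ⟨q, -, h1, h2⟩ := Wf_top.ge (Lk_le _ hu)
  have := pr_of_lt h2 one_lt_two
  rw [map_add, add_eq_zero_iff, pr_of_mem hu] at this
  exact ⟨q, h1, this⟩

theorem Q_ker {q : G} (hq : q ∈ Q) (h : pr 1 (π q (hv θ) + hv θ) = 0) : q = 1 ∨ q = x θ := by
  have k := add_pr_mem (P_h (Q_le_P hq))
  rw [h, add_zero] at k
  exact eq_of_Q hq k

end CF.E7t

namespace CF.M7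

open Module Submodule CF.Chev Cfsg.Lie Sum B1

theorem B1.Q_eq : D7.Q = E7t.Q := le_antisymm
  ((Subgroup.closure_le _).2 (by rintro _ ⟨r, h, rfl⟩; exact E7t.x_mem_Q h))
  fun _ hq => E7t.U_ind (p := fun g => g ∈ D7.Q) (one_mem _) (fun _ r _ hr => mul_mem (Subgroup.subset_closure
    ⟨r.val, lt_of_lt_of_eq hr (congrArg (fun s => E7t.deg (inr s)) (rt_fin r)).symm,
      congrArg E7t.x (rt_fin r).symm⟩)) hq

theorem B1.ex_iff {a : L7} : D7.Ex a ↔ a ∈ E7t.E :=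
  exists_congr fun g => by rw [smul_eq]; exact eq_comm

theorem B1.em_eq (M : Subgroup G7) : D7.EM M = E7t.EM M := Set.ext fun _ =>
  ⟨fun ⟨h, x, h1, h2⟩ => ⟨x, h1, ex_iff.1 h, isX_iff.1 h2⟩,
    fun ⟨x, h1, h2⟩ => ⟨ex_iff.2 h2.1, x, h1, isX_iff.2 h2.2⟩⟩

theorem B1.e1_eq (q : G7) : D7.e1 q = E7t.pr 1 (E7t.π q (E7t.hv E7t.θ) + E7t.hv E7t.θ) := by
  rw [map_add, E7t.pr_of_ne (E7t.hv_mem _) zero_ne_one, add_zero, Dt.e1, pj_eq, smul_eq, h_eq]

theorem B1.fix_iff {g : G7} : g • D7.e = D7.e ↔ g ∈ E7t.P := by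
  rw [smul_eq]; exact E7t.mem_P_iff.symm

section
variable {r : ℕ}

theorem ex_rv (r : ℕ) : D7.Ex (rv r) := ex_iff.2 (E7t.e_mem_E _)

theorem xr_Q (h : 93 ≤ r) (h' : r < 126) : xr r ∈ D7.Q :=
  Subgroup.subset_closure ⟨r, by rw [dg_rt h']; split_ifs <;> omega, rfl⟩

theorem e1_xr (h : 93 ≤ r) (h' : r < 125) : D7.e1 (xr r) = rv r := by
  have k : E7t.deg (inr (rt r)) = 1 := (dg_rt (by omega)).trans (by split_ifs <;> omega)
  refine (e1_eq _).trans ((congrArg (E7t.pr 1) (E7t.x_h (rt r))).trans ?_)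
  rw [k, Int.cast_one, one_smul]
  exact E7t.pr_of_mem (E7t.bv_mem k)

theorem xr_Lv (h : 33 ≤ r) (h' : r ≤ 92) : xr r ∈ D7.Lv := by
  have k : xr r ∈ E7t.L0 := E7t.x_mem_L0 ((dg_rt (by omega)).trans (by split_ifs <;> omega))
  exact ⟨fix_iff.2 (E7t.L0_le_P k), (smul_eq _ _).trans (E7t.L0_θ' k)⟩

theorem ax7 : D7.Ax where
  fin := inferInstance
  finG := E7t.instFiniteG
  br_smul := br_smul7
  fm_smul := fm_smul7
  faith g h := E7t.π_inj (LinearMap.ext fun v => ((smul_eq g v).symm.trans (h v)).trans (E7t.π_one v).symm)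
  br_self := br_self7
  jac := jac7
  fm_self := fm_self7
  fm_br := fm_br7
  sq := sq7 125
  fm_ef := (fm_eq _ _).trans E7t.gf_θ_θ'
  exX := ⟨_, xr_Q (by omega) (by omega), isX_xr 125⟩
  exf := ex_rv 0
  dec := dec7
  pj_pj := pj_pj7
  pj_big := pj_big7
  pj_e := pj_e7
  pj_f := pj_f7
  br_gr := br_gr7
  fm_gr := fm_gr7
  h_gr := h_gr7
  Q_fil q hq := by
    obtain ⟨u, hu, h⟩ := E7t.Q_fil (Q_eq.le hq)
    refine ⟨u, lg_iff.2 hu, fun k v hv j hj => ?_⟩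
    have := E7t.pr_of_lt (h k v (E7t.Lk_le _ (lg_iff.1 hv))) (show j < k + 2 by omega)
    rw [map_add, E7t.add_eq_zero_iff] at this
    exact (pj_eq _ _).trans ((congrArg (E7t.pr j) (smul_eq q v)).trans (this.trans (pj_eq _ _).symm))
  Q_sur u hu := (E7t.Q_sur (lg_iff.1 hu)).imp fun q h => ⟨Q_eq.ge h.1, (e1_eq q).trans h.2⟩
  Q_ker q hq h := (E7t.Q_ker (Q_eq.le hq) ((e1_eq q).symm.trans h)).imp_right fun e => by
    rw [e]; exact isX_xr 125
  Q_nrm k h q hq := Q_eq.ge (E7t.conj_mem_Q (fix_iff.1 h) (Q_eq.le hq))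
  P_dec k h := by
    obtain ⟨q, hq, l, hl, rfl⟩ := E7t.exists_QL (fix_iff.1 h)
    exact ⟨q, Q_eq.ge hq, (congrArg (q • ·) ((smul_eq l _).trans (E7t.L0_θ' hl)).symm).trans (mul_smul q l _).symm⟩
  gen M x h1 h2 h3 := E7t.eq_top_of_Q (Q_eq.ge.trans h1)
    (E7t.IsR.eq ⟨E7t.e_mem_E _, isX_iff.1 h3⟩ (E7t.isR_x E7t.θ') ▸ h2)
  lv_triv l hl h := E7t.eq_one_of_fix ((smul_eq _ _).symm.trans hl.1) ((smul_eq _ _).symm.trans hl.2)
    fun v hv => (smul_eq _ _).symm.trans (h v (lg_iff.2 hv))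

end

end CF.M7
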