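import Cfsg.Agent.M7.K0

/-! Maximal subgroups of `E₇(2)`: checkers. -/

set_option autoImplicit false

namespace CF.M7

open CF.Chev

noncomputable section

/-- Evaluate to a literal. -/
def force {α : Type} (n : ℕ) (k : ℕ → α) : α := Nat.rec (k 0) (fun m _ => k m) (Nat.succ n)
theorem force_eq {α : Type} (n : ℕ) (k : ℕ → α) : force n k = k n := rfl
def tb (v k : ℕ) : Bool := Nat.beq (Nat.land (Nat.shiftRight v k) 1) 1
/-- A vector, shifted and followed by a check sum. -/
def slt (v : ℕ) : ℕ := force v fun v => Nat.add (Nat.shiftLeft v 64) (Nat.mod v 18446744073709551557)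
def tbs (w k : ℕ) : Bool := Nat.beq (Nat.land (Nat.shiftRight w k) 0x10000000000000000) 0x10000000000000000
def allL {α : Type} (l : List α) (p : α → Bool) : Bool := List.rec true (fun x _ ih => cnd (p x) ih false) l
def anyL {α : Type} (l : List α) (p : α → Bool) : Bool := List.rec false (fun x _ ih => cnd (p x) true ih) l
def xs {α : Type} (l : List α) (g : α → ℕ) : ℕ := List.rec 0 (fun x _ ih => Nat.xor (g x) ih) l
def nth {α : Type} (l : List α) (d : α) (i : ℕ) : α :=
  List.rec (fun _ => d) (fun x _ ih i => Nat.rec x (fun j _ => ih j) i) l i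
/-- Evaluate the entries of a list. -/
def frL {α : Type} (l : List ℕ) (k : List ℕ → α) : α :=
  List.rec (fun k => k []) (fun x _ ih k => force x fun x => ih fun t => k (x :: t)) l k
/-- A sparse matrix applied to a vector. -/
def apw (T : SM) (w : ℕ) : ℕ := List.rec 0 (fun p _ ih => cnd (tbs w p.1) (Nat.xor p.2 ih) ih) T
def aps (T : SM) (v : ℕ) : ℕ := force (slt v) (apw T)
/-- The sum of the entries selected by a mask. -/
def cmb (l : List ℕ) (m : ℕ) : ℕ :=
  List.rec (fun _ => 0) (fun x _ ih m => force m fun m =>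
    cnd (tb m 0) (Nat.xor x (ih (Nat.shiftRight m 1))) (ih (Nat.shiftRight m 1))) l m
/-- The keys are coordinates. -/
def wf (T : SM) : Bool := allL T fun p => Nat.blt p.1 133
/-- The matrix of `g` on an echelon basis, evaluated. -/
def mat {α : Type} (E : SM) (g : ℕ → ℕ) (k : SM → α) : α :=
  List.rec (fun k => k []) (fun p _ ih k => force (g p.2) fun c => ih fun t => k ((p.1, c) :: t)) E k
/-- The matrices of a family of maps. -/
def mats {α β : Type} (E : SM) (l : List β) (g : β → ℕ → ℕ) (k : List SM → α) : α :=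
  List.rec (fun k => k []) (fun b _ ih k => mat E (g b) fun M => ih fun t => k (M :: t)) l k

def brB (a v : ℕ) : ℕ := aps (adR a) v
def brN (u v : ℕ) : ℕ := force (slt u) fun u => force (slt v) fun v =>
  Nat.rec 0 (fun a ih => cnd (tbs u a) (Nat.xor (apw (adR a) v) ih) ih) 133
def fmN (u v : ℕ) : Bool := force (slt (Nat.land u (aps gmT v))) fun w =>
  Nat.rec false (fun a ih => cnd (tbs w a) (cnd ih false true) ih) 133
def xN (r v : ℕ) : ℕ := force v fun v =>
  Nat.xor (Nat.xor v (brB r v)) (Nat.shiftLeft (Nat.land (Nat.shiftRight v (Nat.sub 125 r)) 1) r)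
def wN (w : List ℕ) (v : ℕ) : ℕ := List.rec v (fun r _ ih => xN r ih) w
/-- The letters are roots. -/
def okW (w : List ℕ) : Bool := allL w fun r => Nat.blt r 126
/-- The letters are roots of degree zero. -/
def okL (w : List ℕ) : Bool := allL w fun r => cnd (Nat.ble 33 r) (Nat.ble r 92) false
/-- The support of a vector among the roots of degree one. -/
def supp1 (u : ℕ) : List ℕ := force u fun u =>
  Nat.rec [] (fun i ih => cnd (tb u (Nat.add 93 i)) (Nat.add 93 i :: ih) ih) 32

/-- Reduced echelon bases: pairs (pivot, vector). -/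
def chkE (E : SM) : Bool := List.rec true (fun p t ih =>
  cnd (Nat.blt p.1 133) (cnd (tb p.2 p.1) (cnd (allL t fun q => cnd (tb q.2 p.1) false (cnd (tb p.2 q.1) false true))
    ih false) false) false) E
def red (E : SM) (v : ℕ) : ℕ := force v fun v => Nat.xor v (aps E v)
def mem (E : SM) (v : ℕ) : Bool := Nat.beq (red E v) 0
/-- Unit vectors `a, …, a + n - 1`. -/
def uE (a n : ℕ) : SM := Nat.rec [] (fun i ih => (Nat.add a i, Nat.shiftLeft 1 (Nat.add a i)) :: ih) n
def E1 : SM := uE 93 32
def E0 : SM := uE 33 60 ++ uE 126 7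
def EL : SM := uE 0 133
/-- A vector of the span of `A` killed by all `φ a` lies in the span of `E`. -/
def kerC {α : Type} (A E : SM) (l : List (α × SM)) (φ : α → ℕ → ℕ) : Bool :=
  cnd (allL l fun p => wf p.2)
    (allL A fun a => force a.2 fun a => Nat.beq (red E a) (xs l fun p => aps p.2 (φ p.1 a))) false
/-- The sums of the subsets. -/
def subs (K : SM) : List ℕ := List.rec [0] (fun p _ ih => ih ++ ih.map (Nat.xor p.2)) K
/-- A polynomial in a matrix. -/
def pol (M : SM) (p d v : ℕ) : ℕ := force v fun v =>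
  Nat.rec 0 (fun i ih => Nat.xor (aps M ih) (cnd (tb p (Nat.sub d (Nat.succ i))) v 0)) d
/-- A walk. -/
def walk (g : ℕ → ℕ → ℕ) (w : List ℕ) (v : ℕ) {α : Type} (k : List ℕ → α) : α :=
  List.rec (fun v k => force v fun v => k [v]) (fun j _ ih v k => force v fun v => ih (g j v) fun t => k (v :: t)) w v k

/-- Certificates of irreducibility. -/
structure Nor where
  t : List (List ℕ)
  p : ℕ
  d : ℕ
  K : SM
  k1 : ℕ
  qs : List ℕ
  wk : List ℕ
  ms : List ℕ
  dw : List (ℕ × SM)

/-- The dual walk. -/
def dwk (gs : List SM) (a : SM) (dw : List (ℕ × SM)) (v : ℕ) : ℕ :=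
  List.rec (fun _ => 0) (fun p _ ih v => force v fun v =>
    Nat.xor (aps p.2 (aps a v)) (ih (aps (nth gs [] p.1) v))) dw v

/-- The section `A / B` is irreducible under the matrices `gs`. -/
def Nor.chk (c : Nor) (A B : SM) (gs : List SM) : Bool :=
  mat A (fun v => xs c.t fun w => List.rec v (fun j _ ih => aps (nth gs [] j) ih) w) fun t =>
  mat A (fun v => red B (pol t c.p c.d v)) fun a =>
  cnd (wf c.K) (cnd (allL a fun p => mem c.K p.2)
    (cnd (Nat.beq c.qs.length (subs c.K).length) (cnd (allL ((subs c.K).zip c.qs) fun p => force p.1 fun x =>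
      cnd (Nat.beq x 0) true (Nat.beq (red B (pol t p.2 7 x)) c.k1))
    (cnd (Nat.beq c.ms.length A.length) (cnd (walk (fun j => aps (nth gs [] j)) c.wk c.k1 fun V =>
      allL (A.zip c.ms) fun p => mem B (Nat.xor p.1.2 (cmb V p.2)))
    (cnd (allL c.dw fun p => wf p.2) (allL A fun p => Nat.beq (red B p.2) (dwk gs a c.dw p.2)) false)
    false) false) false) false) false) false

/-- Certificates for a subspace `U` of `L₁`. -/
structure Cs where
  U : SM
  N : SM
  C : SM
  rN : List (ℕ × SM)
  rC : List (ℕ × SM)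
  rD : List (ℕ × SM)
  gs : List (List ℕ)
  nor : Nor
  st : List (ℕ × List ℕ)
  S : SM
  ms : List ℕ

namespace Cs
variable (c : Cs)

def m0 : ℕ := 0x1fc00000001ffffffffffffffe00000000
def m1 : ℕ := 0x1fffffffe00000000000000000000000
def mm : ℕ := 0x1fffffffe
def eN : ℕ := 0x20000000000000000000000000000000

/-- Membership in `YU`. -/
def memY (v : ℕ) : Bool := force v fun v =>
  cnd (mem c.U (Nat.land v m1)) (cnd (mem c.U (brB 125 (Nat.land v mm))) (mem c.N (Nat.land v m0)) false) false
/-- Echelon forms, degrees and dimensions. -/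
def chk1 : Bool :=
  cnd (chkE c.U) (cnd (chkE c.N) (cnd (allL c.U fun p => mem E1 p.2) (cnd (allL c.N fun p => mem E0 p.2)
    (cnd (Nat.blt 0 c.U.length) (cnd (Nat.blt c.U.length 32) (cnd (Nat.ble (2 * c.U.length + c.N.length) 109)
    (cnd (wf c.C) (Nat.ble c.C.length 26) false) false) false) false) false) false) false) false
/-- The normalizer, the centralizer and the radical. -/
def chk2 : Bool :=
  cnd (allL c.N fun a => allL c.U fun u => mem c.U (brN a.2 u.2))
    (cnd (allL c.rN fun p => mem c.U p.1) (cnd (kerC E0 c.N c.rN fun u a => red c.U (brN a u))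
    (cnd (allL c.rC fun p => mem c.U p.1) (cnd (kerC c.N c.C c.rC fun u a => brN a u)
    (cnd (allL c.rD fun p => mem c.U p.1) (kerC c.U [] c.rD fun u a => brN a u) false) false) false) false) false) false
/-- The elements of `Q`. -/
def chk3 : Bool := allL c.U fun u => frL (supp1 u.2) fun w =>
  cnd (c.memY (wN w 1)) (cnd (allL c.U fun p => c.memY (wN w (brB 0 p.2))) (allL c.N fun p => c.memY (wN w p.2))
    false) false
/-- Irreducibility of `L₁ / U`. -/
def chk4 : Bool :=
  cnd (allL c.gs okL) (mats E1 c.gs wN fun gs =>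
    cnd (allL gs fun M => allL c.U fun u => mem c.U (aps M u.2)) (c.nor.chk E1 c.U gs) false) false
/-- The words that are used to span. -/
def hs : List (List ℕ) := [125] :: [0] :: (c.gs ++ c.U.map fun u => supp1 u.2)
def vs {α : Type} (k : List ℕ → α) : α :=
  List.rec (fun k => k []) (fun p _ ih k => walk (fun j => wN (nth c.hs [] j)) p.2 (Nat.shiftLeft 1 p.1) fun V =>
    ih fun t => k (V ++ t)) c.st k
/-- The span of the extremal vectors. -/
def chk5 : Bool :=
  cnd (allL c.st fun p => cnd (Nat.beq p.1 125) true (cnd (okL [p.1]) (allL c.U fun u => Nat.beq (brB p.1 u.2) 0) false))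
    (cnd (chkE c.S) (cnd (Nat.ble 22 c.S.length) (cnd (Nat.beq c.ms.length c.S.length)
      (c.vs fun V => allL (c.S.zip c.ms) fun p => Nat.beq p.1.2 (cmb V p.2)) false) false) false) false
/-- Reducibility of a section. -/
def spl (A B W : SM) : Bool :=
  cnd (chkE W) (cnd (allL B fun p => mem W p.2) (cnd (allL W fun p => mem A p.2) (cnd (Nat.blt B.length W.length)
    (cnd (Nat.blt W.length A.length) (allL c.N fun a => allL W fun w => mem W (brN a.2 w.2)) false) false) false)
    false) false
/-- Irreducibility of a section. -/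
def nspl (A B : SM) (bs : List ℕ) (n : Nor) : Bool :=
  cnd (allL bs fun b => mem c.N b) (mats A bs brN fun gs => n.chk A B gs) false

end Cs

end

end CF.M7
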