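import Cfsg.Agent.M7.K1

/-! Maximal subgroups of `E₇(2)`: bit masks and vectors. -/

set_option autoImplicit false

namespace CF.M7

open Module Submodule CF.Chev Cfsg.Lie Sum

/-- The coordinate with a given bit. -/
noncomputable def co (k : ℕ) : L7 →ₗ[F] F := if h : k < 126 + 7 then LinearMap.proj (exists_cd h).choose else 0
/-- The linear map of a sparse matrix. -/
noncomputable def lin (T : SM) : L7 →ₗ[F] L7 := (T.map fun p => (co p.1).smulRight (toL p.2)).sum
/-- The span of a basis. -/
def sp (E : SM) : Submodule F L7 := span F {v | ∃ p ∈ E, toL p.2 = v}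

variable {m n r : ℕ} {T E A B W : SM} {w : List ℕ} {v : L7} {N : Submodule F L7}

theorem allL_iff {α : Type} {l : List α} {p : α → Bool} : allL l p = true ↔ ∀ x ∈ l, p x = true := by
  induction l with
  | nil => simp [allL]
  | cons x t ih =>
    rw [List.forall_mem_cons, ← ih]
    show cnd (p x) (allL t p) false = true ↔ _
    cases p x <;> simp

theorem anyL_iff {α : Type} {l : List α} {p : α → Bool} : anyL l p = true ↔ ∃ x ∈ l, p x = true := by
  induction l with
  | nil => simp [anyL]
  | cons x t ih =>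
    rw [List.exists_mem_cons_iff, ← ih]
    show cnd (p x) true (anyL t p) = true ↔ _
    cases p x <;> simp

theorem tb_eq (v k : ℕ) : tb v k = v.testBit k := by
  rw [tb, Nat.testBit, Nat.land_eq, Nat.shiftRight_eq, Nat.and_comm, Nat.one_and_eq_mod_two]
  rcases Nat.mod_two_eq_zero_or_one (v >>> k) with h | h <;> rw [h] <;> rfl

theorem tbs_slt (v k : ℕ) : tbs (slt v) k = tb v k := by
  have l : v % 18446744073709551557 < 2 ^ 64 := (Nat.mod_lt _ (by norm_num)).trans (by norm_num)
  have e : (slt v).testBit (k + 64) = v.testBit k := by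
    show (v <<< 64 + v % 18446744073709551557).testBit _ = _
    rw [Nat.shiftLeft_eq, mul_comm, Nat.testBit_two_pow_mul_add _ l, if_neg (by omega), Nat.add_sub_cancel]
  rw [tb_eq, ← e, ← Nat.testBit_shiftRight]
  show Nat.beq (slt v >>> k &&& 2 ^ 64) (2 ^ 64) = _
  rw [Nat.and_two_pow]
  cases (slt v >>> k).testBit 64 <;> rfl

theorem nth_eq {α : Type} (l : List α) (d : α) (i : ℕ) : nth l d i = l.getD i d := by
  induction l generalizing i with
  | nil => rfl
  | cons x t ih =>
    cases i with
    | zero => rfl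
    | succ j => exact ih j

theorem frL_eq {α : Type} (l : List ℕ) (k : List ℕ → α) : frL l k = k l := by
  induction l generalizing k with
  | nil => rfl
  | cons x t ih =>
    show force x (fun x => frL t fun s => k (x :: s)) = _
    rw [force_eq, ih]

theorem mat_eq {α : Type} (E : SM) (g : ℕ → ℕ) (k : SM → α) : mat E g k = k (E.map fun p => (p.1, g p.2)) := by
  induction E generalizing k with
  | nil => rfl
  | cons p t ih =>
    show force (g p.2) (fun c => mat t g fun s => k ((p.1, c) :: s)) = _
    rw [force_eq, ih]; rfl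

theorem mats_eq {α β : Type} (E : SM) (l : List β) (g : β → ℕ → ℕ) (k : List SM → α) :
    mats E l g k = k (l.map fun b => E.map fun p => (p.1, g b p.2)) := by
  induction l generalizing k with
  | nil => rfl
  | cons b t ih =>
    show mat E (g b) (fun M => mats E t g fun s => k (M :: s)) = _
    rw [mat_eq, ih]; rfl

theorem toL_zero : toL 0 = 0 := by
  funext c; simp [toL]

theorem toL_xor (m n : ℕ) : toL (Nat.xor m n) = toL m + toL n := by
  funext c
  rw [Pi.add_apply, toL, toL, toL, Nat.xor_eq, Nat.testBit_xor]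
  cases m.testBit (cd c) <;> cases n.testBit (cd c) <;> decide

namespace K2

theorem toL_pow (c : chevE7.Idx) : toL (2 ^ cd c) = Pi.single c 1 := by
  funext d
  rw [toL, Pi.single_apply]
  simp only [Nat.testBit_two_pow, decide_eq_true_eq, cd_injective.eq_iff, eq_comm (a := c)]

theorem co_cd (c : chevE7.Idx) (v : L7) : co (cd c) v = v c := by
  have h : cd c < 126 + 7 := cd_lt c
  have e : co (cd c) = LinearMap.proj (exists_cd h).choose := dif_pos h
  rw [e]
  exact congrArg v (cd_injective (exists_cd h).choose_spec)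

theorem lin_cons (p : ℕ × ℕ) (T : SM) (v : L7) : lin (p :: T) v = co p.1 v • toL p.2 + lin T v := rfl

theorem aps_cons (p : ℕ × ℕ) (T : SM) (n : ℕ) :
    aps (p :: T) n = if n.testBit p.1 then Nat.xor p.2 (aps T n) else aps T n := by
  rw [aps, aps, force_eq, force_eq, ← tb_eq, ← tbs_slt, ← cnd_eq]; rfl

theorem cmb_cons (x : ℕ) (l : List ℕ) (m : ℕ) :
    cmb (x :: l) m = if m.testBit 0 then Nat.xor x (cmb l (m >>> 1)) else cmb l (m >>> 1) := by
  rw [← tb_eq, ← cnd_eq]
  exact force_eq m fun m => cnd (tb m 0) (Nat.xor x (cmb l (Nat.shiftRight m 1))) (cmb l (Nat.shiftRight m 1))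

end K2

open K2

theorem toL_surj (v : L7) : ∃ n, toL n = v := by
  induction v using Pi.single_induction with
  | zero => exact ⟨0, toL_zero⟩
  | add f g hf hg =>
    obtain ⟨a, rfl⟩ := hf
    obtain ⟨b, rfl⟩ := hg
    exact ⟨_, toL_xor a b⟩
  | single c x =>
    rcases (by decide : ∀ x : F, x = 0 ∨ x = 1) x with rfl | rfl
    · exact ⟨0, by rw [toL_zero, Pi.single_zero]⟩
    · exact ⟨_, toL_pow c⟩

theorem toL_rv (h : r < 126) : toL (2 ^ r) = rv r := by
  have e : cd (inr (rt r) : chevE7.Idx) = r := Nat.mod_eq_of_lt h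
  rw [← e, toL_pow, e]; rfl

theorem co_toL (h : r < 133) (n : ℕ) : co r (toL n) = if n.testBit r then 1 else 0 := by
  obtain ⟨c, rfl⟩ := exists_cd (l := 7) (n := 126) h
  exact co_cd c _

theorem toL_inj (hm : m < 2 ^ 133) (hn : n < 2 ^ 133) (h : toL m = toL n) : m = n := by
  refine Nat.eq_of_testBit_eq fun i => ?_
  by_cases k : i < 133
  · have e := co_toL k m
    rw [h, co_toL k] at e
    revert e
    cases m.testBit i <;> cases n.testBit i <;> decide
  · have l : 2 ^ 133 ≤ 2 ^ i := Nat.pow_le_pow_right (by norm_num) (by omega)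
    rw [Nat.testBit_lt_two_pow (hm.trans_le l), Nat.testBit_lt_two_pow (hn.trans_le l)]

theorem toL_aps (h : wf T = true) (n : ℕ) : toL (aps T n) = lin T (toL n) := by
  induction T with
  | nil => rw [aps, force_eq]; exact toL_zero
  | cons p t ih =>
    rw [wf, allL_iff, List.forall_mem_cons, ← allL_iff] at h
    rw [aps_cons, lin_cons, co_toL (Nat.blt_eq ▸ h.1), ← ih h.2]
    split_ifs
    · rw [toL_xor, one_smul]
    · rw [zero_smul, zero_add]

theorem toL_xs {α : Type} (l : List α) (g : α → ℕ) : toL (xs l g) = (l.map fun x => toL (g x)).sum := by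
  induction l with
  | nil => exact toL_zero
  | cons x t ih => rw [List.map_cons, List.sum_cons, ← ih]; exact toL_xor _ _

theorem cmb_mem {l : List ℕ} (h : ∀ x ∈ l, toL x ∈ N) (m : ℕ) : toL (cmb l m) ∈ N := by
  induction l generalizing m with
  | nil => exact toL_zero ▸ zero_mem N
  | cons x t ih =>
    rw [List.forall_mem_cons] at h
    rw [cmb_cons]
    split_ifs
    · rw [toL_xor]; exact add_mem h.1 (ih h.2 _)
    · exact ih h.2 _

end CF.M7
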