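import Cfsg.Agent.M7.K2
import Cfsg.Agent.M7.B1

/-! Maximal subgroups of `E₇(2)`: the Lie algebra on bit masks. -/

set_option autoImplicit false

namespace CF.M7

open Module Submodule CF.Chev Cfsg.Lie Sum LieBasis Matrix

variable {m n r : ℕ} {w : List ℕ}

namespace K2b

theorem toL_two (c : chevE7.Idx) : toL (2 ^ cd c) = bv F c := by
  ext d
  simp [toL, Nat.testBit_two_pow, cd_injective.eq_iff, bv_apply, eq_comm]

theorem toL_succ (u k : ℕ) :
    toL (u % 2 ^ (k + 1)) = (if u.testBit k then toL (2 ^ k) else 0) + toL (u % 2 ^ k) := by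
  ext c
  rcases lt_trichotomy (cd c) k with h | h | h
  · cases u.testBit k <;> simp [toL, h, h.ne', h.le]
  · cases e : u.testBit k <;> simp [toL, h, e]
  · cases u.testBit k <;> simp [toL, h.ne, h.not_gt, h.not_ge]

theorem toL_mod (u : ℕ) : toL (u % 2 ^ 133) = toL u := by
  ext c
  have : cd c < 133 := cd_lt c
  simp only [toL, Nat.testBit_mod_two_pow, this, decide_true, Bool.true_and]

theorem ext_bv {V : Type} [AddCommGroup V] [Module F V] {γ δ : L7 →ₗ[F] V}
    (h : ∀ c, γ (bv F c) = δ (bv F c)) : γ = δ := (Pi.basisFun F _).ext fun c => by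
  rw [Pi.basisFun_apply]; exact h c

/-- The mask of a sparse vector. -/
noncomputable def msk (L : SV) : ℕ := List.rec 0 (fun x _ ih =>
  cnd (Nat.beq (Nat.mod (Int.natAbs x.2) 2) 1) (Nat.xor (Nat.shiftLeft 1 x.1) ih) ih) L

theorem toL_msk (L : SV) (c : chevE7.Idx) : toL (msk L) c = (coef L (cd c) : F) := by
  induction L with
  | nil => exact congrFun toL_zero c
  | cons x L ih =>
    show toL (cnd (Nat.beq (x.2.natAbs % 2) 1) (Nat.xor (1 <<< x.1) (msk L)) (msk L)) c = _
    rw [coef_cons, Int.cast_add, ← ih, cnd_eq]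
    by_cases h : Odd x.2
    · rw [if_pos (by simpa [Nat.odd_iff] using Int.natAbs_odd.2 h), toL_xor, Nat.one_shiftLeft]
      simp [toL, Nat.testBit_two_pow, h.intCast_zmod_two]
    · rw [if_neg (by simpa [← Nat.odd_iff, Int.natAbs_odd] using h)]
      simp [(Int.not_odd_iff_even.1 h).intCast_zmod_two]

/-- The sparse matrix with given columns. -/
noncomputable def bld (f : ℕ → ℕ) (k : ℕ) : SM := Nat.rec [] (fun i ih => force (Nat.sub 132 i) fun b =>
  force (f b) fun c => cnd (Nat.beq c 0) ih ((b, c) :: ih)) k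

theorem lin_bld (f : ℕ → ℕ) (b : chevE7.Idx) {k : ℕ} (h : k ≤ 133) :
    lin (bld f k) (bv F b) = if 133 ≤ cd b + k then toL (f (cd b)) else 0 := by
  have hb : cd b < 133 := cd_lt b
  induction k with
  | zero => exact (if_neg (by omega)).symm
  | succ k ih =>
    have e : lin (bld f (k + 1)) (bv F b) =
        co (132 - k) (bv F b) • toL (f (132 - k)) + lin (bld f k) (bv F b) := by
      show lin (force (132 - k) fun b => force (f b) fun c =>
        cnd (Nat.beq c 0) (bld f k) ((b, c) :: bld f k)) _ = _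
      rw [force_eq, force_eq, cnd_eq]
      split_ifs with z
      · rw [Nat.eq_of_beq_eq_true z, toL_zero, smul_zero, zero_add]
      · rfl
    rw [e, ih (by omega), ← toL_two, co_toL (by omega), Nat.testBit_two_pow]
    by_cases c : cd b = 132 - k
    · rw [if_neg (by omega : ¬ 133 ≤ cd b + k), if_pos (by omega : 133 ≤ cd b + (k + 1)), ← c]
      simp
    · simp [c, show 133 ≤ cd b + k ↔ 133 ≤ cd b + (k + 1) by omega]

theorem ad_chk : ∀ a < 133, wf (adR a) = true ∧
    adR a = bld (fun b => msk (tabE7.br 126 a b)) 133 := by decide +kernel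

theorem lin_ad (a : chevE7.Idx) : lin (adR (cd a)) = D7.br (bv F a) := ext_bv fun b => by
  ext x
  rw [(ad_chk _ (cd_lt a)).2, lin_bld _ _ le_rfl, if_pos (Nat.le_add_left ..), toL_msk]
  show _ = (toLin' (cbE7.ad F (bv F a))) (bv F b) x
  rw [ad_bv, toLin'_apply, bv, mulVec_single_one]
  exact congrArg _ (Tab.brZ_eq certE7.good a b x).symm

theorem brB_cd (a : chevE7.Idx) (n : ℕ) : toL (brB (cd a) n) = D7.br (bv F a) (toL n) := by
  rw [brB, toL_aps (ad_chk _ (cd_lt a)).1, lin_ad]

theorem gm_chk : wf gmT = true ∧ ∀ b : chevE7.Idx, toL (aps gmT (2 ^ cd b)) = fun a => gram a b := by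
  decide +kernel

theorem lin_gm : lin gmT = toLin' gram := ext_bv fun b => by
  rw [← toL_two, ← toL_aps gm_chk.1, gm_chk.2, toL_two, toLin'_apply, bv, mulVec_single_one]
  rfl

theorem dg_chk : ∀ c : chevE7.Idx, (Cs.m0.testBit (cd c) ↔ dg c = 0) ∧
    (Cs.m1.testBit (cd c) ↔ dg c = 1) ∧ (Cs.mm.testBit (cd c) ↔ dg c = -1) := by decide +kernel

theorem toL_land {k : ℤ} (h : ∀ c : chevE7.Idx, m.testBit (cd c) ↔ dg c = k) (n : ℕ) :
    toL (Nat.land n m) = D7.pj k (toL n) := by
  ext c
  rw [pj_apply]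
  show (if (n &&& m).testBit _ then 1 else 0) = _
  by_cases e : dg c = k <;> simp [toL, h, e]

end K2b

open K2b

theorem toL_brB (h : r < 126) (n : ℕ) : toL (brB r n) = D7.br (rv r) (toL n) := by
  have := brB_cd (inr (rt r)) n
  rwa [cd_inr, B1.rt_val h] at this

theorem toL_brN (m n : ℕ) : toL (brN m n) = D7.br (toL m) (toL n) := by
  have : ∀ k ≤ 133, toL (Nat.rec 0 (fun a ih => cnd (tb m a) (Nat.xor (brB a n) ih) ih) k) =
      D7.br (toL (m % 2 ^ k)) (toL n) := fun k hk => by
    induction k with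
    | zero => rw [pow_zero, Nat.mod_one, toL_zero, map_zero]; exact toL_zero
    | succ k ih =>
      obtain ⟨c, rfl⟩ : ∃ c : chevE7.Idx, cd c = k := exists_cd hk
      rw [toL_succ, map_add, LinearMap.add_apply, ← ih (Nat.le_of_succ_le hk), toL_two]
      show toL (cnd (tb m _) _ _) = _
      rw [tb_eq]
      cases m.testBit (cd c)
      · exact (by rw [if_neg Bool.false_ne_true, map_zero]; exact zero_add _ : _ = toL _).symm
      · exact (toL_xor _ _).trans (by rw [brB_cd, if_pos rfl])
  rw [brN, force_eq, force_eq]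
  simp only [tbs_slt]
  exact (this _ le_rfl).trans (by rw [toL_mod])

theorem fmN_eq (m n : ℕ) : D7.fm (toL m) (toL n) = if fmN m n then 1 else 0 := by
  have : ∀ w, ∀ k ≤ 133, ∑ c, toL (w % 2 ^ k) c =
      if (Nat.rec false (fun a ih => cnd (tb w a) (cnd ih false true) ih) k : Bool) then 1 else 0 :=
    fun w k hk => by
      induction k with
      | zero => simp [Nat.mod_one, toL_zero]
      | succ k ih =>
        obtain ⟨c, rfl⟩ : ∃ c : chevE7.Idx, cd c = k := exists_cd hk
        simp only [toL_succ, Pi.add_apply, Finset.sum_add_distrib, ih (Nat.le_of_succ_le hk), toL_two]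
        have : ∀ a b : Bool, ∑ x, (if a then bv F c else 0) x + (if b then 1 else 0) =
            if cnd a (cnd b false true) b then 1 else 0 := fun a b => by
          cases a <;> cases b <;> simp [bv_apply]
          rfl
        rw [this, ← tb_eq]
  rw [fmN, force_eq]
  simp only [tbs_slt]
  rw [← this _ _ le_rfl, toL_mod]
  show toLinearMap₂' F gram _ _ = _
  rw [toLinearMap₂'_apply', ← toLin'_apply, ← lin_gm, ← toL_aps gm_chk.1]
  refine Finset.sum_congr rfl fun c _ => ?_
  show _ = if (m &&& _).testBit _ then 1 else 0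
  cases e : m.testBit (cd c) <;> simp [toL, e]

theorem toL_xN (h : r < 126) (n : ℕ) : toL (xN r n) = xr r • toL n := by
  rw [xN, force_eq, toL_xor, toL_xor, toL_brB h, isX_xr, fm_rv h]
  refine congrArg _ ?_
  show toL (((n >>> (125 - r)) &&& 1) <<< r) = toL n _ • _
  rw [Nat.and_one_is_mod, Nat.shiftRight_eq_div_pow, ← Nat.toNat_testBit, toL, cd_inr,
    B1.rt_val (by omega)]
  cases n.testBit (125 - r)
  · simp [toL_zero]
  · simp [Nat.one_shiftLeft, toL_rv h]

theorem toL_wN (h : okW w = true) (n : ℕ) : toL (wN w n) = wG w • toL n := by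
  rw [okW, allL_iff] at h
  induction w with
  | nil => exact (one_smul _ _).symm
  | cons r w ih =>
    obtain ⟨a, b⟩ := List.forall_mem_cons.1 h
    rw [show wG (r :: w) = xr r * wG w from rfl, mul_smul, ← ih b]
    exact toL_xN (by simpa using a) _

theorem toL_m0 (n : ℕ) : toL (Nat.land n Cs.m0) = D7.pj 0 (toL n) :=
  toL_land (fun c => (dg_chk c).1) n

theorem toL_m1 (n : ℕ) : toL (Nat.land n Cs.m1) = D7.pj 1 (toL n) :=
  toL_land (fun c => (dg_chk c).2.1) n

theorem toL_mm (n : ℕ) : toL (Nat.land n Cs.mm) = D7.pj (-1) (toL n) :=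
  toL_land (fun c => (dg_chk c).2.2) n

end CF.M7
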