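import Cfsg.Agent.M7.K2b

/-! Maximal subgroups of `E₇(2)`: echelon bases and certificates of irreducibility. -/

set_option autoImplicit false

namespace CF.M7

open Module Submodule CF.Chev Cfsg.Lie Sum

variable {m n r : ℕ} {T E A B W : SM} {w : List ℕ} {v : L7} {N N' N'' : Submodule F L7}
  {p : ℕ × ℕ} {f g : ℕ → ℕ}

namespace K3

theorem lin_cons (p : ℕ × ℕ) (T : SM) (v : L7) : lin (p :: T) v = co p.1 v • toL p.2 + lin T v := rfl

theorem gen (h : p ∈ E) : toL p.2 ∈ sp E := subset_span ⟨p, h, rfl⟩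

theorem sp_le : sp E ≤ N ↔ ∀ p ∈ E, toL p.2 ∈ N :=
  ⟨fun h _ k => h (gen k), fun h => span_le.2 fun _ ⟨p, k, e⟩ => e ▸ h p k⟩

theorem sp_ext {V : Type} [AddCommGroup V] [Module F V] {γ δ : L7 →ₗ[F] V}
    (h : ∀ p ∈ E, γ (toL p.2) = δ (toL p.2)) (k : v ∈ sp E) : γ v = δ v :=
  (sp_le (N := LinearMap.eqLocus γ δ)).2 h k

theorem sp_cons (p : ℕ × ℕ) (E : SM) : sp (p :: E) = span F {toL p.2} ⊔ sp E := by
  refine le_antisymm (sp_le.2 fun q hq => ?_) (sup_le (span_le.2 ?_) (sp_le.2 fun q hq => ?_))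
  · rcases List.mem_cons.1 hq with rfl | h
    · exact mem_sup_left (mem_span_singleton_self _)
    · exact mem_sup_right (gen h)
  · exact Set.singleton_subset_iff.2 (gen List.mem_cons_self)
  · exact gen (List.mem_cons_of_mem _ hq)

theorem wf_iff : wf T = true ↔ ∀ p ∈ T, p.1 < 133 := by simp [wf, allL_iff]

theorem chkE_cons : chkE (p :: E) = true ↔ p.1 < 133 ∧ p.2.testBit p.1 = true ∧
    (∀ q ∈ E, q.2.testBit p.1 = false ∧ p.2.testBit q.1 = false) ∧ chkE E = true := by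
  show cnd _ (cnd _ (cnd _ (chkE E) _) _) _ = true ↔ _
  simp [allL_iff, tb_eq]

theorem of_add (h : v + lin E v = 0) (k : lin E v ∈ N) : v ∈ N :=
  eq_neg_of_add_eq_zero_left h ▸ neg_mem k

theorem wf_map (h : wf E = true) (g : ℕ → ℕ) : wf (E.map fun p => (p.1, g p.2)) = true :=
  wf_iff.2 fun p hp => by
    obtain ⟨q, hq, rfl⟩ := List.mem_map.1 hp
    exact wf_iff.1 h q hq

theorem mem_uE {a : ℕ} : p ∈ uE a n ↔ ∃ k, (a ≤ k ∧ k < a + n) ∧ p = (k, 2 ^ k) := by
  induction n with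
  | zero => exact ⟨fun h => (nomatch h), fun ⟨_, h, _⟩ => by omega⟩
  | succ n ih =>
    show p ∈ (a + n, 1 <<< (a + n)) :: uE a n ↔ _
    rw [List.mem_cons, ih, Nat.one_shiftLeft]
    refine ⟨fun h => h.elim (fun e => ⟨_, by omega, e⟩) fun ⟨k, h, e⟩ => ⟨k, by omega, e⟩,
      fun ⟨k, h, e⟩ => ?_⟩
    by_cases c : k = a + n
    · exact .inl (c ▸ e)
    · exact .inr ⟨k, by omega, e⟩

theorem toL_two (k : ℕ) (c : chevE7.Idx) : toL (2 ^ k) c = if k = cd c then 1 else 0 := by
  simp [toL, Nat.testBit_two_pow]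

theorem sp_co {P : ℕ → Prop} (h : ∀ p, p ∈ E ↔ ∃ k, P k ∧ p = (k, 2 ^ k)) :
    v ∈ sp E ↔ ∀ c, ¬ P (cd c) → v c = 0 := by
  refine ⟨fun k c hc => sp_ext (γ := LinearMap.proj c) (δ := 0) (fun p hp => ?_) k, fun k => ?_⟩
  · obtain ⟨k, hk, rfl⟩ := (h p).1 hp
    exact (toL_two k c).trans (if_neg fun e : k = cd c => hc (e ▸ hk))
  · classical
    rw [pi_eq_sum_univ v]
    refine sum_mem fun c _ => ?_
    by_cases e : P (cd c)
    · refine smul_mem _ _ ?_
      convert gen ((h _).2 ⟨_, e, rfl⟩) with d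
      rw [toL_two]
      simp only [cd_injective.eq_iff]
    · rw [k c e, zero_smul]; exact zero_mem _

theorem dg_cd (c : chevE7.Idx) : dg c = if cd c = 0 then -2 else if cd c ≤ 32 then -1 else
    if cd c ≤ 92 then 0 else if cd c ≤ 124 then 1 else if cd c = 125 then 2 else 0 := by
  rcases c with i | r
  · have : cd (inl i : chevE7.Idx) = 126 + i := rfl
    rw [dg_inl, this]
    split_ifs <;> omega
  · have h : r.1 < 126 := r.2
    have e : rt r = r := Fin.ext (Nat.mod_eq_of_lt h)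
    have := dg_rt h
    rw [e] at this
    rw [this, show cd (inr r : chevE7.Idx) = r from rfl]
    split_ifs <;> omega

theorem cd_lt7 (c : chevE7.Idx) : cd c < 133 := cd_lt c

theorem ex_zip {α β : Type} {l : List α} {l' : List β} (h : l'.length = l.length) {a : α}
    (ha : a ∈ l) : ∃ b, (a, b) ∈ l.zip l' := by
  rw [← List.map_fst_zip (l₁ := l) (l₂ := l') h.ge] at ha
  obtain ⟨p, hp, rfl⟩ := List.mem_map.1 ha
  exact ⟨p.2, hp⟩

theorem subs_sp (h : v ∈ sp E) : ∃ s ∈ subs E, toL s = v := by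
  induction E generalizing v with
  | nil => exact ⟨0, List.mem_singleton_self _, toL_zero.trans
      ((sp_le (N := ⊥)).2 (List.forall_mem_nil _) h).symm⟩
  | cons p E ih =>
    rw [sp_cons] at h
    obtain ⟨_, h1, b, h2, rfl⟩ := mem_sup.1 h
    obtain ⟨c, rfl⟩ := mem_span_singleton.1 h1
    obtain ⟨s, hs, rfl⟩ := ih h2
    rcases (by decide : ∀ c : F, c = 0 ∨ c = 1) c with rfl | rfl
    · exact ⟨s, List.mem_append_left _ hs, by rw [zero_smul, zero_add]⟩
    · exact ⟨_, List.mem_append_right _ (List.mem_map_of_mem hs), by rw [one_smul, toL_xor]⟩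

end K3

open K3

theorem wf_of (h : chkE E = true) : wf E = true := by
  induction E with
  | nil => rfl
  | cons p E ih =>
    obtain ⟨a, -, -, b⟩ := chkE_cons.1 h
    exact wf_iff.2 (List.forall_mem_cons.2 ⟨a, wf_iff.1 (ih b)⟩)

theorem lin_mem (T : SM) (v : L7) : lin T v ∈ sp T := by
  induction T with
  | nil => exact zero_mem _
  | cons p T ih =>
    rw [lin_cons, sp_cons]
    exact add_mem_sup (smul_mem _ _ (mem_span_singleton_self _)) ih

theorem toL_red (h : wf E = true) (n : ℕ) : toL (red E n) = toL n + lin E (toL n) := by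
  rw [red, force_eq, toL_xor, toL_aps h]

theorem mem_sp (h : wf E = true) (k : mem E n = true) : toL n ∈ sp E :=
  of_add (by rw [← toL_red h, Nat.eq_of_beq_eq_true k, toL_zero]) (lin_mem E _)

theorem K3.lin_zero (h : ∀ q ∈ E, q.1 < 133 ∧ n.testBit q.1 = false) (g : ℕ → ℕ) :
    lin (E.map fun p => (p.1, g p.2)) (toL n) = 0 := by
  induction E with
  | nil => rfl
  | cons p E ih =>
    obtain ⟨a, b⟩ := List.forall_mem_cons.1 h
    rw [List.map_cons, lin_cons, ih b, co_toL a.1, a.2]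
    simp

theorem K3.lin_gen (h : chkE E = true) (g : ℕ → ℕ) (k : p ∈ E) :
    lin (E.map fun p => (p.1, g p.2)) (toL p.2) = toL (g p.2) := by
  induction E with
  | nil => nomatch k
  | cons q E ih =>
    obtain ⟨a, b, c, d⟩ := chkE_cons.1 h
    rw [List.map_cons, lin_cons, co_toL a]
    rcases List.mem_cons.1 k with rfl | k
    · rw [lin_zero fun q hq => ⟨wf_iff.1 (wf_of d) q hq, (c q hq).2⟩, b]
      simp
    · rw [ih d k, (c p k).1]
      simp

theorem lin_mat (h : chkE E = true) {g : ℕ → ℕ} {γ : L7 →ₗ[F] L7} (e : ∀ n, toL (g n) = γ (toL n))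
    (k : v ∈ sp E) : lin (E.map fun p => (p.1, g p.2)) v = γ v :=
  sp_ext (fun _ hp => (lin_gen h g hp).trans (e _)) k

theorem lin_self (h : chkE E = true) (k : v ∈ sp E) : lin E v = v := by
  simpa using lin_mat h (g := id) (γ := LinearMap.id) (fun _ => rfl) k

theorem finrank_sp_le (E : SM) : finrank F (sp E) ≤ E.length := by
  induction E with
  | nil => rw [eq_bot_iff.2 ((sp_le (N := ⊥)).2 (List.forall_mem_nil _)), finrank_bot]; rfl
  | cons p E ih =>
    rw [sp_cons]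
    refine (finrank_add_le_finrank_add_finrank _ _).trans ?_
    have := finrank_span_finset_le_card (R := F) {toL p.2}
    rw [Finset.coe_singleton, Finset.card_singleton, Set.finrank] at this
    rw [List.length_cons]
    omega

theorem finrank_sp (h : chkE E = true) : finrank F (sp E) = E.length := by
  refine (finrank_sp_le E).antisymm ?_
  induction E with
  | nil => exact Nat.zero_le _
  | cons p E ih =>
    obtain ⟨a, b, c, d⟩ := chkE_cons.1 h
    refine (ih d).trans_lt (finrank_lt_finrank_of_lt (SetLike.lt_iff_le_and_exists.2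
      ⟨sp_cons p E ▸ le_sup_right, _, gen List.mem_cons_self, fun k => ?_⟩))
    have := sp_ext (γ := co p.1) (δ := 0) (fun q hq => by simp [co_toL a, (c q hq).1]) k
    simp [co_toL a, b] at this

theorem chkE_E1 : chkE E1 = true := by decide +kernel

theorem chkE_EL : chkE EL = true := by decide +kernel

theorem sp_E1 : sp E1 = D7.Lg 1 := by
  ext v
  rw [E1, sp_co fun _ => mem_uE, mem_Lg]
  refine forall_congr' fun c => imp_congr_left ?_
  rw [dg_cd]
  split_ifs <;> omega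

theorem sp_E0 : sp E0 = D7.Lg 0 := by
  ext v
  rw [E0, sp_co (P := fun k => (33 ≤ k ∧ k < 33 + 60) ∨ (126 ≤ k ∧ k < 126 + 7)) fun _ => by
    simp only [List.mem_append, mem_uE, or_and_right, exists_or], mem_Lg]
  refine forall_congr' fun c => imp_congr_left ?_
  have := cd_lt7 c
  rw [dg_cd]
  split_ifs <;> omega

theorem sp_EL : sp EL = ⊤ :=
  eq_top_iff.2 fun _ _ => (sp_co fun _ => mem_uE).2 fun c h => absurd ⟨Nat.zero_le _, cd_lt7 c⟩ h

theorem kerC_sp {α : Type} {l : List (α × SM)} {φ : α → ℕ → ℕ} (h : kerC A E l φ = true)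
    (hE : wf E = true) (γ : α → L7 →ₗ[F] L7) (e : ∀ p ∈ l, ∀ n, toL (φ p.1 n) = γ p.1 (toL n))
    (hv : v ∈ sp A) (k : ∀ p ∈ l, γ p.1 v = 0) : v ∈ sp E := by
  simp only [kerC, cnd_eq, force_eq, Bool.if_false_right, Bool.and_eq_true, allL_iff,
    decide_eq_true_eq, Nat.beq_eq] at h
  have s : ∀ v, (l.map fun p => lin p.2 ∘ₗ γ p.1).sum v = (l.map fun p => lin p.2 (γ p.1 v)).sum :=
    fun v => by clear * -; induction l <;> simp_all
  have := sp_ext (γ := LinearMap.id + lin E) (δ := (l.map fun p => lin p.2 ∘ₗ γ p.1).sum)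
    (fun a ha => by
      rw [s, ← List.map_congr_left fun p hp => (toL_aps (h.1 p hp) _).trans (congrArg _ (e p hp _)),
        ← toL_xs, ← h.2 a ha, toL_red hE]
      rfl) hv
  refine of_add (this.trans ?_) (lin_mem E v)
  rw [s]
  exact List.sum_eq_zero fun x hx => by
    obtain ⟨p, hp, rfl⟩ := List.mem_map.1 hx
    rw [k p hp, map_zero]

theorem walk_mem {α : Type} {g : ℕ → ℕ → ℕ} {S : Set ℕ} (h : ∀ j, ∀ n ∈ S, g j n ∈ S) (w : List ℕ)
    (hn : n ∈ S) (k : List ℕ → α) : ∃ V, (∀ x ∈ V, x ∈ S) ∧ walk g w n k = k V := by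
  induction w generalizing n k with
  | nil => exact ⟨[n], by simpa using hn, force_eq n fun v => k [v]⟩
  | cons j w ih =>
    obtain ⟨V, a, b⟩ := ih (h j n hn) fun t => k (n :: t)
    exact ⟨n :: V, List.forall_mem_cons.2 ⟨hn, a⟩,
      (force_eq n fun v => walk g w (g j v) fun t => k (v :: t)).trans b⟩

namespace K3

/-- `g` represents a linear map that sends `N` to `N'`. -/
def Li (N N' : Submodule F L7) (g : ℕ → ℕ) : Prop :=
  ∃ γ : L7 →ₗ[F] L7, (∀ n, toL (g n) = γ (toL n)) ∧ ∀ v ∈ N, γ v ∈ N'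

theorem Li.zero : Li N N' fun _ => 0 := ⟨0, fun _ => toL_zero, fun _ _ => zero_mem _⟩

theorem Li.id : Li N N fun n => n := ⟨LinearMap.id, fun _ => rfl, fun _ h => h⟩

theorem Li.xor (a : Li N N' f) (b : Li N N' g) : Li N N' fun n => Nat.xor (f n) (g n) :=
  let ⟨γ, a1, a2⟩ := a
  let ⟨δ, b1, b2⟩ := b
  ⟨γ + δ, fun n => by rw [toL_xor, a1, b1]; rfl, fun v h => add_mem (a2 v h) (b2 v h)⟩

theorem Li.comp (a : Li N N' f) (b : Li N' N'' g) : Li N N'' fun n => g (f n) :=
  let ⟨γ, a1, a2⟩ := a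
  let ⟨δ, b1, b2⟩ := b
  ⟨δ ∘ₗ γ, fun n => by rw [b1, a1]; rfl, fun v h => b2 _ (a2 v h)⟩

theorem Li.aps (h : wf T = true) (k : ∀ v ∈ N, lin T v ∈ N') : Li N N' (aps T) :=
  ⟨lin T, toL_aps h, k⟩

theorem Li.mem (a : Li N N' f) (h : toL n ∈ N) : toL (f n) ∈ N' :=
  let ⟨_, a1, a2⟩ := a
  a1 n ▸ a2 _ h

theorem Li.mat (a : Li N N' f) (h : chkE A = true) (l : N ≤ sp A) :
    ∀ v ∈ N, lin (A.map fun p => (p.1, f p.2)) v ∈ N' :=
  let ⟨_, a1, a2⟩ := a
  fun v k => lin_mat h a1 (l k) ▸ a2 v k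

theorem Li.red (h : wf B = true) (l : sp B ≤ N) : Li N N (red B) :=
  ⟨LinearMap.id + lin B, toL_red h, fun v k => add_mem k (l (lin_mem B v))⟩

theorem Li.pol (h : Li N N (M7.aps T)) (p d : ℕ) : Li N N (pol T p d) := by
  have : ∀ e : ℕ, Li N N fun v => (Nat.rec 0 (fun i ih => Nat.xor (M7.aps T ih)
      (cnd (tb p (Nat.sub d (Nat.succ i))) v 0)) e : ℕ) := fun e => by
    induction e with
    | zero => exact .zero
    | succ e ih =>
      refine (ih.comp h).xor ?_
      cases tb p (Nat.sub d (Nat.succ e))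
      exacts [.zero, .id]
  exact (funext fun v => force_eq v _ : M7.pol T p d = _) ▸ this d

theorem Li.xs {α : Type} {l : List α} {φ : α → ℕ → ℕ} (h : ∀ a, Li N N' (φ a)) :
    Li N N' fun v => xs l fun a => φ a v := by
  induction l with
  | nil => exact .zero
  | cons a l ih => exact (h a).xor ih

theorem Li.dwk {gs : List SM} (hg : ∀ j, Li N N (M7.aps (nth gs [] j))) (ha : Li N ⊥ (M7.aps A))
    {dw : List (ℕ × SM)} (h : ∀ p ∈ dw, wf p.2 = true) : Li N ⊥ (dwk gs A dw) := by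
  induction dw with
  | nil => exact .zero
  | cons p dw ih =>
    obtain ⟨a, b⟩ := List.forall_mem_cons.1 h
    exact (funext fun v => force_eq v fun v => Nat.xor (M7.aps p.2 (M7.aps A v))
      (M7.dwk gs A dw (M7.aps (nth gs [] p.1) v)) : M7.dwk gs A (p :: dw) = _) ▸ (ha.comp (.aps a fun v k => by rw [(mem_bot F).1 k, map_zero]; exact zero_mem _)).xor
        ((hg p.1).comp (ih b))

end K3

theorem Nor.sound {c : Nor} {gs : List SM} (h : c.chk A B gs = true) (hA : chkE A = true)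
    (hB : chkE B = true) (hw : ∀ M ∈ gs, wf M = true) (l1 : sp B ≤ N) (l2 : N ≤ sp A)
    (hg : ∀ M ∈ gs, ∀ v ∈ N, lin M v ∈ N) : N = sp B ∨ N = sp A := by
  simp only [Nor.chk, mat_eq, cnd_eq, force_eq, Bool.if_false_right, Bool.if_true_left,
    Bool.and_eq_true, Bool.or_eq_true, allL_iff, decide_eq_true_eq, Nat.beq_eq] at h
  obtain ⟨h1, h2, h3, h4, h5, h6, h7, h8⟩ := h
  have g : ∀ j, Li N N (aps (nth gs [] j)) := fun j => by
    rw [nth_eq]
    rcases lt_or_ge j gs.length with e | e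
    · rw [List.getD_eq_getElem _ _ e]
      exact .aps (hw _ (List.getElem_mem e)) (hg _ (List.getElem_mem e))
    · rw [List.getD_eq_default _ _ e]
      exact .aps rfl fun _ _ => zero_mem _
  have t := Li.aps (wf_map (wf_of hA) fun v => xs c.t fun w =>
    List.rec v (fun j _ ih => aps (nth gs [] j) ih) w) ((Li.xs (l := c.t) (φ := fun w v =>
    List.rec v (fun j _ ih => aps (nth gs [] j) ih) w) fun w => by
      induction w with
      | nil => exact .id
      | cons j w ih => exact ih.comp (g j)).mat hA l2)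
  have r := Li.red (wf_of hB) l1
  have a := ((t.pol c.p c.d).comp r).mat hA l2
  generalize A.map (fun p => (p.1, xs c.t fun w =>
    List.rec p.2 (fun j _ ih => aps (nth gs [] j) ih) w)) = T at *
  have wa := wf_map (wf_of hA) fun v => red B (pol T c.p c.d v)
  generalize A.map (fun p => (p.1, red B (pol T c.p c.d p.2))) = X at *
  by_cases z : ∀ v ∈ N, lin X v ∈ (⊥ : Submodule F L7)
  · obtain ⟨δ, d1, d2⟩ := Li.dwk g (.aps wa z) h7
    refine .inl (le_antisymm (fun v k => of_add ?_ (lin_mem B v)) l1)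
    exact (sp_ext (γ := LinearMap.id + lin B) (fun p hp => by
      rw [← d1, ← h8 p hp, toL_red (wf_of hB)]; rfl) (l2 k)).trans (d2 v k)
  · push Not at z
    obtain ⟨v, k, z⟩ := z
    obtain ⟨s, hs, e⟩ := subs_sp (sp_le.2 (fun p hp => mem_sp h1 (h2 p hp)) (lin_mem X v))
    obtain ⟨q, hq⟩ := ex_zip h3 hs
    have k1 : toL c.k1 ∈ N := (h4 _ hq).elim
      (fun e' : s = 0 => absurd (by rw [← e, e', toL_zero]; rfl) z) fun e' => e' ▸ ((t.pol q 7).comp r).mem (e ▸ a v k)
    obtain ⟨V, hV, e⟩ := walk_mem (S := {n | toL n ∈ N}) (fun j _ h => (g j).mem h) c.wk k1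
      fun V => allL (A.zip c.ms) fun p => mem B (Nat.xor p.1.2 (cmb V p.2))
    refine .inr (le_antisymm l2 (sp_le.2 fun p hp => ?_))
    obtain ⟨m, hm⟩ := ex_zip h5 hp
    rw [e, allL_iff] at h6
    have := l1 (mem_sp (wf_of hB) (h6 _ hm))
    rw [toL_xor] at this
    exact (N.add_mem_iff_left (cmb_mem hV m)).1 this

end CF.M7
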