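import Cfsg.Agent.M7.T1

/-! Maximal subgroups of `E₇(2)`: overgroups of the stabilizer of a graded subspace. -/

set_option autoImplicit false
set_option linter.unusedSectionVars false

namespace CF.M7

open Module Submodule CF.Chev Cfsg.Lie Sum

section
variable {G L : Type} [Group G] [AddCommGroup L] [Module F L] [DistribMulAction G L] [SMulCommClass G F L]
  {D : Dt G L} {M M' : Subgroup G} {U U' A B N : Submodule F L} {a b u v : L} {g k l q x y : G}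

namespace T2

theorem aa (v : L) : v + v = 0 := by
  rw [← two_smul F, show (2 : F) = 0 from rfl, zero_smul]

theorem f01 : ∀ c : F, c = 0 ∨ c = 1 := by decide

theorem mem_YU : v ∈ D.YU U ↔ D.pj 1 v ∈ U ∧ D.br D.e (D.pj (-1) v) ∈ U ∧ D.pj 0 v ∈ D.NU U := and_assoc

theorem e_om : D.e ∈ D.OM M := ⟨1, one_mem _, one_smul _ _⟩

theorem om_smul (hg : g ∈ M) (k : a ∈ D.OM M) : g • a ∈ D.OM M :=
  let ⟨c, hc, e⟩ := k; ⟨g * c, mul_mem hg hc, by rw [mul_smul, e]⟩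

variable (h : D.Ax)
include h

theorem pj_mem (i : ℤ) (v : L) : D.pj i v ∈ D.Lg i := (h.pj_pj i i v).trans (if_pos rfl)

theorem pj_ne {i : ℤ} (hv : v ∈ D.Lg i) (j : ℤ) (n : j ≠ i := by omega) : D.pj j v = 0 := by
  rw [← show D.pj i v = v from hv, h.pj_pj, if_neg n]

theorem fm_fe : D.fm D.f D.e = 1 := (h.fm_comm _ _).trans h.fm_ef

theorem e_mem : D.e ∈ D.Lg 2 := (h.pj_e _).trans (by rw [h.fm_ef, one_smul]; rfl)

theorem f_mem : D.f ∈ D.Lg (-2) := (h.pj_f _).trans (by rw [fm_fe h, one_smul]; rfl)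

theorem h_mem : D.h ∈ D.Lg 0 := h.br_gr (e_mem h) (f_mem h)

theorem e_ne : D.e ≠ 0 := fun e => by simpa [e] using h.fm_ef

theorem f_ne : D.f ≠ 0 := fun e => by simpa [e] using h.fm_ef

theorem pj_br {i : ℤ} (ha : a ∈ D.Lg i) (j n : ℤ) (v : L) (e : n = i + j := by omega) :
    D.pj n (D.br a v) = D.br a (D.pj j v) := by
  have k : ∀ m, D.pj n (D.br a (D.pj m v)) = D.br a (D.pj j (D.pj m v)) := fun m => by
    have := h.br_gr ha (pj_mem h m v)
    rw [h.pj_pj]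
    split_ifs with c
    · subst c e; exact this
    · rw [T2.pj_ne h this n (by omega), map_zero]
  conv_lhs => rw [h.dec v]
  conv_rhs => rw [h.dec v]
  simp only [map_add, k]

theorem fm_pj {i : ℤ} (ha : a ∈ D.Lg i) (j : ℤ) (v : L) (e : i + j = 0 := by omega) :
    D.fm a v = D.fm a (D.pj j v) := by
  have k : ∀ m, D.fm a (D.pj m v) = D.fm a (D.pj j (D.pj m v)) := fun m => by
    rw [h.pj_pj]
    split_ifs with c
    · rfl
    · rw [h.fm_gr ha (pj_mem h m v) (by omega), map_zero]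
  conv_lhs => rw [h.dec v]
  conv_rhs => rw [h.dec v]
  simp only [map_add, ← k]

theorem big {i : ℤ} (hv : v ∈ D.Lg i) (n : 2 < |i| := by decide) : v = 0 := hv.symm.trans (h.pj_big i v n)

theorem lg2 (hv : v ∈ D.Lg 2) : v = D.fm v D.f • D.e := hv.symm.trans (h.pj_e v)

theorem h1 (hu : u ∈ D.Lg 1) : D.br D.h u = u := by simpa using h.h_gr hu

theorem ef (hu : u ∈ D.Lg 1) : D.br D.e (D.br D.f u) = u := by
  rw [h.jac, big h (h.br_gr (e_mem h) hu), map_zero, add_zero]; exact h1 h hu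

theorem fe (hu : u ∈ D.Lg (-1)) : D.br D.f (D.br D.e u) = u := by
  rw [h.jac, big h (h.br_gr (f_mem h) hu), map_zero, add_zero, h.br_comm D.f]
  exact (h.h_gr hu).trans (by rw [show ((-1 : ℤ) : F) = 1 from rfl, one_smul])

theorem yu_of {i : ℤ} (hv : v ∈ D.Lg i) (n : i ≠ 1 ∧ i ≠ -1 ∧ i ≠ 0 := by omega) : v ∈ D.YU U := by
  simp [mem_YU, T2.pj_ne h hv 1 n.1.symm, T2.pj_ne h hv _ n.2.1.symm, T2.pj_ne h hv 0 n.2.2.symm]

theorem yu_nu (hv : v ∈ D.NU U) : v ∈ D.YU U := by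
  simpa [mem_YU, T2.pj_ne h hv.1 1, T2.pj_ne h hv.1 (-1), show D.pj 0 v = v from hv.1] using hv

theorem yu_u (le : U ≤ D.Lg 1) (hu : u ∈ U) : u ∈ D.YU U := by
  simpa [mem_YU, T2.pj_ne h (le hu) 0, T2.pj_ne h (le hu) (-1), show D.pj 1 u = u from le hu] using hu

theorem h_nu (le : U ≤ D.Lg 1) : D.h ∈ D.NU U := ⟨h_mem h, fun u hu => by rwa [h1 h (le hu)]⟩

theorem qh (hq : q ∈ D.Q) : ∃ c : F, q • D.h = D.h + D.e1 q + c • D.e := by
  have k := fun j => h.e1_fil hq (j := j) (h_mem h)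
  have m := h.e1_mem q
  rw [h.br_comm, h1 h m] at k
  refine ⟨D.fm (q • D.h) D.f, (h.dec _).trans ?_⟩
  rw [h.pj_e, k _ (by omega), k _ (by omega), k _ (by omega), k _ (by omega)]
  simp [T2.pj_ne h m (-2), T2.pj_ne h m (-1), T2.pj_ne h m 0, T2.pj_ne h (h_mem h) (-2), T2.pj_ne h (h_mem h) (-1), T2.pj_ne h (h_mem h) 1,
    show D.pj 0 D.h = D.h from h_mem h, show D.pj 1 (D.e1 q) = D.e1 q from m]

theorem yf (k : D.IsX y D.e) : D.h = y • D.f + D.f + D.e := by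
  rw [k, h.fm_ef, one_smul, ← add_zero D.h, ← aa (D.f + D.e)]; unfold Dt.h; abel

end T2
open T2

namespace Dt.Ax

theorem st_e (h : D.Ax) (le : U ≤ D.Lg 1) (k : D.IsX y D.e) : y ∈ St G (D.YU U) := by
  have := h.finG
  refine mem_St_of fun v hv => k v ▸ add_mem (add_mem hv (mem_YU.2 ⟨?_, ?_, ?_⟩)) (smul_mem _ _ (yu_of h (e_mem h)))
  · rw [pj_br h (e_mem h) (-1) 1]; exact (mem_YU.1 hv).2.1
  · simp [pj_br h (e_mem h) (-3) (-1), h.pj_big (-3) v (by decide)]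
  · rw [pj_br h (e_mem h) (-2) 0, h.pj_f, map_smul]; exact smul_mem _ _ (h_nu h le)

theorem st_f (h : D.Ax) (le : U ≤ D.Lg 1) (k : D.IsX x D.f) : x ∈ St G (D.YU U) := by
  have := h.finG
  refine mem_St_of fun v hv => k v ▸ add_mem (add_mem hv (mem_YU.2 ⟨?_, ?_, ?_⟩)) (smul_mem _ _ (yu_of h (f_mem h)))
  · simp [pj_br h (f_mem h) 3 1, h.pj_big 3 v (by decide)]
  · rw [pj_br h (f_mem h) 1 (-1), ef h (pj_mem h 1 v)]; exact (mem_YU.1 hv).1
  · rw [pj_br h (f_mem h) 2 0, h.pj_e, map_smul, h.br_comm]; exact smul_mem _ _ (h_nu h le)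

theorem st_lv (h : D.Ax) (hl : l ∈ D.Lv) (k : l ∈ St G U) : l ∈ St G (D.YU U) := by
  have := h.finG
  refine mem_St_of fun v hv => ?_
  obtain ⟨a, b, c, d⟩ := mem_YU.1 hv
  refine mem_YU.2 ⟨?_, ?_, pj_mem h _ _, fun u hu => ?_⟩ <;> rw [← h.lv_pj hl]
  · exact (k _).2 a
  · rw [← show l • D.e = D.e from hl.1, ← h.br_smul]; exact (k _).2 b
  · rw [← smul_inv_smul l u, ← h.br_smul]; exact (k _).2 (d _ ((inv_mem k _).2 hu))

theorem yu_le (h : D.Ax) (le : U ≤ D.Lg 1) :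
    D.YU U ≤ span F {D.f} ⊔ U.map (D.br D.f) ⊔ D.NU U ⊔ U ⊔ span F {D.e} := fun v hv => by
  obtain ⟨a, b, c⟩ := mem_YU.1 hv
  rw [h.dec v, h.pj_e, h.pj_f]
  exact add_mem_sup (add_mem_sup (add_mem_sup (add_mem_sup (smul_mem _ _ (mem_span_singleton_self _))
    ⟨_, b, fe h (pj_mem h _ _)⟩) c) a) (smul_mem _ _ (mem_span_singleton_self _))

/-- test for elements of `Q` -/
theorem st_q (h : D.Ax) (le : U ≤ D.Lg 1) (hq : q ∈ D.Q) (k1 : q • D.f ∈ D.YU U) (k2 : ∀ u ∈ U, q • D.br D.f u ∈ D.YU U)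
    (k3 : ∀ v ∈ D.NU U, q • v ∈ D.YU U) : q ∈ St G (D.YU U) := by
  have := h.finG
  refine mem_St_of fun v hv => (?_ : _ ≤ (D.YU U).comap (DistribSMul.toLinearMap F L q)) (h.yu_le le hv)
  refine sup_le (sup_le (sup_le (sup_le ((span_singleton_le_iff_mem _ _).2 k1) ?_) k3) fun u hu => ?_)
    ((span_singleton_le_iff_mem _ _).2 ?_)
  · rintro _ ⟨u, hu, rfl⟩; exact k2 u hu
  · exact (h.q_one hq (le hu)).symm ▸ add_mem (yu_u h le hu) (yu_of h (h.br_gr (h.e1_mem q) (le hu))) |>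
      (show q • u ∈ D.YU U from ·)
  · exact (h.q_e hq).symm ▸ yu_of h (e_mem h) |> (show q • D.e ∈ D.YU U from ·)

theorem yu_dim (h : D.Ax) (le : U ≤ D.Lg 1) : finrank F (D.YU U) ≤ 2 * finrank F U + finrank F (D.NU U) + 2 := by
  have := h.fin
  have : Module.Finite F L := .of_finite
  have k := finrank_mono (h.yu_le le)
  have a := finrank_add_le_finrank_add_finrank (K := F) (V := L)
  have := a (span F {D.f} ⊔ U.map (D.br D.f) ⊔ D.NU U ⊔ U) (span F {D.e})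
  have := a (span F {D.f} ⊔ U.map (D.br D.f) ⊔ D.NU U) U
  have := a (span F {D.f} ⊔ U.map (D.br D.f)) (D.NU U)
  have := a (span F {D.f}) (U.map (D.br D.f))
  have := finrank_map_le (D.br D.f) U
  have := finrank_span_singleton (K := F) (e_ne h)
  have := finrank_span_singleton (K := F) (f_ne h)
  omega

theorem ex_std (h : D.Ax) (d : D.Dat U) : ∃ M, IsCoatom M ∧ D.Std M U := by
  have := h.finG
  obtain ⟨y, -, hy⟩ := h.exX
  obtain ⟨x, hx⟩ := h.ex_x h.exf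
  obtain e | ⟨M, c, le⟩ := eq_top_or_exists_le_coatom (St G (D.YU U))
  · refine absurd (d.le.antisymm fun u hu => ?_) d.nt
    obtain ⟨q, -, rfl⟩ := h.Q_sur u hu
    exact (mem_YU.1 (((e ▸ Subgroup.mem_top q : q ∈ St G (D.YU U)) _).2 (yu_nu h (h_nu h d.le)))).1
  obtain ⟨N, e, l, k⟩ := h.um_sub M
  refine ⟨M, c, d, le, e.trans (congrArg _ ((d.irr N (fun u hu => ?_) l fun l a b => k l (le (h.st_lv a b)) a).resolve_right
    fun e' => c.1 (h.um_top (e' ▸ e) (le (h.st_e d.le hy)) hy (le (h.st_f d.le hx)) hx)))⟩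
  obtain ⟨q, a, b, c⟩ := d.hq u hu
  exact (e ▸ ⟨q, le b, a, c⟩ : u ∈ (N : Set L))

end Dt.Ax

namespace T2
variable (h : D.Ax) (s : D.Std M U)
include h s

theorem e1_u (hq : q ∈ D.Q) (m : q ∈ M) : D.e1 q ∈ U := (s.um ▸ ⟨q, m, hq, rfl⟩ : D.e1 q ∈ (U : Set L))

theorem sA (m : k ∈ M) (e : k • D.e = D.e) : k ∈ St G (D.YU U) := by
  have := h.finG
  obtain ⟨q, hq, l, hl, rfl⟩ := h.p_dec e
  have h1 : l ∈ St G (D.YU U) := h.st_lv hl (mem_St_of fun u hu => by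
    obtain ⟨r, a, b, rfl⟩ := s.dat.hq u hu
    have := e1_u h s (h.Q_nrm _ e r a) (mul_mem (mul_mem m (s.st b)) (inv_mem m))
    have c := h.Q_nrm l hl.1 r a
    rwa [show q * l * r * (q * l)⁻¹ = q * (l * r * l⁻¹) * q⁻¹ by group, h.e1_mul (mul_mem hq c) (inv_mem hq), h.e1_mul hq c,
      h.e1_inv hq, h.e1_cj hl a, add_right_comm, aa, zero_add] at this)
  obtain ⟨r, a, b, c⟩ := s.dat.hq _ (e1_u h s hq (by simpa using mul_mem m (inv_mem (s.st h1))))
  refine mul_mem ?_ h1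
  rw [← inv_mul_cancel_right q r]
  refine mul_mem ?_ b
  rcases h.Q_ker _ (mul_mem hq (inv_mem a)) (by rw [h.e1_mul hq (inv_mem a), h.e1_inv a, c, aa]) with e | e
  · rw [e]; exact one_mem _
  · exact h.st_e s.dat.le e

theorem sB0 (m : x ∈ M) (hx : D.IsX x a) (e : x • D.e = D.e) : a ∈ D.YU U := by
  have hH := sA h s m e
  rw [hx, add_assoc, add_eq_left, h.br_comm] at e
  have c : D.fm a D.e = 0 := (f01 _).resolve_right fun c => f_ne h (by
    simpa [pj_br h (e_mem h) (-4) (-2), h.pj_big (-4) a (by decide), h.pj_f a, c] using congrArg (D.pj (-2)) e)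
  rw [c, zero_smul, add_zero] at e
  have e1 : D.br D.e (D.pj (-1) a) = 0 := by rw [← pj_br h (e_mem h) (-1) 1, e, map_zero]
  have e2 : D.pj (-1) a = 0 := by rw [← fe h (pj_mem h _ a), e1, map_zero]
  refine mem_YU.2 ⟨?_, e1 ▸ zero_mem _, pj_mem h _ _, fun u hu => ?_⟩
  · have := (mem_YU.1 ((hH _).2 (yu_of h (f_mem h)))).2.1
    rwa [hx, map_add (D.pj _), map_add (D.pj _), map_smul, e2, smul_zero, add_zero, T2.pj_ne h (f_mem h) (-1), zero_add, h.br_comm a,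
      pj_br h (f_mem h) 1 (-1), ef h (pj_mem h _ _)] at this
  · have := (mem_YU.1 ((hH _).2 (yu_u h s.dat.le hu))).1
    rw [hx, h.fm_comm, fm_pj h (s.dat.le hu) (-1), e2, map_zero, zero_smul, add_zero, map_add, h.br_comm,
      pj_br h (s.dat.le hu) 0 1, show D.pj 1 u = u from s.dat.le hu, h.br_comm] at this
    exact (U.add_mem_iff_right hu).1 this

theorem sB (m : x ∈ M) (hx : D.IsX x a) (hb : b ∈ D.OM (St G (D.YU U))) (e : x • b = b) : a ∈ D.YU U := by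
  obtain ⟨k, hk, rfl⟩ := hb
  refine (inv_mem hk a).1 (sB0 h s (mul_mem (mul_mem (inv_mem (s.st hk)) m) (inv_mem (inv_mem (s.st hk)))) (h.x_cj hx k⁻¹) ?_)
  rw [inv_inv, mul_smul, mul_smul, e, inv_smul_smul]

omit s in
theorem f_omH (le : U ≤ D.Lg 1) : D.f ∈ D.OM (St G (D.YU U)) :=
  let ⟨_, _, hy⟩ := h.exX; let ⟨_, hx⟩ := h.ex_x h.exf; h.f_om (h.st_e le hy) hy (h.st_f le hx) hx

omit s in
theorem e_emH (le : U ≤ D.Lg 1) : D.e ∈ D.EM (St G (D.YU U)) :=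
  let ⟨y, _, hy⟩ := h.exX; ⟨⟨1, one_smul _ _⟩, y, h.st_e le hy, hy⟩

omit h s in
theorem em_mono (le : M ≤ M') (ha : a ∈ D.EM M) : a ∈ D.EM M' := let ⟨a, x, b, c⟩ := ha; ⟨a, x, le b, c⟩

theorem e_em : D.e ∈ D.EM M := em_mono s.st (e_emH h s.dat.le)

theorem f_omM : D.f ∈ D.OM M := let ⟨k, a, b⟩ := f_omH h s.dat.le; ⟨k, s.st a, b⟩

theorem om_em (ha : a ∈ D.OM M) : a ∈ D.EM M := let ⟨_, b, c⟩ := ha; c ▸ h.em_smul b (e_em h s)

theorem sC (a : L) : ∃ k ∈ St G (D.YU U), D.fm a (k • D.e) = 0 := by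
  by_contra! n
  have n1 : ∀ b ∈ D.OM (St G (D.YU U)), D.fm a b = 1 := by
    rintro _ ⟨k, hk, rfl⟩; exact (f01 _).resolve_left (n k hk)
  obtain ⟨y, -, hy⟩ := h.exX
  have n2 : ∀ g ∈ St G (D.YU U), D.fm a (g • D.h) = 1 := fun g hg => by
    rw [yf h hy, smul_add, smul_add, map_add, map_add, n1 _ (om_smul hg e_om), n1 _ (om_smul hg (f_omH h s.dat.le)),
      n1 _ (om_smul hg (om_smul (h.st_e s.dat.le hy) (f_omH h s.dat.le)))]
    rfl
  obtain ⟨u, hu, u0⟩ := exists_mem_ne_zero_of_ne_bot s.dat.ne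
  refine u0 (s.dat.nd u hu fun v hv => ?_)
  obtain ⟨q, a1, a2, rfl⟩ := s.dat.hq u hu
  obtain ⟨r, b1, b2, rfl⟩ := s.dat.hq v hv
  obtain ⟨c, e⟩ := qh h b1
  have k1 := n2 _ (mul_mem a2 b2)
  have k2 := n2 _ b2
  have k3 := n2 _ (one_mem _)
  have m := lg2 h (h.br_gr (h.e1_mem q) (h.e1_mem r))
  rw [mul_smul, e, smul_add, smul_add, smul_comm, h.q_e a1, h.q_one a1 (h.e1_mem r), m] at k1
  rw [e] at k2
  rw [one_smul] at k3
  simp only [map_add, map_smul, n2 q a2, n1 _ e_om, k3, smul_eq_mul, mul_one] at k1 k2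
  rw [m, show D.fm (D.br (D.e1 q) (D.e1 r)) D.f = 0 by linear_combination k1 - k2, zero_smul]

theorem sD (ha : a ∈ D.EM M) (e : D.fm a D.e = 0) : a ∈ D.YU U := by
  obtain ⟨w1, w2⟩ := h.perp_um (e_em h s) ha e
  obtain ⟨ea, x, m, hx⟩ := ha
  have xe : x • D.e = D.e + D.br a D.e := by rw [hx, e, zero_smul, add_zero]
  rw [s.um, SetLike.mem_coe] at w1
  rw [h.pj_e] at w2
  generalize D.br a D.e = w at *
  generalize D.fm w D.f = c at *
  by_cases n : D.pj 1 w = 0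
  · rw [n, zero_add] at w2
    rcases f01 c with rfl | rfl
    · exact sB0 h s m hx (by rw [xe, w2, zero_smul, add_zero])
    · rw [w2, one_smul, aa, smul_eq_zero_iff_eq] at xe
      exact absurd xe (e_ne h)
  obtain ⟨y, -, hy⟩ := h.exX
  have k := h.x_cj hy x
  have kQ := (h.x_mem_Q ⟨x, rfl⟩ k (by
    rw [xe, map_add, map_add, T2.pj_ne h (e_mem h) 1, show D.pj 2 D.e = D.e from e_mem h]
    conv_lhs => rw [w2]
    conv_rhs => rw [w2]
    simp [h.pj_pj, T2.pj_ne h (e_mem h) 1, show D.pj 2 D.e = D.e from e_mem h]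
    abel)).1
  have e1 : x • D.e ∈ D.EM (St G (D.YU U)) := ⟨⟨x, rfl⟩, _, sA h s
    (mul_mem (mul_mem m (s.st (h.st_e s.dat.le hy))) (inv_mem m)) (h.q_e kQ), k⟩
  obtain ⟨u, hu, n⟩ : ∃ u ∈ U, D.br (D.pj 1 w) u ≠ 0 := by
    by_contra! k; exact n (s.dat.nd _ w1 k)
  obtain ⟨q, a1, a2, rfl⟩ := s.dat.hq u hu
  have b := lg2 h (h.br_gr (pj_mem h 1 w) (h.e1_mem q))
  rw [(f01 (D.fm _ D.f)).resolve_left fun c => n (by rw [b, c, zero_smul]), one_smul, h.br_comm] at b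
  have qe : q • x • D.e = w := by
    rw [xe, w2, smul_add, smul_add, smul_comm, h.q_e a1, h.q_one a1 (pj_mem h 1 w), b, ← add_assoc, add_left_comm, aa,
      add_zero]
  have fH := f_omH h s.dat.le
  have fE : D.f ∈ D.EM (St G (D.YU U)) := let ⟨_, b, c⟩ := fH; c ▸ h.em_smul b (e_emH h s.dat.le)
  refine sB h s m hx (b := w) ?_ ?_
  · rcases f01 (D.fm w D.f) with c | c
    · obtain ⟨g, hg, e⟩ := h.hyp e1 fE (by rw [xe, map_add, LinearMap.add_apply, c, h.fm_ef, add_zero])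
      exact qe ▸ e ▸ om_smul a2 (om_smul hg fH)
    · obtain ⟨g, hg, e⟩ := h.hyp (qe ▸ h.em_smul a2 e1) fE c
      exact e ▸ om_smul hg fH
  · have : x • x • D.e = x • (D.e + w) := congrArg _ xe
    rw [smul_smul, h.x_sq ea hx, one_smul, smul_add, xe, add_assoc, left_eq_add] at this
    rw [← zero_add (x • w), ← aa w, add_assoc, this, add_zero]

end T2

namespace Dt.Ax

theorem em_le (h : D.Ax) (s : D.Std M U) : D.EM M ⊆ D.YU U := fun a ha => by
  obtain ⟨k, hk, e⟩ := sC h s a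
  exact (inv_mem hk a).1 (sD h s (h.em_smul (inv_mem (s.st hk)) ha) (by rw [← h.fm_smul k, smul_inv_smul, e]))

theorem perp_cu (h : D.Ax) (s : D.Std M U) (hv : v ∈ D.YU U) (k : ∀ b ∈ D.OM M, D.fm v b = 0) : v ∈ D.CU U := by
  let Z : L → Prop := fun v => v ∈ D.YU U ∧ ∀ b ∈ D.OM M, D.fm v b = 0
  have z1 : ∀ g ∈ St G (D.YU U), ∀ v, Z v → Z (g • v + v) := fun g hg v z => ⟨add_mem ((hg v).2 z.1) z.1, fun b hb => by
    rw [map_add, LinearMap.add_apply, z.2 b hb, ← smul_inv_smul g b, h.fm_smul, z.2 _ (om_smul (inv_mem (s.st hg)) hb),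
      add_zero]⟩
  have ze : ∀ v, Z v → D.fm v D.e = 0 := fun v z => z.2 _ e_om
  have zf : ∀ v, Z v → D.fm v D.f = 0 := fun v z => z.2 _ (f_omM h s)
  have ad : ∀ v w : L, v + w + v = w := fun v w => by rw [add_right_comm, aa, zero_add]
  have z2 : ∀ w ∈ U, Z w → w = 0 := fun w hw z => s.dat.nd w hw fun u hu => by
    obtain ⟨q, a, b, rfl⟩ := s.dat.hq u hu
    have := zf _ (z1 q b w z)
    rw [h.q_one a (s.dat.le hw), ad] at this
    rw [h.br_comm, lg2 h (h.br_gr (h.e1_mem q) (s.dat.le hw)), this, zero_smul]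
  obtain ⟨y, -, hy⟩ := h.exX
  obtain ⟨x, hx⟩ := h.ex_x h.exf
  have z3 : ∀ v, Z v → D.pj (-1) v = 0 := fun v z => by
    have k := z1 y (h.st_e s.dat.le hy) v z
    rw [hy, h.fm_comm, ze v z, zero_smul, add_zero, ad] at k
    have e : D.br D.e v = D.br D.e (D.pj (-1) v) := by
      rw [h.dec (D.br D.e v), h.pj_e, h.pj_f, ze _ k, zf _ k, pj_br h (e_mem h) (-3) (-1), pj_br h (e_mem h) (-2) 0,
        pj_br h (e_mem h) (-1) 1, h.pj_f, ze v z, h.pj_big (-3) v (by decide)]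
      simp
    rw [← fe h (pj_mem h _ v), z2 _ (mem_YU.1 z.1).2.1 (e ▸ k), map_zero]
  have z4 : ∀ v, Z v → D.pj 1 v = 0 := fun v z => by
    have k := z3 _ (z1 x (h.st_f s.dat.le hx) v z)
    rw [hx, h.fm_comm, zf v z, zero_smul, add_zero, ad, pj_br h (f_mem h) 1 (-1)] at k
    rw [← ef h (pj_mem h _ v), k, map_zero]
  have z : Z v := ⟨hv, k⟩
  have m : v ∈ D.Lg 0 := by
    have := h.dec v
    rw [h.pj_e, h.pj_f, ze v z, zf v z, z3 v z, z4 v z] at this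
    exact (by simpa using this.symm : D.pj 0 v = v)
  refine ⟨m, fun u hu => ?_⟩
  obtain ⟨q, a, b, rfl⟩ := s.dat.hq u hu
  have := z4 _ (z1 q b v z)
  rwa [map_add, h.e1_fil a m (by omega), map_add, ad, pj_br h (h.e1_mem q) 0 1, show D.pj 0 v = v from m, h.br_comm] at this

theorem orb (h : D.Ax) (s : D.Std M U) (ha : a ∈ D.EM M) : a ∈ D.OM M ∨ a ∈ D.CU U := by
  refine or_iff_not_imp_left.2 fun n => h.perp_cu s (h.em_le s ha) fun b hb => (f01 _).resolve_right fun c => n ?_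
  obtain ⟨g, hg, rfl⟩ := h.hyp ha (om_em h s hb) c
  exact om_smul hg hb

theorem om_dim (h : D.Ax) (s : D.Std M U) : 2 * finrank F U + 3 ≤ finrank F (span F (D.OM M)) := by
  have := h.fin
  have : Module.Finite F L := .of_finite
  have inv : ∀ g ∈ M, ∀ v ∈ span F (D.OM M), g • v ∈ span F (D.OM M) := fun g hg =>
    (span_le.2 fun b hb => subset_span (om_smul hg hb) : _ ≤ (span F (D.OM M)).comap (DistribSMul.toLinearMap F L g))
  obtain ⟨y, -, hy⟩ := h.exX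
  obtain ⟨x, hx⟩ := h.ex_x h.exf
  have me : D.e ∈ span F (D.OM M) := subset_span e_om
  have mf : D.f ∈ span F (D.OM M) := subset_span (f_omM h s)
  have mh : D.h ∈ span F (D.OM M) := yf h hy ▸ add_mem (add_mem (inv y (s.st (h.st_e s.dat.le hy)) _ mf) mf) me
  have mu : ∀ u ∈ U, u ∈ span F (D.OM M) := fun u hu => by
    obtain ⟨q, a, b, rfl⟩ := s.dat.hq u hu
    obtain ⟨c, e⟩ := qh h a
    exact (Submodule.add_mem_iff_right _ mh).1 ((Submodule.add_mem_iff_left _ (smul_mem _ c me)).1 (e ▸ inv q (s.st b) _ mh))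
  have mb : ∀ u ∈ U, D.br D.f u ∈ span F (D.OM M) := fun u hu =>
    (Submodule.add_mem_iff_right _ (mu u hu)).1 ((Submodule.add_mem_iff_left _ (smul_mem _ _ mf)).1
      (hx u ▸ inv x (s.st (h.st_f s.dat.le hx)) _ (mu u hu)))
  let t := LinearMap.toSpanSingleton F L
  let φ := ((D.br D.f ∘ₗ U.subtype).coprod U.subtype).coprod ((t D.f).coprod ((t D.h).coprod (t D.e)))
  have p : ∀ u v a b c, φ ((u, v), a, b, c) = D.br D.f u + v + (a • D.f + (b • D.h + c • D.e)) := fun _ _ _ _ _ => rfl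
  have i : Function.Injective φ := (injective_iff_map_eq_zero _).2 fun ⟨⟨u, v⟩, a, b, c⟩ e => by
    have k := fun j => congrArg (D.pj j) ((p ..).symm.trans e)
    have m1 := h.br_gr (f_mem h) (s.dat.le u.2)
    have m2 := s.dat.le v.2
    have k1 := k (-1); have k2 := k 1; have k3 := k (-2); have k4 := k 0; have k5 := k 2
    simp only [map_add, map_smul, T2.pj_ne h m1 1, T2.pj_ne h m1 (-2), T2.pj_ne h m1 0, T2.pj_ne h m1 2, T2.pj_ne h m2 (-1), T2.pj_ne h m2 (-2),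
      T2.pj_ne h m2 0, T2.pj_ne h m2 2, T2.pj_ne h (f_mem h) (-1), T2.pj_ne h (f_mem h) 1, T2.pj_ne h (f_mem h) 0, T2.pj_ne h (f_mem h) 2,
      T2.pj_ne h (h_mem h) (-1), T2.pj_ne h (h_mem h) 1, T2.pj_ne h (h_mem h) (-2), T2.pj_ne h (h_mem h) 2, T2.pj_ne h (e_mem h) (-1),
      T2.pj_ne h (e_mem h) 1, T2.pj_ne h (e_mem h) (-2), T2.pj_ne h (e_mem h) 0, show D.pj (-1) _ = D.br D.f u from m1,
      show D.pj 1 _ = (v : L) from m2, show D.pj (-2) _ = D.f from f_mem h, show D.pj 0 _ = D.h from h_mem h,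
      show D.pj 2 _ = D.e from e_mem h, smul_zero, add_zero, zero_add, map_zero, smul_eq_zero, e_ne h, f_ne h, or_false] at k1 k2 k3 k4 k5
    obtain ⟨w, hw, w0⟩ := exists_mem_ne_zero_of_ne_bot s.dat.ne
    have k4 := k4.resolve_right fun e => w0 (by rw [← h1 h (s.dat.le hw), e, map_zero, LinearMap.zero_apply])
    have k1 : (u : L) = 0 := by rw [← ef h (s.dat.le u.2), k1, map_zero]
    simp [k3, k4, k5, Subtype.ext k1 |> (show u = 0 from ·), Subtype.ext k2 |> (show v = 0 from ·)]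
  have := finrank_mono (show LinearMap.range φ ≤ span F (D.OM M) by
    rintro _ ⟨⟨⟨u, v⟩, a, b, c⟩, rfl⟩
    exact add_mem (add_mem (mb _ u.2) (mu _ v.2)) (add_mem (smul_mem _ a mf) (add_mem (smul_mem _ b mh) (smul_mem _ c me))))
  simp only [LinearMap.finrank_range_of_inj i, finrank_prod, finrank_self] at this
  omega

end Dt.Ax
end

end CF.M7
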