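import Cfsg.Agent.M7.K3
import Cfsg.Agent.M7.B2
import Cfsg.Agent.M7.T2

/-! S5934, piece K4: soundness of the case checkers. -/

set_option autoImplicit false

namespace CF.M7

open Module Submodule CF.Chev Cfsg.Lie Sum

namespace K4
variable {n : ℕ} {E A : SM} {w : List ℕ} {v : L7} {N : Submodule F L7} {c : Cs}

theorem cnd_t {b x : Bool} : cnd b x false = true ↔ b = true ∧ x = true := by
  cases b <;> simp

theorem two (v : L7) : v + v = 0 := by
  rw [← two_smul F v, show (2 : F) = 0 from rfl, zero_smul]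

theorem sp_le (h : ∀ p ∈ E, toL p.2 ∈ N) : sp E ≤ N := span_le.2 fun _ ⟨p, hp, e⟩ => e ▸ h p hp

theorem sp_ind (γ : L7 →ₗ[F] L7) (h : ∀ p ∈ E, γ (toL p.2) ∈ N) (hv : v ∈ sp E) : γ v ∈ N :=
  sp_le (N := N.comap γ) h hv

theorem sp_fl (γ : L7 →ₗ[F] L7 →ₗ[F] L7) {u : L7} (h : ∀ p ∈ E, γ (toL p.2) u ∈ N) (hv : v ∈ sp E) :
    γ v u ∈ N := sp_ind (γ.flip u) h hv

theorem le_of (hA : wf A = true) (h : allL E (fun p => mem A p.2) = true) : sp E ≤ sp A :=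
  sp_le fun p hp => mem_sp hA (allL_iff.1 h p hp)

theorem wf_map (h : wf E = true) (g : ℕ → ℕ) : wf (E.map fun p => (p.1, g p.2)) = true :=
  allL_iff.2 fun p hp => by
    obtain ⟨q, hq, rfl⟩ := List.mem_map.1 hp
    exact allL_iff.1 h q hq

theorem wG_cons (r : ℕ) (w : List ℕ) : wG (r :: w) = xr r * wG w := by simp [wG]

theorem okL_iff : okL w = true ↔ ∀ r ∈ w, 33 ≤ r ∧ r ≤ 92 := by
  simp only [okL, allL_iff, cnd_t, Nat.ble_eq]

theorem okW_iff : okW w = true ↔ ∀ r ∈ w, r < 126 := by simp only [okW, allL_iff, Nat.blt_eq]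

theorem okL_W (h : okL w = true) : okW w = true :=
  okW_iff.2 fun r hr => by have := okL_iff.1 h r hr; omega

theorem okL_Lv (h : okL w = true) : wG w ∈ D7.Lv := by
  refine D7.Lv.list_prod_mem fun x hx => ?_
  obtain ⟨r, hr, e⟩ := List.mem_map.1 hx
  exact e ▸ xr_Lv (okL_iff.1 h r hr).1 (okL_iff.1 h r hr).2

theorem supp (h : toL n ∈ D7.Lg 1) :
    okW (supp1 n) = true ∧ wG (supp1 n) ∈ D7.Q ∧ D7.e1 (wG (supp1 n)) = toL n := by
  have key : ∀ k ≤ 32, ∀ w, w = (Nat.rec [] (fun i ih => cnd (tb n (Nat.add 93 i))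
      (Nat.add 93 i :: ih) ih) k : List ℕ) → (∀ r ∈ w, r < 126) ∧ wG w ∈ D7.Q ∧ ∀ a, D7.e1 (wG w) a =
        if 93 ≤ cd a ∧ cd a < 93 + k ∧ n.testBit (cd a) then 1 else 0 := by
    intro k
    induction k with
    | zero =>
      rintro - _ rfl
      refine ⟨by simp, one_mem _, fun a => ?_⟩
      have := ax7.e1_mul (one_mem _) (one_mem _)
      rw [two, one_mul] at this
      rw [if_neg (by omega)]
      exact congrFun this a
    | succ k ih =>
      rintro hk _ rfl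
      obtain ⟨h1, h2, h3⟩ := ih (by omega) _ rfl
      simp only [cnd_eq, tb_eq, Nat.add_eq] at h1 h2 h3 ⊢
      split_ifs with h4
      · have h5 := xr_Q (r := 93 + k) (by omega) (by omega)
        refine ⟨fun r hr => (List.mem_cons.1 hr).elim (by omega) (h1 r), wG_cons _ _ ▸ mul_mem h5 h2,
          fun a => ?_⟩
        rw [wG_cons, ax7.e1_mul h5 h2, e1_xr (by omega) (by omega), ← toL_rv (by omega), Pi.add_apply,
          h3, toL, Nat.testBit_two_pow]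
        by_cases h6 : 93 + k = cd a
        · simp [← h6, h4]
        · simp [h6, show cd a < 93 + (k + 1) ↔ cd a < 93 + k by omega]
      · refine ⟨h1, h2, fun a => ?_⟩
        rw [h3]
        by_cases h6 : 93 + k = cd a
        · simp [← h6, h4]
        · simp [show cd a < 93 + (k + 1) ↔ cd a < 93 + k by omega]
  obtain ⟨h1, h2, h3⟩ := key 32 le_rfl (supp1 n) (force_eq _ _)
  refine ⟨okW_iff.2 h1, h2, funext fun a => ?_⟩
  have h4 : D7.pj 1 (toL n) = toL n := h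
  rw [h3, ← h4, ← toL_m1, toL, Nat.land_eq, Nat.testBit_and,
    show Cs.m1 = (2 ^ 32 - 1) <<< 93 by decide, Nat.testBit_shiftLeft, Nat.testBit_two_pow_sub_one]
  by_cases h5 : 93 ≤ cd a
  · simp [h5, and_comm, show cd a - 93 < 32 ↔ cd a < 125 by omega]
  · simp [h5]

theorem le1 (h1 : c.chk1 = true) : sp c.U ≤ D7.Lg 1 := by
  simp only [Cs.chk1, cnd_t] at h1
  exact sp_E1 ▸ le_of (wf_of chkE_E1) h1.2.2.1

end K4

open K4

variable {A B W : SM}

theorem Cs.nu {c : Cs} (h1 : c.chk1 = true) (h2 : c.chk2 = true) : D7.NU (sp c.U) = sp c.N := by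
  simp only [Cs.chk1, Cs.chk2, cnd_t] at h1 h2
  have hU := wf_of h1.1
  refine le_antisymm (fun v hv => kerC_sp h2.2.2.1 (wf_of h1.2.1)
    (fun u => (LinearMap.id + lin c.U) ∘ₗ D7.br.flip (toL u)) (fun p _ n => ?_) (sp_E0 ▸ hv.1)
    fun p hp => ?_) (sp_le fun a ha => ⟨sp_E0 ▸ mem_sp rfl (allL_iff.1 h1.2.2.2.1 a ha),
      fun u hu => sp_ind (D7.br _) (fun p hp => ?_) hu⟩)
  · simp [toL_red hU, toL_brN]
  · simp [lin_self h1.1 (hv.2 _ (mem_sp hU (allL_iff.1 h2.2.1 p hp))), two]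
  · exact toL_brN _ _ ▸ mem_sp hU (allL_iff.1 (allL_iff.1 h2.1 a ha) p hp)

namespace K4
variable {c : Cs} (h1 : c.chk1 = true) (h2 : c.chk2 = true)
include h1 h2

theorem memY {n : ℕ} (h : c.memY n = true) : toL n ∈ D7.YU (sp c.U) := by
  have h3 := Cs.nu h1 h2
  simp only [Cs.chk1, Cs.memY, force_eq, cnd_t] at h1 h
  have h4 := mem_sp (wf_of h1.1) h.2.1
  rw [toL_brB (by omega), toL_mm] at h4
  exact ⟨⟨mem_comap.2 (toL_m1 n ▸ mem_sp (wf_of h1.1) h.1), h4⟩,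
    mem_comap.2 (h3 ▸ toL_m0 n ▸ mem_sp (wf_of h1.2.1) h.2.2)⟩

theorem stq (h3 : c.chk3 = true) {u : ℕ × ℕ} (hu : u ∈ c.U) :
    wG (supp1 u.2) ∈ St G7 (D7.YU (sp c.U)) := by
  obtain ⟨h4, h5, -⟩ := supp (le1 h1 (subset_span ⟨u, hu, rfl⟩))
  have h6 := allL_iff.1 h3 u hu
  simp only [frL_eq, cnd_t, allL_iff] at h6
  refine ax7.st_q (le1 h1) h5 ?_ (fun v hv => sp_ind (DistribSMul.toLinearMap F L7 _ ∘ₗ D7.br D7.f)
    (fun p hp => ?_) hv) fun v hv => sp_ind (DistribSMul.toLinearMap F L7 _) (fun p hp => ?_)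
      (Cs.nu h1 h2 ▸ hv)
  · have := memY h1 h2 h6.1
    rwa [toL_wN h4, show 1 = 2 ^ 0 from rfl, toL_rv (by omega)] at this
  · have := memY h1 h2 (h6.2.1 p hp)
    rwa [toL_wN h4, toL_brB (by omega)] at this
  · have := memY h1 h2 (h6.2.2 p hp)
    rwa [toL_wN h4] at this

omit h2 in
theorem stl (h4 : c.chk4 = true) {w : List ℕ} (hw : w ∈ c.gs) :
    okL w = true ∧ wG w ∈ St G7 (sp c.U) ∧
      ∀ v ∈ D7.Lg 1, lin (E1.map fun p => (p.1, wN w p.2)) v = wG w • v := by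
  have := ax7.finG
  have l1 := le1 h1
  simp only [Cs.chk1, Cs.chk4, cnd_t, mats_eq, allL_iff] at h1 h4
  have h5 := h4.1 w hw
  have h6 : ∀ v ∈ D7.Lg 1, lin (E1.map fun p => (p.1, wN w p.2)) v = wG w • v := fun v hv =>
    lin_mat chkE_E1 (γ := DistribSMul.toLinearMap F L7 _) (toL_wN (okL_W h5)) (sp_E1 ▸ hv)
  refine ⟨h5, mem_St_of fun v hv => sp_ind (DistribSMul.toLinearMap F L7 _) (fun p hp => ?_) hv, h6⟩
  have := mem_sp (wf_of h1.1) (h4.2.1 _ (List.mem_map_of_mem hw) p hp)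
  rwa [toL_aps (wf_map (wf_of chkE_E1) _), h6 _ (l1 (subset_span ⟨p, hp, rfl⟩))] at this

theorem big (h3 : c.chk3 = true) (h4 : c.chk4 = true) (h5 : c.chk5 = true) (S : Submodule F L7)
    (s1 : St G7 (D7.YU (sp c.U)) ≤ St G7 S) (s2 : D7.EM (St G7 (D7.YU (sp c.U))) ⊆ S) :
    22 ≤ finrank F S := by
  have := ax7.finG
  have l1 := le1 h1
  have he : xr 125 ∈ St G7 (D7.YU (sp c.U)) := ax7.st_e l1 (isX_xr 125)
  have k1 : ∀ w ∈ c.hs, okW w = true ∧ wG w ∈ St G7 (D7.YU (sp c.U)) := fun w hw => by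
    simp only [Cs.hs, List.mem_cons, List.mem_append, List.mem_map] at hw
    rcases hw with rfl | rfl | hw | ⟨u, hu, rfl⟩
    · exact ⟨rfl, by simpa [wG] using he⟩
    · exact ⟨rfl, by simpa [wG] using ax7.st_f l1 (isX_xr 0)⟩
    · obtain ⟨h6, h7, -⟩ := stl h1 h4 hw
      exact ⟨okL_W h6, ax7.st_lv (okL_Lv h6) h7⟩
    · exact ⟨(supp (l1 (subset_span ⟨u, hu, rfl⟩))).1, stq h1 h2 h3 hu⟩
  have k2 : ∀ j, ∀ n ∈ {n | toL n ∈ S}, wN (nth c.hs [] j) n ∈ {n | toL n ∈ S} := fun j n hn => by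
    rw [nth_eq, List.getD_eq_getElem?_getD]
    rcases e : c.hs[j]? with _ | w
    · exact hn
    · have := k1 w (List.mem_of_getElem? e)
      change toL (wN w n) ∈ S
      rw [toL_wN this.1]
      exact (s1 this.2 _).2 hn
  simp only [Cs.chk5, cnd_t, allL_iff, Nat.ble_eq, Nat.beq_eq] at h5
  obtain ⟨h5, h6, h7, h8, h9⟩ := h5
  have k3 : ∀ p ∈ c.st, Nat.shiftLeft 1 p.1 ∈ {n | toL n ∈ S} := fun p hp => by
    have h := h5 p hp
    rw [Set.mem_setOf, Nat.shiftLeft_eq', Nat.one_shiftLeft]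
    rw [cnd_eq] at h
    split_ifs at h with e
    · rw [Nat.eq_of_beq_eq_true e, toL_rv (by omega)]
      exact s2 ⟨ex_rv _, _, he, isX_xr _⟩
    simp only [cnd_t, okL_iff, allL_iff, Nat.beq_eq, List.mem_singleton, forall_eq] at h
    rw [toL_rv (by omega)]
    refine s2 ⟨ex_rv _, _, ax7.st_lv (xr_Lv h.1.1 h.1.2) (mem_St_of fun v hv => ?_), isX_xr _⟩
    have k4 : D7.br (rv p.1) v ∈ (⊥ : Submodule F L7) := sp_ind _ (fun u hu => by
      rw [← toL_brB (by omega), h.2 u hu, toL_zero]; exact zero_mem _) hv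
    rw [isX_xr, k4, fm_rv (by omega), mem_Lg.1 (l1 hv) _ (by
      rw [dg_rt (by omega), if_neg (by omega), if_neg (by omega), if_pos (by omega)]; decide)]
    simpa using hv
  have k4 : ∀ k : List ℕ → Bool, ∃ V, (∀ x ∈ V, toL x ∈ S) ∧ c.vs k = k V := by
    unfold Cs.vs
    generalize c.st = l at k3
    induction l with
    | nil => exact fun k => ⟨[], by simp, rfl⟩
    | cons p l ih =>
      intro k
      obtain ⟨V, a1, a2⟩ := walk_mem k2 p.2 (k3 p List.mem_cons_self) fun V =>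
        (List.rec (fun k => k []) (fun p _ ih k => walk (fun j => wN (nth c.hs [] j)) p.2
          (Nat.shiftLeft 1 p.1) fun V => ih fun t => k (V ++ t)) l : (List ℕ → Bool) → Bool)
          fun t => k (V ++ t)
      obtain ⟨V', a3, a4⟩ := ih (fun q hq => k3 q (List.mem_cons_of_mem _ hq)) fun t => k (V ++ t)
      exact ⟨V ++ V', fun x hx => (List.mem_append.1 hx).elim (a1 x) (a3 x), a2.trans a4⟩
  obtain ⟨V, a1, a2⟩ := k4 _
  rw [a2, allL_iff] at h9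
  refine h7.trans (finrank_sp h6 ▸ finrank_mono (sp_le fun p hp => ?_))
  obtain ⟨i, hi, rfl⟩ := List.getElem_of_mem hp
  have := h9 (c.S[i], c.ms[i]'(h8 ▸ hi)) (by
    rw [← List.getElem_zip (h := by simp [h8, hi])]; exact List.getElem_mem _)
  exact Nat.eq_of_beq_eq_true this ▸ cmb_mem a1 _

end K4

theorem Cs.dat {c : Cs} (h1 : c.chk1 = true) (h2 : c.chk2 = true) (h3 : c.chk3 = true) (h4 : c.chk4 = true)
    (h5 : c.chk5 = true) : D7.Dat (sp c.U) ∧ finrank F (sp c.U) = c.U.length ∧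
      finrank F (D7.NU (sp c.U)) = c.N.length ∧ finrank F (D7.CU (sp c.U)) ≤ c.C.length := by
  have l1 := le1 h1
  have nu := Cs.nu h1 h2
  have k1 := fun u => stq h1 h2 h3 (u := u)
  have k2 := fun w => stl h1 h4 (w := w)
  have k3 := big h1 h2 h3 h4 h5
  simp only [Cs.chk1, Cs.chk2, Cs.chk4, cnd_t, Nat.blt_eq, Nat.ble_eq, mats_eq] at h1 h2 h4
  obtain ⟨a1, a2, -, -, a3, a4, a5, a6, a7⟩ := h1
  obtain ⟨-, -, -, b1, b2, b3, b4⟩ := h2
  have d1 := finrank_sp a1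
  have d2 : finrank F (D7.NU (sp c.U)) = _ := nu ▸ finrank_sp a2
  have d3 : D7.CU (sp c.U) ≤ sp c.C := fun v hv => kerC_sp b2 a6
    (fun u => D7.br.flip (toL u)) (fun p _ n => toL_brN _ _) (nu ▸ ⟨hv.1, fun u hu =>
      (hv.2 u hu).symm ▸ zero_mem _⟩) fun p hp =>
        (LinearMap.flip_apply _ _ _).trans (hv.2 _ (mem_sp (wf_of a1) (allL_iff.1 b1 p hp)))
  replace d3 := (finrank_mono d3).trans (finrank_sp_le _)
  refine ⟨⟨l1, fun e => ?_, fun e => ?_, fun u hu k => ?_, fun u hu => ?_, fun N n1 n2 n3 => ?_, k3,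
    by omega, by omega⟩, d1, d2, d3⟩
  · rw [e, finrank_bot] at d1
    omega
  · rw [e, ← sp_E1, finrank_sp chkE_E1, show E1.length = 32 from rfl] at d1
    omega
  · exact sp_le (N := ⊥) (by simp) (kerC_sp b4 rfl (fun u => D7.br.flip (toL u))
      (fun p _ n => toL_brN _ _) hu fun p hp =>
        (LinearMap.flip_apply _ _ _).trans (k _ (mem_sp (wf_of a1) (allL_iff.1 b3 p hp))))
  · obtain ⟨N, e, -⟩ := ax7.um_sub (St G7 (D7.YU (sp c.U)))
    obtain ⟨q, q1, q2, q3⟩ := e.ge (sp_le (N := N) (fun p hp =>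
      e.le ⟨_, k1 p hp, (supp (l1 (subset_span ⟨p, hp, rfl⟩))).2⟩) hu)
    exact ⟨q, q2, q1, q3⟩
  · rw [← sp_E1] at n2 ⊢
    refine Nor.sound h4.2.2 chkE_E1 a1 (fun M hM => ?_) n1 n2 fun M hM v hv => ?_ <;>
      obtain ⟨w, hw, rfl⟩ := List.mem_map.1 hM
    · exact wf_map (wf_of chkE_E1) _
    · obtain ⟨c1, c2, c3⟩ := k2 w hw
      exact (c3 v (sp_E1 ▸ n2 hv)).symm ▸ n3 _ (okL_Lv c1) c2 v hv

theorem Cs.spl_of {c : Cs} (h1 : c.chk1 = true) (h2 : c.chk2 = true) (hA : chkE A = true) (hB : chkE B = true)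
    (h : c.spl A B W = true) : D7.Spl (sp c.U) (sp A) (sp B) := by
  simp only [Cs.spl, cnd_t, Nat.blt_eq] at h
  obtain ⟨a1, a2, a3, a4, a5, a6⟩ := h
  refine ⟨sp W, lt_of_le_of_finrank_lt_finrank (le_of (wf_of a1) a2) (by
    rwa [finrank_sp hB, finrank_sp a1]), lt_of_le_of_finrank_lt_finrank (le_of (wf_of hA) a3) (by
    rwa [finrank_sp hA, finrank_sp a1]), fun a ha w hw => sp_fl D7.br (fun p hp =>
      sp_ind (D7.br _) (fun q hq => ?_) hw) (Cs.nu h1 h2 ▸ ha)⟩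
  rw [← toL_brN]
  exact mem_sp (wf_of a1) (allL_iff.1 (allL_iff.1 a6 p hp) q hq)

theorem Cs.nspl_of {c : Cs} (h1 : c.chk1 = true) (h2 : c.chk2 = true) (hA : chkE A = true) (hB : chkE B = true)
    {bs : List ℕ} {nr : Nor} (h : c.nspl A B bs nr = true) : ¬ D7.Spl (sp c.U) (sp A) (sp B) := by
  rintro ⟨N, n1, n2, n3⟩
  rw [Cs.nu h1 h2] at n3
  simp only [Cs.chk1, Cs.nspl, cnd_t, mats_eq] at h h1
  refine (Nor.sound h.2 hA hB (fun M hM => ?_) n1.le n2.le fun M hM v hv => ?_).elim n1.ne' n2.ne <;>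
    obtain ⟨b, hb, rfl⟩ := List.mem_map.1 hM
  · exact wf_map (wf_of hA) _
  · rw [lin_mat hA (toL_brN b) (n2.le hv)]
    exact n3 _ (mem_sp (wf_of h1.2.1) (allL_iff.1 h.1 b hb)) v hv

end CF.M7
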