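import Cfsg.Agent.M7.A

/-! Abstract theory, part 1: root elements and the unipotent radical. -/

set_option autoImplicit false
set_option linter.unusedSectionVars false

namespace CF.M7

open Module Submodule

namespace T1

theorem f01 (c : F) : c = 0 ∨ c = 1 := by revert c; decide

theorem add_self {L : Type} [AddCommGroup L] [Module F L] (a : L) : a + a = 0 := by
  rw [← two_smul F a, show (2 : F) = 0 from rfl, zero_smul]

theorem eq_of_add {L : Type} [AddCommGroup L] [Module F L] {a b : L} (h : a + b = 0) : a = b := by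
  rw [← add_zero a, ← add_self b, ← add_assoc, h, zero_add]

end T1

section
variable {G L : Type} [Group G] [AddCommGroup L] [Module F L] [DistribMulAction G L] [SMulCommClass G F L]
  {D : Dt G L} {M M' : Subgroup G} {U U' A B N : Submodule F L} {a b u v : L} {g k l q x y : G}

theorem mem_St : g ∈ St G N ↔ ∀ v, g • v ∈ N ↔ v ∈ N := Iff.rfl

theorem mem_St_of [Finite G] (h : ∀ v ∈ N, g • v ∈ N) : g ∈ St G N := by
  intro v
  refine ⟨fun hv => ?_, h v⟩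
  have h1 : ∀ n : ℕ, ∀ w ∈ N, g ^ n • w ∈ N := by
    intro n
    induction n with
    | zero => intro w hw; simpa using hw
    | succ n ih => intro w hw; rw [pow_succ, mul_smul]; exact ih _ (h w hw)
  obtain ⟨n, hn, h2⟩ := (isOfFinOrder_of_finite g).exists_pow_eq_one
  obtain ⟨m, rfl⟩ := Nat.exists_eq_succ_of_ne_zero hn.ne'
  have h3 := h1 m _ hv
  rwa [← mul_smul, ← pow_succ, h2, one_smul] at h3

theorem mem_im : v ∈ im g U ↔ g⁻¹ • v ∈ U := by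
  constructor
  · rintro ⟨u, hu, rfl⟩
    simpa using hu
  · exact fun h => ⟨g⁻¹ • v, h, by simp⟩

theorem finrank_im : finrank F (im g U) = finrank F U :=
  LinearEquiv.finrank_map_eq (DistribMulAction.toLinearEquiv F L g) U

theorem Cj.symm (h : Cj M M') : Cj M' M := by
  obtain ⟨g, rfl⟩ := h
  refine ⟨g⁻¹, ?_⟩
  rw [Subgroup.map_map]
  convert Subgroup.map_id M
  ext z
  simp [mul_assoc]

namespace Dt

theorem mem_Lg {j : ℤ} : v ∈ D.Lg j ↔ D.pj j v = v := Iff.rfl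

theorem mem_Lv : l ∈ D.Lv ↔ l • D.e = D.e ∧ l • D.f = D.f := Iff.rfl

end Dt

namespace Dt.Ax
open T1

theorem br_comm (h : D.Ax) (a b : L) : D.br a b = D.br b a := by
  have h1 := h.br_self (a + b)
  simp only [map_add, LinearMap.add_apply, h.br_self, zero_add, add_zero] at h1
  exact (eq_of_add h1).symm

theorem fm_comm (h : D.Ax) (a b : L) : D.fm a b = D.fm b a := by
  have h1 := h.fm_self (a + b)
  simp only [map_add, LinearMap.add_apply, h.fm_self, zero_add, add_zero] at h1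
  exact (eq_of_add h1).symm

theorem x_cj (h : D.Ax) (k : D.IsX x a) (g : G) : D.IsX (g * x * g⁻¹) (g • a) := by
  intro v
  rw [mul_smul, mul_smul, k, smul_add, smul_add, smul_inv_smul, h.br_smul, smul_inv_smul, smul_comm g,
    ← h.fm_smul g, smul_inv_smul]

theorem x_uniq (h : D.Ax) (k : D.IsX x a) (k' : D.IsX y a) : x = y := by
  have := h.faith (x⁻¹ * y) fun v => by rw [mul_smul, k', ← k, inv_smul_smul]
  exact inv_mul_eq_one.1 this

theorem ex_x (h : D.Ax) (k : D.Ex a) : ∃ x, D.IsX x a := by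
  obtain ⟨g, rfl⟩ := k
  obtain ⟨y, -, hy⟩ := h.exX
  exact ⟨_, h.x_cj hy g⟩

theorem ex_sq (h : D.Ax) (k : D.Ex a) (v : L) : D.br a (D.br a v) = 0 := by
  obtain ⟨g, rfl⟩ := k
  rw [← smul_inv_smul g v, ← h.br_smul, ← h.br_smul, h.sq, smul_zero]

theorem ex_fm (h : D.Ax) (k : D.Ex a) : ∃ v, D.fm a v = 1 := by
  obtain ⟨g, rfl⟩ := k
  exact ⟨g • D.f, by rw [h.fm_smul, h.fm_ef]⟩

theorem x_sq (h : D.Ax) (k : D.Ex a) (k' : D.IsX x a) : x * x = 1 := by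
  refine h.faith _ fun v => ?_
  rw [mul_smul, k' (x • v), k' v]
  simp only [map_add, map_smul, h.ex_sq k, h.br_self, h.fm_self, ← h.fm_br, map_zero,
    LinearMap.zero_apply, smul_zero, add_zero]
  have e : v + D.br a v + D.fm a v • a + D.br a v + D.fm a v • a =
      v + (D.br a v + D.br a v) + (D.fm a v • a + D.fm a v • a) := by abel
  rw [e, add_self, add_self, add_zero, add_zero]

theorem ex_smul (k : D.Ex a) (g : G) : D.Ex (g • a) := by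
  obtain ⟨j, rfl⟩ := k
  exact ⟨g * j, mul_smul _ _ _⟩

theorem em_smul (h : D.Ax) (hg : g ∈ M) (k : a ∈ D.EM M) : g • a ∈ D.EM M := by
  obtain ⟨k1, x, hx, k2⟩ := k
  exact ⟨ex_smul k1 g, _, M.mul_mem (M.mul_mem hg hx) (M.inv_mem hg), h.x_cj k2 g⟩

theorem em_cj (h : D.Ax) (e : M.map (MulAut.conj g).toMonoidHom = M') : a ∈ D.EM M ↔ g • a ∈ D.EM M' := by
  subst e
  constructor
  · rintro ⟨k1, x, hx, k2⟩
    exact ⟨ex_smul k1 g, _, ⟨x, hx, rfl⟩, h.x_cj k2 g⟩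
  · rintro ⟨k1, _, ⟨x, hx, rfl⟩, k2⟩
    have h1 := ex_smul k1 g⁻¹
    have h2 := h.x_cj k2 g⁻¹
    rw [inv_smul_smul] at h1 h2
    refine ⟨h1, x, hx, ?_⟩
    convert h2 using 1
    simp [mul_assoc]

/-- hyperbolic pairs are conjugate -/
theorem hyp (h : D.Ax) (ha : a ∈ D.EM M) (hb : b ∈ D.EM M) (e : D.fm a b = 1) : ∃ g ∈ M, g • b = a := by
  obtain ⟨-, x, hx, k1⟩ := ha
  obtain ⟨-, y, hy, k2⟩ := hb
  refine ⟨y⁻¹ * x, M.mul_mem (M.inv_mem hy) hx, ?_⟩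
  rw [mul_smul, inv_smul_eq_iff, k1, k2, e, h.fm_comm b a, e, one_smul, one_smul, h.br_comm b a]
  abel

theorem pj_mem (h : D.Ax) (j : ℤ) (v : L) : D.pj j v ∈ D.Lg j := by
  rw [mem_Lg, h.pj_pj, if_pos rfl]

theorem pj_ne (h : D.Ax) {i j : ℤ} (hv : v ∈ D.Lg j) (ne : i ≠ j) : D.pj i v = 0 := by
  rw [← mem_Lg.1 hv, h.pj_pj, if_neg ne]

theorem lg_big (h : D.Ax) {j : ℤ} (hv : v ∈ D.Lg j) (hj : 2 < |j|) : v = 0 := by
  rw [← mem_Lg.1 hv, h.pj_big _ _ hj]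

theorem br_big (h : D.Ax) {i j : ℤ} (ha : a ∈ D.Lg i) (hb : b ∈ D.Lg j) (hj : 2 < |i + j|) :
    D.br a b = 0 := h.lg_big (h.br_gr ha hb) hj

theorem fm_fe (h : D.Ax) : D.fm D.f D.e = 1 := by rw [h.fm_comm, h.fm_ef]

theorem e_mem (h : D.Ax) : D.e ∈ D.Lg 2 := by rw [mem_Lg, h.pj_e, h.fm_ef, one_smul]

theorem f_mem (h : D.Ax) : D.f ∈ D.Lg (-2) := by rw [mem_Lg, h.pj_f, h.fm_fe, one_smul]

theorem h_mem (h : D.Ax) : D.h ∈ D.Lg 0 := h.br_gr h.e_mem h.f_mem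

theorem e_ne (h : D.Ax) : D.e ≠ 0 := fun e => by simpa [e] using h.fm_ef

theorem lg_two (h : D.Ax) (hv : v ∈ D.Lg 2) : v = D.fm v D.f • D.e := by
  rw [← h.pj_e, mem_Lg.1 hv]

theorem lg_mtwo (h : D.Ax) (hv : v ∈ D.Lg (-2)) : v = D.fm v D.e • D.f := by
  rw [← h.pj_f, mem_Lg.1 hv]

theorem ext_pj (h : D.Ax) (e : ∀ j ≤ 2, D.pj j a = D.pj j b) : a = b := by
  refine (h.dec a).trans (Eq.trans ?_ (h.dec b).symm)
  rw [e _ (by norm_num), e (-1) (by norm_num), e 0 (by norm_num), e 1 (by norm_num), e 2 le_rfl]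

theorem h_one (h : D.Ax) (hu : u ∈ D.Lg 1) : D.br D.h u = u := by
  rw [h.h_gr hu, Int.cast_one, one_smul]

theorem h_mone (h : D.Ax) (hu : u ∈ D.Lg (-1)) : D.br D.h u = u := by
  rw [h.h_gr hu, show ((-1 : ℤ) : F) = 1 from rfl, one_smul]

theorem h_two (h : D.Ax) (hu : u ∈ D.Lg 2) : D.br D.h u = 0 := by
  rw [h.h_gr hu, show ((2 : ℤ) : F) = 0 from rfl, zero_smul]

theorem h_mtwo (h : D.Ax) (hu : u ∈ D.Lg (-2)) : D.br D.h u = 0 := by
  rw [h.h_gr hu, show ((-2 : ℤ) : F) = 0 from rfl, zero_smul]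

theorem h_zero (h : D.Ax) (hu : u ∈ D.Lg 0) : D.br D.h u = 0 := by
  rw [h.h_gr hu, Int.cast_zero, zero_smul]

theorem ef_one (h : D.Ax) (hu : u ∈ D.Lg 1) : D.br D.e (D.br D.f u) = u := by
  rw [h.jac, h.br_big h.e_mem hu (by norm_num), map_zero, add_zero]
  exact h.h_one hu

theorem fe_one (h : D.Ax) (hu : u ∈ D.Lg (-1)) : D.br D.f (D.br D.e u) = u := by
  rw [h.jac, h.br_big h.f_mem hu (by norm_num), map_zero, add_zero, h.br_comm D.f D.e]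
  exact h.h_mone hu

theorem br_h (h : D.Ax) (v : L) : D.br D.h v = D.pj (-1) v + D.pj 1 v := by
  conv_lhs => rw [h.dec v]
  simp only [map_add, h.h_mtwo (h.pj_mem _ v), h.h_mone (h.pj_mem _ v), h.h_zero (h.pj_mem _ v),
    h.h_one (h.pj_mem _ v), h.h_two (h.pj_mem _ v), zero_add, add_zero]

theorem pj_one (h : D.Ax) (v : L) : D.pj 1 v = D.br D.e (D.br D.f (D.br D.h v)) := by
  rw [h.br_h, map_add, h.br_big h.f_mem (h.pj_mem _ v) (by norm_num), zero_add, h.ef_one (h.pj_mem _ v)]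

theorem pj_mone (h : D.Ax) (v : L) : D.pj (-1) v = D.br D.f (D.br D.e (D.br D.h v)) := by
  rw [h.br_h, map_add, h.br_big h.e_mem (h.pj_mem 1 v) (by norm_num), add_zero,
    h.fe_one (h.pj_mem _ v)]

theorem lv_h (h : D.Ax) (hl : l ∈ D.Lv) : l • D.h = D.h := by
  rw [Dt.h, h.br_smul, (mem_Lv.1 hl).1, (mem_Lv.1 hl).2]

theorem lv_pj (h : D.Ax) (hl : l ∈ D.Lv) (k : ℤ) (v : L) : l • D.pj k v = D.pj k (l • v) := by
  obtain ⟨he, hf⟩ := mem_Lv.1 hl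
  have h1 : l • D.pj 1 v = D.pj 1 (l • v) := by
    rw [h.pj_one, h.pj_one, h.br_smul, h.br_smul, h.br_smul, he, hf, h.lv_h hl]
  have h2 : l • D.pj (-1) v = D.pj (-1) (l • v) := by
    rw [h.pj_mone, h.pj_mone, h.br_smul, h.br_smul, h.br_smul, he, hf, h.lv_h hl]
  have h3 : l • D.pj 2 v = D.pj 2 (l • v) := by
    rw [h.pj_e, h.pj_e, smul_comm l, he, ← h.fm_smul l, hf]
  have h4 : l • D.pj (-2) v = D.pj (-2) (l • v) := by
    rw [h.pj_f, h.pj_f, smul_comm l, hf, ← h.fm_smul l, he]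
  have h5 : l • D.pj 0 v = D.pj 0 (l • v) := by
    have e1 := h.dec (l • v)
    conv_lhs at e1 => rw [h.dec v]
    rw [smul_add, smul_add, smul_add, smul_add, h1, h2, h3, h4] at e1
    exact add_left_cancel (add_right_cancel (add_right_cancel e1))
  by_cases hk : 2 < |k|
  · rw [h.pj_big _ _ hk, h.pj_big _ _ hk, smul_zero]
  · have : k = -2 ∨ k = -1 ∨ k = 0 ∨ k = 1 ∨ k = 2 := by
      rw [not_lt, abs_le] at hk
      omega
    rcases this with rfl | rfl | rfl | rfl | rfl <;> assumption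

theorem lv_lg (h : D.Ax) (hl : l ∈ D.Lv) {j : ℤ} (hv : v ∈ D.Lg j) : l • v ∈ D.Lg j := by
  rw [mem_Lg, ← h.lv_pj hl, mem_Lg.1 hv]

theorem e1_mem (h : D.Ax) (q : G) : D.e1 q ∈ D.Lg 1 := h.pj_mem _ _

theorem e1_fil (h : D.Ax) (hq : q ∈ D.Q) {k j : ℤ} (hv : v ∈ D.Lg k) (le : j ≤ k + 1) :
    D.pj j (q • v) = D.pj j (v + D.br (D.e1 q) v) := by
  obtain ⟨u, hu, k1⟩ := h.Q_fil q hq
  have : D.e1 q = u := by
    rw [Dt.e1, k1 0 _ h.h_mem 1 (by norm_num), h.br_comm u, h.h_one hu, map_add,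
      h.pj_ne h.h_mem (by norm_num), zero_add, mem_Lg.1 hu]
  rw [this]
  exact k1 k v hv j le

theorem q_e (h : D.Ax) (hq : q ∈ D.Q) : q • D.e = D.e :=
  h.ext_pj fun j hj => by
    rw [h.e1_fil hq h.e_mem (by omega), h.br_big (h.e1_mem q) h.e_mem (by norm_num), add_zero]

theorem q_one (h : D.Ax) (hq : q ∈ D.Q) (hv : v ∈ D.Lg 1) : q • v = v + D.br (D.e1 q) v :=
  h.ext_pj fun _ hj => h.e1_fil hq hv (by omega)

theorem q_two (h : D.Ax) (hq : q ∈ D.Q) (hv : v ∈ D.Lg 2) : q • v = v := by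
  rw [h.lg_two hv, smul_comm q, h.q_e hq]

theorem q_h (h : D.Ax) (hq : q ∈ D.Q) : q • D.h = D.h + D.e1 q + D.pj 2 (q • D.h) :=
  h.ext_pj fun j hj => by
    rcases hj.eq_or_lt with rfl | hj
    · rw [map_add, map_add, h.pj_ne h.h_mem (by norm_num), h.pj_ne (h.e1_mem q) (by norm_num),
        mem_Lg.1 (h.pj_mem _ _), zero_add, zero_add]
    · rw [h.e1_fil hq h.h_mem (by omega), h.br_comm (D.e1 q), h.h_one (h.e1_mem q),
        map_add _ _ (D.pj 2 _), h.pj_ne (h.pj_mem 2 _) hj.ne, add_zero]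

theorem e1_one (h : D.Ax) : D.e1 (1 : G) = 0 := by
  rw [Dt.e1, one_smul, h.pj_ne h.h_mem (by norm_num)]

theorem e1_mul (h : D.Ax) (hq : q ∈ D.Q) (hx : x ∈ D.Q) : D.e1 (q * x) = D.e1 q + D.e1 x := by
  rw [Dt.e1, mul_smul, h.q_h hx, smul_add, smul_add, h.q_two hq (h.pj_mem _ _),
    h.q_one hq (h.e1_mem x), map_add, map_add, map_add, h.pj_ne (h.pj_mem 2 _) (by norm_num),
    h.pj_ne (h.br_gr (h.e1_mem q) (h.e1_mem x)) (by norm_num), mem_Lg.1 (h.e1_mem x), add_zero,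
    add_zero]
  rfl

theorem e1_inv (h : D.Ax) (hq : q ∈ D.Q) : D.e1 q⁻¹ = D.e1 q := by
  have := h.e1_mul (D.Q.inv_mem hq) hq
  rw [inv_mul_cancel, h.e1_one] at this
  exact eq_of_add this.symm

theorem e1_cj (h : D.Ax) (hl : l ∈ D.Lv) (hq : q ∈ D.Q) : D.e1 (l * q * l⁻¹) = l • D.e1 q := by
  have _ := hq
  rw [Dt.e1, Dt.e1, mul_smul, mul_smul, h.lv_h (D.Lv.inv_mem hl), h.lv_pj hl]

theorem p_dec (h : D.Ax) (e : k • D.e = D.e) : ∃ q ∈ D.Q, ∃ l ∈ D.Lv, k = q * l := by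
  obtain ⟨q, hq, h1⟩ := h.P_dec k e
  refine ⟨q, hq, q⁻¹ * k, mem_Lv.2 ⟨?_, ?_⟩, by rw [mul_inv_cancel_left]⟩
  · rw [mul_smul, e, h.q_e (D.Q.inv_mem hq)]
  · rw [mul_smul, ← h1, inv_smul_smul]

/-- root elements of vectors of positive degree lie in `Q` -/
theorem x_mem_Q (h : D.Ax) (e : D.Ex a) (k : D.IsX x a) (p : a = D.pj 1 a + D.pj 2 a) : x ∈ D.Q ∧ D.e1 x = D.pj 1 a := by
  have _ := e
  have m1 := h.pj_mem 1 a
  have m2 := h.pj_mem 2 a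
  have hb : ∀ v, D.br a v = D.br (D.pj 1 a) v + D.br (D.pj 2 a) v := fun v => by
    conv_lhs => rw [p]
    rw [map_add, LinearMap.add_apply]
  have hf : ∀ v, D.fm a v = D.fm (D.pj 1 a) v + D.fm (D.pj 2 a) v := fun v => by
    conv_lhs => rw [p]
    rw [map_add, LinearMap.add_apply]
  have h1 : x • D.e = D.e := by
    rw [k, hb, hf, h.br_big m1 h.e_mem (by norm_num), h.br_big m2 h.e_mem (by norm_num),
      h.fm_gr m1 h.e_mem (by norm_num), h.fm_gr m2 h.e_mem (by norm_num)]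
    simp
  obtain ⟨q, hq, l, hl, rfl⟩ := h.p_dec h1
  have h2 : l = 1 := h.lv_triv l hl fun v hv => by
    have h3 : l • v = q⁻¹ • (q * l) • v := by rw [mul_smul, inv_smul_smul]
    rw [k, hb, hf, h.br_big m2 hv (by norm_num), h.fm_gr m1 hv (by norm_num),
      h.fm_gr m2 hv (by norm_num), add_zero, add_zero, zero_smul, add_zero, smul_add,
      h.q_one (D.Q.inv_mem hq) hv, h.q_two (D.Q.inv_mem hq) (h.br_gr m1 hv)] at h3
    rw [← mem_Lg.1 (h.lv_lg hl hv), h3, map_add, map_add, mem_Lg.1 hv,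
      h.pj_ne (h.br_gr (h.e1_mem _) hv) (by norm_num), h.pj_ne (h.br_gr m1 hv) (by norm_num),
      add_zero, add_zero]
  refine ⟨by rw [h2, mul_one]; exact hq, ?_⟩
  rw [Dt.e1, k, hb, hf, h.fm_gr m1 h.h_mem (by norm_num), h.fm_gr m2 h.h_mem (by norm_num),
    h.br_comm _ D.h, h.br_comm _ D.h, h.h_one m1, h.h_two m2, add_zero, add_zero, zero_smul, add_zero,
    map_add, h.pj_ne h.h_mem (by norm_num), zero_add, mem_Lg.1 m1]

/-- `UM M` is a subspace of `L₁`, invariant under `M ⊓ Lv` -/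
theorem um_sub (h : D.Ax) (M : Subgroup G) :
    ∃ N : Submodule F L, D.UM M = N ∧ N ≤ D.Lg 1 ∧ ∀ l ∈ M, l ∈ D.Lv → ∀ v ∈ N, l • v ∈ N := by
  have h0 : (0 : L) ∈ D.UM M := ⟨1, M.one_mem, D.Q.one_mem, h.e1_one⟩
  refine ⟨⟨⟨⟨D.UM M, ?_⟩, h0⟩, ?_⟩, rfl, ?_, ?_⟩
  · rintro _ _ ⟨q, h1, h2, rfl⟩ ⟨x, h3, h4, rfl⟩
    exact ⟨q * x, M.mul_mem h1 h3, D.Q.mul_mem h2 h4, h.e1_mul h2 h4⟩
  · intro c v hv
    rcases f01 c with rfl | rfl
    · rw [zero_smul]; exact h0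
    · rw [one_smul]; exact hv
  · rintro _ ⟨q, -, -, rfl⟩
    exact h.e1_mem q
  · rintro l hl hv _ ⟨q, h1, h2, rfl⟩
    exact ⟨l * q * l⁻¹, M.mul_mem (M.mul_mem hl h1) (M.inv_mem hl), h.Q_nrm l (mem_Lv.1 hv).1 q h2,
      h.e1_cj hv h2⟩

/-- an element of `Q` whose image lies in `UM M` lies in `M` -/
theorem q_mem (h : D.Ax) (hy : y ∈ M) (ky : D.IsX y D.e) (hq : q ∈ D.Q) (e : D.e1 q ∈ D.UM M) :
    q ∈ M := by
  obtain ⟨p, h1, h2, h3⟩ := e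
  have h4 : D.e1 (q * p⁻¹) = 0 := by
    rw [h.e1_mul hq (D.Q.inv_mem h2), h.e1_inv h2, h3, add_self]
  have h5 : q * p⁻¹ ∈ M := by
    rcases h.Q_ker _ (D.Q.mul_mem hq (D.Q.inv_mem h2)) h4 with h5 | h5
    · rw [h5]; exact M.one_mem
    · rw [h.x_uniq h5 ky]; exact hy
  simpa using M.mul_mem h5 h1

theorem um_top (h : D.Ax) (e : D.UM M = D.Lg 1) (hy : y ∈ M) (ky : D.IsX y D.e) (hx : x ∈ M) (kx : D.IsX x D.f) :
    M = ⊤ :=
  h.gen M x (fun q hq => h.q_mem hy ky hq (by rw [e]; exact h.e1_mem q)) hx kx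

theorem f_om (h : D.Ax) (hy : y ∈ M) (ky : D.IsX y D.e) (hx : x ∈ M) (kx : D.IsX x D.f) : D.f ∈ D.OM M := by
  refine ⟨y⁻¹ * x, M.mul_mem (M.inv_mem hy) hx, ?_⟩
  rw [mul_smul, inv_smul_eq_iff, kx, ky, h.fm_ef, h.fm_fe, one_smul, one_smul, h.br_comm D.f D.e]
  abel

theorem perp_um (h : D.Ax) (he : D.e ∈ D.EM M) (ha : a ∈ D.EM M) (e : D.fm a D.e = 0) :
    D.pj 1 (D.br a D.e) ∈ D.UM M ∧ D.br a D.e = D.pj 1 (D.br a D.e) + D.pj 2 (D.br a D.e) := by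
  have m1 : D.br (D.pj (-1) a) D.e ∈ D.Lg 1 := by
    simpa using h.br_gr (h.pj_mem (-1) a) h.e_mem
  have m2 : D.br (D.pj 0 a) D.e ∈ D.Lg 2 := h.br_gr (h.pj_mem 0 a) h.e_mem
  have h1 : D.br a D.e = D.br (D.pj (-1) a) D.e + D.br (D.pj 0 a) D.e := by
    conv_lhs => rw [h.dec a]
    simp only [map_add, LinearMap.add_apply]
    rw [h.pj_f, e, zero_smul, map_zero, LinearMap.zero_apply, zero_add,
      h.br_big (h.pj_mem 1 a) h.e_mem (by norm_num), h.br_big (h.pj_mem 2 a) h.e_mem (by norm_num),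
      add_zero, add_zero]
  have h2 : D.br a D.e = D.pj 1 (D.br a D.e) + D.pj 2 (D.br a D.e) := by
    conv_rhs => rw [h1]
    rw [map_add, map_add, mem_Lg.1 m1, mem_Lg.1 m2, h.pj_ne m2 (by norm_num), h.pj_ne m1 (by norm_num),
      add_zero, zero_add, h1]
  refine ⟨?_, h2⟩
  obtain ⟨-, x, hx, kx⟩ := ha
  obtain ⟨k1, z, hz, kz⟩ := h.em_smul hx he
  rw [kx, e, zero_smul, add_zero] at k1 kz
  have h3 : D.pj 1 (D.e + D.br a D.e) = D.pj 1 (D.br a D.e) := by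
    rw [map_add, h.pj_ne h.e_mem (by norm_num), zero_add]
  obtain ⟨h4, h5⟩ := h.x_mem_Q k1 kz (by
    rw [h3, map_add, mem_Lg.1 h.e_mem, add_left_comm, ← h2])
  exact ⟨z, hz, h4, h5.trans h3⟩

/-- if `M ∩ Q` is generated by the root element, orthogonal points commute -/
theorem perp_zero (h : D.Ax) (um : D.UM M ⊆ {0}) (he : D.e ∈ D.EM M) (ha : a ∈ D.EM M) (hb : b ∈ D.OM M)
    (e : D.fm a b = 0) : D.br a b = 0 := by
  obtain ⟨k, hk, rfl⟩ := hb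
  have ha' := h.em_smul (M.inv_mem hk) ha
  have e' : D.fm (k⁻¹ • a) D.e = 0 := by rw [← h.fm_smul k, smul_inv_smul, e]
  obtain ⟨h1, h2⟩ := h.perp_um he ha' e'
  rw [show D.pj 1 (D.br (k⁻¹ • a) D.e) = 0 from um h1, zero_add, h.pj_e] at h2
  rcases f01 (D.fm (D.br (k⁻¹ • a) D.e) D.f) with c | c
  · rw [c, zero_smul] at h2
    rw [← smul_inv_smul k a, ← h.br_smul, h2, smul_zero]
  · rw [c, one_smul] at h2
    obtain ⟨-, x, -, kx⟩ := ha'
    have h3 := kx D.e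
    rw [h2, e', zero_smul, add_zero, add_self, smul_eq_zero_iff_eq] at h3
    exact absurd h3 h.e_ne

end Dt.Ax
end

end CF.M7
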