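import Cfsg.Agent.M7.Lz0
import Cfsg.Agent.M7.K3
import Cfsg.Agent.M7.B2
import Cfsg.Agent.M7.T1

/-! Maximal subgroups of `E₇(2)`: an overgroup of `L₂(128)`. -/

set_option autoImplicit false

namespace CF.M7

open Module Submodule CF.Chev Cfsg.Lie Sum K3

namespace Lz

theorem c1_spec : (∀ w ∈ gens, okW w = true) ∧ chkE B = true ∧
    (∀ w ∈ gens, ∀ b ∈ B, mem B (wN w b.2) = true) ∧ ∃ b ∈ B, (red B (xN 0 b.2)).testBit 1 = true := by
  have h := h1
  simpa only [c1, cnd_eq, Bool.if_false_right, Bool.and_eq_true, allL_iff, anyL_iff, tb_eq,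
    decide_eq_true_eq] using h

theorem wa_mem : wa ∈ gens := List.mem_cons_self

theorem ok_wa : okW wa = true := c1_spec.1 _ wa_mem

/-- The linear map of a group element. -/
noncomputable abbrev lm (g : G7) : L7 →ₗ[F] L7 := DistribSMul.toLinearMap F L7 g

theorem lin_w {w : List ℕ} (h : okW w = true) (v : L7) :
    lin (EL.map fun p => (p.1, wN w p.2)) v = wG w • v :=
  lin_mat chkE_EL (γ := lm (wG w)) (toL_wN h) (sp_EL ▸ mem_top)

theorem st_of {E : SM} {w : List ℕ} (a : okW w = true) (b : wf E = true)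
    (c : ∀ p ∈ E, mem E (wN w p.2) = true) : wG w ∈ St G7 (sp E) := by
  have := ax7.finG
  have h1 : sp E ≤ (sp E).comap (lm (wG w)) := sp_le.2 fun p hp => by
    have := mem_sp b (c p hp)
    rw [toL_wN a] at this
    exact mem_comap.2 this
  refine mem_St_of fun v hv => ?_
  have h2 := mem_comap.1 (h1 hv)
  rwa [DistribSMul.toLinearMap_apply] at h2

theorem st_B {w : List ℕ} (h : w ∈ gens) : wG w ∈ St G7 (sp B) :=
  st_of (c1_spec.1 w h) (wf_of c1_spec.2.1) (c1_spec.2.2.1 w h)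

theorem st_ne : St G7 (sp B) ≠ ⊤ := by
  intro e
  obtain ⟨-, b, -, p, hp, k⟩ := c1_spec
  have h1 : xr 0 ∈ St G7 (sp B) := e ▸ Subgroup.mem_top _
  have h2 := (mem_St.1 h1 _).2 (gen hp)
  rw [← toL_xN (by norm_num)] at h2
  have h3 := toL_red (wf_of b) (xN 0 p.2)
  rw [lin_self b h2, T1.add_self] at h3
  have h4 := co_toL (r := 1) (by norm_num) (red B (xN 0 p.2))
  rw [h3, k, map_zero] at h4
  simp at h4

theorem dims {N : Submodule F L7} (h : ∀ w ∈ gens, wG w ∈ St G7 N) :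
    finrank F N ≤ 21 ∨ 112 ≤ finrank F N := by
  obtain ⟨a, b, -, -⟩ := c1_spec
  have k := h2
  rw [c2, mats_eq] at k
  have hB : finrank F (sp B) = 21 := (finrank_sp b).trans len_B
  rcases Nor.sound (N := N ⊔ sp B) k chkE_EL b (fun M hM => by
      obtain ⟨w, -, rfl⟩ := List.mem_map.1 hM
      exact wf_map (wf_of chkE_EL) _) le_sup_right (sp_EL ▸ le_top) (fun M hM v hv => by
      obtain ⟨w, hw, rfl⟩ := List.mem_map.1 hM
      obtain ⟨x, hx, y, hy, rfl⟩ := mem_sup.1 hv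
      rw [lin_w (a w hw), smul_add]
      exact add_mem_sup ((mem_St.1 (h w hw) _).2 hx) ((mem_St.1 (st_B hw) _).2 hy)) with e | e
  · exact .inl (hB ▸ finrank_mono (e ▸ le_sup_left))
  · have h1 := finrank_add_le_finrank_add_finrank N (sp B)
    rw [e, finrank_sp chkE_EL, hB, show EL.length = 133 by decide +kernel] at h1
    omega

theorem sqs_spec {α : Type} (n : ℕ) (M : SM) (g : G7) (f : ℕ → ℕ) (e : M = EL.map fun p => (p.1, f p.2))
    (h : ∀ v, lin M v = g • v) (k : SM → α) :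
    ∃ M', wf M' = true ∧ (∀ v, lin M' v = g ^ 2 ^ n • v) ∧ sqs n M k = k M' := by
  induction n generalizing M g f with
  | zero => exact ⟨M, e ▸ wf_map (wf_of chkE_EL) _, by simpa using h, rfl⟩
  | succ n ih =>
    have w : wf M = true := e ▸ wf_map (wf_of chkE_EL) _
    have e2 : (M.map fun p => (p.1, aps M p.2)) = EL.map fun p => (p.1, aps M (f p.2)) := by
      conv_lhs => rw [e, List.map_map]
      rw [← e]
      rfl
    obtain ⟨M', a, b, c⟩ := ih _ (g * g) (fun v => aps M (f v)) e2 (fun v => by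
      rw [e2]
      refine sp_ext (E := EL) (γ := lin _) (δ := lm (g * g)) (fun p hp => ?_) (sp_EL ▸ mem_top)
      rw [lin_gen chkE_EL (fun v => aps M (f v)) hp, toL_aps w, ← lin_gen chkE_EL f hp, ← e, h, h,
        ← mul_smul]
      rfl)
    refine ⟨M', a, fun v => by rw [b, ← sq, ← pow_mul, ← pow_succ'], ?_⟩
    exact (mat_eq M (aps M) fun M' => sqs n M' k).trans c

theorem a_pow : wG wa ^ 127 = 1 := by
  have k := h3
  rw [c3, mat_eq] at k
  obtain ⟨M', a, b, c⟩ := sqs_spec 7 _ (wG wa) (wN wa) rfl (lin_w ok_wa) (fun M' => allL EL fun p =>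
    Nat.beq (aps M' p.2) (aps (EL.map fun p => (p.1, wN wa p.2)) p.2))
  rw [c, allL_iff] at k
  refine ax7.faith _ fun v => ?_
  have h1 : lin M' v = lin (EL.map fun p => (p.1, wN wa p.2)) v :=
    sp_ext (E := EL) (fun p hp => by
      rw [← toL_aps a, ← toL_aps (wf_map (wf_of chkE_EL) _), Nat.eq_of_beq_eq_true (k p hp)])
      (sp_EL ▸ mem_top)
  rw [b, lin_w ok_wa, show 2 ^ 7 = 127 + 1 from rfl, pow_succ', mul_smul] at h1
  exact smul_left_cancel _ h1

theorem fix_K {v : L7} (h : wG wa • v = v) : v ∈ sp K := by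
  have k := h4
  simp only [c4, cnd_eq, Bool.if_false_right, Bool.and_eq_true, decide_eq_true_eq] at k
  refine kerC_sp k.2 k.1 (fun _ => lm (wG wa) + LinearMap.id) (fun _ _ n => ?_) (sp_EL ▸ mem_top)
    fun _ _ => ?_
  · rw [toL_xor, toL_wN ok_wa]; rfl
  · change wG wa • v + v = 0
    rw [h, T1.add_self]

theorem not_ex {v : L7} (h : v ∈ sp K) : ¬ D7.Ex v := by
  intro e
  obtain ⟨x, hx, rfl⟩ := subs_sp h
  have k := allL_iff.1 h5 x hx
  simp only [force_eq, cnd_eq] at k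
  split_ifs at k with c
  · have h1 := ax7.ex_sq e (toL 1)
    rw [← toL_brN, ← toL_brN, ← toL_zero] at h1
    have h2 := toL_inj (by simpa [Nat.one_shiftLeft] using k) (by norm_num) h1
    rw [h2] at c
    simp at c
  · obtain ⟨u, hu⟩ := ax7.ex_fm e
    have h1 : D7.fm (toL x) u = (0 : L7 →ₗ[F] F) u := sp_ext (E := EL) (fun p hp => by
      have := allL_iff.1 k p hp
      rw [fmN_eq]
      cases hc : fmN x p.2 <;> simp_all) (sp_EL ▸ mem_top)
    rw [hu] at h1
    simp at h1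

end Lz

theorem lz7 : ∃ M, IsCoatom M ∧ D7.Lz M := by
  have := ax7.finG
  obtain ⟨M, hM, le⟩ := (eq_top_or_exists_le_coatom (St G7 (sp Lz.B))).resolve_left Lz.st_ne
  exact ⟨M, hM, fun N hN => Lz.dims fun w hw => hN (le (Lz.st_B hw)),
    wG Lz.wa, le (Lz.st_B Lz.wa_mem), Lz.a_pow, fun v hv e => Lz.not_ex (Lz.fix_K e) hv⟩

end CF.M7
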