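import Cfsg.Agent.M7.B2

/-! Maximal subgroups of `E₇(2)`: the parabolic subgroups. -/

set_option autoImplicit false

namespace CF.E7t

open CF.Chev CF.BN Sum LieBasis Module

theorem Par_eq (i : Fin 7) : Par i = ρ.U {r | 0 ≤ c7.vec r i} := by
  have k : ∀ r, RootSys.lev {i}ᶜ (c7.vec r) = c7.vec r i := fun r => by
    rw [RootSys.lev_apply, Finset.sum_eq_single i] <;> simp
  rw [Par, ← ρ.UJ_sup_LJ]
  simp only [StRep.UJ, ← c7.lev_vec_pos_iff, k]
  simp only [StRep.LJ, ← c7.lev_vec_eq_zero_iff, k, H_eq, bot_sup_eq]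
  rw [← ρ.U_union]
  congr 1
  ext r
  simp [le_iff_lt_or_eq, eq_comm]

/-- The nilradical of a maximal parabolic subalgebra. -/
def Nil (i : Fin 7) : Submodule F V := Sp {c | 0 < c7.wt c i}

theorem gf_Nil {i : Fin 7} {r : Rt} (h : 0 ≤ c7.vec r i) {v : V} (hv : v ∈ Nil i) : gf (e r) v = 0 :=
  gf_zero (S := {inr r}) (fun a ha b hb k => by
    obtain rfl : a = inr r := ha
    have : 0 < c7.wt b i := hb
    rw [k] at this
    change 0 < - c7.vec r i at this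
    omega) (bv_mem rfl) hv

theorem Par_Nil {i : Fin 7} {g : G} (hg : g ∈ Par i) {v : V} (hv : v ∈ Nil i) : π g v ∈ Nil i :=
  U_ind (p := fun g => π g v ∈ Nil i) (by simpa) (fun g r _ hr ih => by
    rw [π_mul, π_x, X_apply, gf_Nil hr ih, zero_smul, add_zero]
    refine add_mem ih (br_mem (S := {inr r}) (fun a ha b hb c k => ?_) (bv_mem rfl) ih)
    obtain rfl : a = inr r := ha
    have h1 : 0 < c7.wt b i := hb
    have h2 : 0 ≤ c7.vec r i := hr
    change 0 < c7.wt c i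
    rw [k]
    change 0 < c7.vec r i + c7.wt b i
    omega) (Par_eq i ▸ hg)

theorem Nil_eq (i : Fin 7) :
    Nil i = Submodule.span F (Set.range fun r : {r : Rt // 0 < c7.vec r i} => e r.1) :=
  le_antisymm (fun _ hv => Sp_ind (zero_mem _) (fun _ _ => add_mem) (fun c hc => by
    rcases c with j | r
    · exact absurd hc (lt_irrefl (0 : ℤ))
    · exact Submodule.subset_span ⟨⟨r, hc⟩, rfl⟩) hv)
    (Submodule.span_le.2 (by rintro _ ⟨r, rfl⟩; exact bv_mem r.2))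

theorem finrank_Nil (i : Fin 7) : 27 ≤ finrank F (Nil i) ∧ finrank F (Nil i) ≤ 111 := by
  have k := ((Pi.basisFun F Ix).linearIndependent.comp
    (fun r : {r : Rt // 0 < c7.vec r i} => (inr r.1 : Ix))
    fun _ _ h => Subtype.ext (inr_injective h))
  have k1 : (Pi.basisFun F Ix ∘ fun r : {r : Rt // 0 < c7.vec r i} => (inr r.1 : Ix)) =
      fun r => e r.1 := funext fun r => Pi.basisFun_apply _ _ _
  rw [k1] at k
  rw [Nil_eq, finrank_span_eq_card k, Fintype.card_subtype]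
  simp only [tb7.vec]
  clear k k1
  revert i
  decide +kernel

theorem gf_EM_Par {i : Fin 7} {r : Rt} (h : 0 < c7.vec r i) :
    e r ∈ EM (Par i) ∧ ∀ b ∈ EM (Par i), gf (e r) b = 0 := by
  have k : e r ∈ EM (Par i) := ⟨_, Par_eq i ▸ ρ.x_mem_U h.le 1, isR_x r⟩
  refine ⟨k, fun b hb => (f01 _).resolve_right fun e1 => ?_⟩
  obtain ⟨g, h1, rfl⟩ := exists_π_of_gf k hb e1
  exact zero_ne_one ((gf_Nil h.le (Par_Nil h1 (bv_mem (c := inr r) h))).symm.trans e1)

end CF.E7t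

namespace CF.M7

open Module Submodule CF.Chev Cfsg.Lie Sum B1

theorem par7 : ∃ M : Fin 7 → Subgroup G7, (∀ i, IsCoatom (M i) ∧ D7.Par (M i)) ∧ ∀ i j, Cj (M i) (M j) → i = j := by
  refine ⟨E7t.Par, fun i => ⟨E7t.coatom_Par i, E7t.Nil i, fun g hg v => ?_, (E7t.finrank_Nil i).1,
    (E7t.finrank_Nil i).2, (E7t.Nil_eq i).le.trans (span_mono ?_)⟩, fun i j ⟨_, h⟩ => E7t.Par_conj h⟩
  · rw [smul_eq]
    exact ⟨fun h => E7t.π_inv_π g v ▸ E7t.Par_Nil (inv_mem hg) h, E7t.Par_Nil hg⟩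
  · rintro _ ⟨r, rfl⟩
    exact ⟨(em_eq _).ge (E7t.gf_EM_Par r.2).1,
      fun b hb => (fm_eq _ _).trans ((E7t.gf_EM_Par r.2).2 b ((em_eq _).le hb))⟩

end CF.M7
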