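import Cfsg.Agent.M7.T2

/-! Maximal subgroups of `E₇(2)`: invariants of conjugacy classes. -/

set_option autoImplicit false

namespace CF.M7

open Module Submodule

variable {G L : Type} [Group G] [AddCommGroup L] [Module F L] [DistribMulAction G L] [SMulCommClass G F L]
  {D : Dt G L} {M M' : Subgroup G} {U U' A B N : Submodule F L} {a b u v : L} {g k l q x y : G}

namespace T3

theorem cj_mem (e : M.map (MulAut.conj g).toMonoidHom = M') : g * x * g⁻¹ ∈ M' ↔ x ∈ M :=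
  e ▸ Subgroup.mem_map_iff_mem (f := (MulAut.conj g).toMonoidHom) (MulAut.conj g).injective

theorem cj_mem' (e : M.map (MulAut.conj g).toMonoidHom = M') : x ∈ M' ↔ g⁻¹ * x * g ∈ M := by
  rw [← cj_mem e]; simp [mul_assoc]

theorem st_im (e : M.map (MulAut.conj g).toMonoidHom = M') (h : M ≤ St G N) : M' ≤ St G (im g N) :=
  fun x hx v => by
    rw [mem_im, mem_im, ← h ((cj_mem' e).1 hx) (g⁻¹ • v)]
    simp [mul_smul]

theorem im_lt (h : A < B) : im g A < im g B := by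
  obtain ⟨v, h1, h2⟩ := SetLike.exists_of_lt h
  exact SetLike.lt_iff_le_and_exists.2 ⟨map_mono h.le, g • v, by simpa [mem_im] using h1,
    by simpa [mem_im] using h2⟩

theorem dim_le (h : D.Ax) {S : Set L} (k : ∀ v ∈ S, g • v ∈ N) :
    finrank F (span F S) ≤ finrank F N := by
  have := h.fin
  have : Module.Finite F L := Module.Finite.of_finite
  rw [← finrank_im (g := g⁻¹) (U := N)]
  exact finrank_mono (span_le.2 fun v hv => mem_im.2 (by simpa using k v hv))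

theorem om_em (h : D.Ax) (s : D.Std M U) (hb : b ∈ D.OM M) : b ∈ D.EM M := by
  obtain ⟨k, hk, rfl⟩ := hb
  obtain ⟨y, -, hy⟩ := h.exX
  exact h.em_smul hk ⟨⟨1, one_smul _ _⟩, y, s.st (h.st_e s.dat.le hy), hy⟩

omit [SMulCommClass G F L] in
theorem e_om : D.e ∈ D.OM M := ⟨1, one_mem _, one_smul _ _⟩

theorem rm_cj (h : D.Ax) (e : M.map (MulAut.conj g).toMonoidHom = M') :
    a ∈ D.RM M ↔ g • a ∈ D.RM M' := by
  refine and_congr (h.em_cj e) ⟨fun k b hb => ?_, fun k b hb => ?_⟩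
  · rw [← smul_inv_smul g b, h.fm_smul]
    exact k _ ((h.em_cj e).2 (by rwa [smul_inv_smul]))
  · rw [← h.fm_smul g]
    exact k _ ((h.em_cj e).1 hb)

theorem e1_fix (h : D.Ax) (e : k • D.e = D.e) :
    ∃ l ∈ D.Lv, ∀ q ∈ D.Q, D.e1 (k * q * k⁻¹) = l • D.e1 q := by
  obtain ⟨p, hp, l, hl, rfl⟩ := h.p_dec e
  refine ⟨l, hl, fun q hq => ?_⟩
  have k := h.Q_nrm l hl.1 q hq
  have t : D.e1 p + D.e1 p = 0 := by
    rw [← two_smul F, show (2 : F) = 0 from rfl, zero_smul]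
  rw [show p * l * q * (p * l)⁻¹ = p * (l * q * l⁻¹ * p⁻¹) by group,
    h.e1_mul hp (mul_mem k (inv_mem hp)), h.e1_mul k (inv_mem hp), h.e1_inv hp, h.e1_cj hl hq,
    add_left_comm, t, add_zero]

omit [SMulCommClass G F L] in
theorem cj_fix (e : M.map (MulAut.conj g).toMonoidHom = M') (hb : b ∈ D.OM M)
    (hb' : g • b ∈ D.OM M') : ∃ k : G, k • D.e = D.e ∧ ∀ x, k * x * k⁻¹ ∈ M' ↔ x ∈ M := by
  obtain ⟨k, hk, rfl⟩ := hb
  obtain ⟨k', hk', e'⟩ := hb'
  refine ⟨k'⁻¹ * g * k, by rw [mul_smul, mul_smul, ← e', inv_smul_smul], fun x => ?_⟩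
  rw [show k'⁻¹ * g * k * x * (k'⁻¹ * g * k)⁻¹ = k'⁻¹ * (g * (k * x * k⁻¹) * g⁻¹) * k' by group,
    mul_mem_cancel_right hk', mul_mem_cancel_left (inv_mem hk'), cj_mem e,
    mul_mem_cancel_right (inv_mem hk), mul_mem_cancel_left hk]

end T3

open T3

namespace Dt.Ax

theorem std_cj (h : D.Ax) (s : D.Std M U) (s' : D.Std M' U') (c : Cj M M')
    (k : finrank F (D.CU U') < 2 * finrank F U + 3 ∨ finrank F (D.CU U) < 2 * finrank F U' + 3) :
    ∃ l ∈ D.Lv, im l U = U' := by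
  obtain ⟨g, e⟩ := c
  by_cases c : ∃ b ∈ D.OM M, g • b ∈ D.OM M'
  · obtain ⟨b, hb, hb'⟩ := c
    obtain ⟨k, ke, hk⟩ := cj_fix e hb hb'
    obtain ⟨l, hl, t⟩ := e1_fix h ke
    refine ⟨l, hl, le_antisymm ?_ fun u hu => ?_⟩
    · rintro _ ⟨u, hu, rfl⟩
      obtain ⟨q, q1, q2, rfl⟩ : u ∈ D.UM M := s.um ▸ hu
      exact (s'.um ▸ ⟨_, (hk q).2 q1, h.Q_nrm k ke q q2, t q q2⟩ : l • D.e1 q ∈ (U' : Set L))
    · obtain ⟨q, q1, q2, rfl⟩ : u ∈ D.UM M' := s'.um ▸ hu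
      have q3 := h.Q_nrm k⁻¹ (inv_smul_eq_iff.2 ke.symm) q q2
      have q4 : k * (k⁻¹ * q * k⁻¹⁻¹) * k⁻¹ = q := by group
      exact ⟨_, s.um ▸ ⟨_, (hk _).1 (q4.symm ▸ q1), q3, rfl⟩, (t _ q3).symm.trans (by rw [q4])⟩
  · push Not at c
    have a1 := (h.om_dim s).trans (dim_le h (g := g) fun b hb =>
      (h.orb s' ((h.em_cj e).1 (om_em h s hb))).resolve_left (c b hb))
    have a2 := (h.om_dim s').trans (dim_le h (g := g⁻¹) fun b hb =>
      (h.orb s ((h.em_cj e).2 (by rw [smul_inv_smul]; exact om_em h s' hb))).resolve_left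
        fun n => c _ n (by rwa [smul_inv_smul]))
    omega

theorem lg_im (h : D.Ax) (hl : l ∈ D.Lv) (k : ℤ) : im l (D.Lg k) = D.Lg k := by
  ext v
  rw [mem_im]
  show D.pj k _ = _ ↔ D.pj k v = v
  rw [← h.lv_pj (inv_mem hl), LinearMap.id_apply, smul_left_cancel_iff]

theorem nu_im (h : D.Ax) (hl : l ∈ D.Lv) : D.NU (im l U) = im l (D.NU U) := by
  ext v
  rw [mem_im]
  refine and_congr (by rw [← mem_im, h.lg_im hl]) ⟨fun k u hu => ?_, fun k u hu => ?_⟩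
  · have := mem_im.1 (k (l • u) (mem_im.2 (by rwa [inv_smul_smul])))
    rwa [h.br_smul, inv_smul_smul] at this
  · rw [mem_im, h.br_smul]
    exact k _ (mem_im.1 hu)

theorem spl_im (h : D.Ax) (hl : l ∈ D.Lv) (k : D.Spl U A B) : D.Spl (im l U) (im l A) (im l B) := by
  obtain ⟨W, h1, h2, h3⟩ := k
  refine ⟨im l W, im_lt h1, im_lt h2, fun a ha w hw => ?_⟩
  rw [h.nu_im hl] at ha
  rw [mem_im, h.br_smul]
  exact h3 _ (mem_im.1 ha) _ (mem_im.1 hw)

theorem std_par (h : D.Ax) (s : D.Std M U) (p : D.Par M') : ¬ Cj M M' := by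
  rintro ⟨g, e⟩
  obtain ⟨N, -, h1, -, h2⟩ := p
  have := h.fin
  have : Module.Finite F L := Module.Finite.of_finite
  have a := (finrank_mono h2).trans (dim_le h (g := g⁻¹) (N := D.CU U) fun a ha => by
    have := (rm_cj h e (a := g⁻¹ • a)).2 (by rwa [smul_inv_smul])
    exact h.perp_cu s (h.em_le s this.1) fun b hb => this.2 b (om_em h s hb))
  have := s.dat.dC
  omega

theorem std_tw (h : D.Ax) (s : D.Std M U) (p : D.Tw M') : ¬ Cj M M' := by
  rintro ⟨g, e⟩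
  obtain ⟨k, ke, hk⟩ := cj_fix e e_om (p.eq ▸ (h.em_cj e).1 (om_em h s e_om))
  obtain ⟨l, -, t⟩ := e1_fix h ke
  refine s.dat.ne (eq_bot_iff.2 fun u hu => ?_)
  obtain ⟨q, q1, q2, rfl⟩ : u ∈ D.UM M := s.um ▸ hu
  exact (smul_eq_zero_iff_eq l).1 (p.um ⟨_, (hk q).2 q1, h.Q_nrm k ke q q2, t q q2⟩)

theorem std_lz (h : D.Ax) (s : D.Std M U) (p : D.Lz M') : ¬ Cj M M' := by
  rintro ⟨g, e⟩
  have := h.fin
  have := h.finG
  have : Module.Finite F L := Module.Finite.of_finite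
  have st : M ≤ St G (span F (D.EM M)) := fun x hx => mem_St_of fun v hv =>
    (span_le (p := comap (DistribSMul.toLinearMap F L x) (span F (D.EM M)))).2
      (fun a ha => (subset_span (h.em_smul hx ha) : x • a ∈ span F (D.EM M))) hv
  have a1 := s.dat.big _ (s.st.trans st) fun a ⟨k, x, hx, t⟩ => subset_span ⟨k, x, s.st hx, t⟩
  have a2 := (finrank_mono (span_le.2 (h.em_le s))).trans (h.yu_dim s.dat.le)
  have a3 := p.inv _ (st_im e st)
  have := s.dat.dN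
  rw [finrank_im] at a3
  omega

theorem par_tw (h : D.Ax) (s : D.Par M) (p : D.Tw M') : ¬ Cj M M' := by
  rintro ⟨g, e⟩
  obtain ⟨N, -, h1, -, h2⟩ := s
  have : N = ⊥ := eq_bot_iff.2 (h2.trans (span_le.2 fun a ha => by
    obtain ⟨a1, a2⟩ := (rm_cj h e).1 ha
    obtain ⟨k, hk, t⟩ : g • a ∈ D.OM M' := p.eq ▸ a1
    have := a2 _ (h.em_smul hk (p.eq ▸ p.f))
    rw [← t, h.fm_smul, h.fm_ef] at this
    exact absurd this one_ne_zero))
  rw [this, finrank_bot] at h1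
  omega

theorem par_lz (_h : D.Ax) (s : D.Par M) (p : D.Lz M') : ¬ Cj M M' := by
  rintro ⟨g, e⟩
  obtain ⟨N, st, h1, h2, -⟩ := s
  have := p.inv _ (st_im e st)
  rw [finrank_im] at this
  omega

theorem tw_lz (h : D.Ax) (s : D.Tw M) (p : D.Lz M') : ¬ Cj M M' := by
  rintro ⟨g, e⟩
  obtain ⟨a, ha, a1, a2⟩ := p.ex
  have := h.fin
  let S : SubMulAction M L := ⟨D.EM M, fun x _ hv => h.em_smul x.2 hv⟩
  have := Fintype.ofFinite S
  have : Fact (Nat.Prime 127) := ⟨by norm_num⟩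
  have c : Fintype.card S = 189 := Nat.card_eq_fintype_card.symm.trans s.card
  obtain ⟨v, hv⟩ := Equiv.Perm.exists_fixed_point_of_prime (p := 127) (n := 1) (by rw [c]; decide)
    (σ := MulAction.toPermHom M S ⟨_, (cj_mem' e).1 ha⟩) (by
      rw [← map_pow, ← map_one (MulAction.toPermHom M S)]
      refine congrArg _ (Subtype.ext ?_)
      show (g⁻¹ * a * g) ^ 127 ^ 1 = 1
      rw [← inv_inv g, inv_inv g⁻¹, conj_pow, pow_one, a1, mul_one, mul_inv_cancel])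
  have hv' : (g⁻¹ * a * g) • v.1 = v.1 := congrArg Subtype.val hv
  refine a2 _ ((h.em_cj e).1 v.2).1 ?_
  rwa [mul_smul, mul_smul, inv_smul_eq_iff] at hv'

end Dt.Ax

end CF.M7
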