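import Cfsg.Agent.M7.TwC
import Cfsg.Agent.M7.K3
import Cfsg.Agent.M7.B2
import Cfsg.Agent.M7.T1

/-! Maximal subgroups of `E₇(2)`: the normalizer of the torus `3⁷`. -/

set_option autoImplicit false

namespace CF.M7

open Module Submodule CF.Chev Cfsg.Lie Sum T1 K3

namespace Tw

section
variable {G L : Type} [Group G] [AddCommGroup L] [Module F L] [DistribMulAction G L] [SMulCommClass G F L]
  {D : Dt G L}

theorem step (h : D.Ax) {H : Subgroup G} {A : Submodule F L} {τ : G} (hτ : τ ∈ H) (h1 : ∀ u ∈ A, τ • u ∈ A)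
    {v a : L} (h2 : v + τ • v + τ • τ • v ∈ A) (ha : ∀ u ∈ A, D.fm a u = 0) :
    ∃ k ∈ H, (∀ u ∈ A, D.fm (k • a) u = 0) ∧ D.fm (k • a) v = 0 := by
  have k : ∀ (g : G) u, D.fm (g⁻¹ • a) u = D.fm a (g • u) := fun g u => by
    rw [← h.fm_smul g, smul_inv_smul]
  have e := ha _ h2
  rw [map_add, map_add] at e
  rcases f01 (D.fm a v) with e0 | e0
  · exact ⟨1, one_mem _, by simpa using ha, by simpa using e0⟩
  rcases f01 (D.fm a (τ • v)) with e1 | e1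
  · exact ⟨τ⁻¹, inv_mem hτ, fun u hu => (k τ u).trans (ha _ (h1 u hu)), (k τ v).trans e1⟩
  refine ⟨(τ * τ)⁻¹, inv_mem (mul_mem hτ hτ), fun u hu => ?_, ?_⟩ <;> rw [k, mul_smul]
  · exact ha _ (h1 _ (h1 u hu))
  · rwa [e0, e1, show (1 + 1 : F) = 0 from rfl, zero_add] at e

end

variable {s n m : ℕ} {x : G7} {a : L7} {M : Subgroup G7}

theorem cnd_t {b c : Bool} : cnd b c false = true ↔ b = true ∧ c = true := by cases b <;> simp
theorem cnd_o {b c : Bool} : cnd b true c = true ↔ b = true ∨ c = true := by cases b <;> simp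
theorem cnd_n {b c : Bool} : cnd b false c = true ↔ b = false ∧ c = true := by cases b <;> simp

theorem toL_XN (h : D7.IsX x (toL s)) (n : ℕ) : toL (XN s n) = x • toL n := by
  rw [XN, force_eq, force_eq, toL_xor, toL_xor, toL_brN, h, fmN_eq]
  cases fmN s n
  · exact congrArg _ (toL_zero.trans (zero_smul F _).symm)
  · exact congrArg _ (one_smul F _).symm

theorem inL_iff {l : List ℕ} : inL l n = true ↔ n ∈ l := by simp [inL, anyL_iff, force_eq]

theorem bd_iff : bd n = true ↔ n < 2 ^ 133 := by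
  rw [bd, Nat.blt_eq, Nat.shiftLeft_eq', Nat.one_shiftLeft]

theorem ne_of (h : neN m n = true) : toL m ≠ toL n := fun e => by
  simp only [neN, force_eq, cnd_t, cnd_n, bd_iff] at h
  rw [toL_inj h.1 h.2.1 e, Nat.beq_refl] at h
  exact absurd h.2.2.1 (by decide)

theorem fm_of (h : fmN m n = false) : D7.fm (toL m) (toL n) = 0 := by rw [fmN_eq, h]; rfl

theorem rad_of (h : rad s = true) (v : L7) : D7.fm (toL s) v = 0 := by
  simp only [rad, allL_iff, cnd_n] at h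
  exact sp_ext (δ := 0) (fun p hp => fm_of (h p hp).1) (sp_EL.ge mem_top)

theorem toL_eN : toL Cs.eN = D7.e := toL_rv (r := 125) (by norm_num)

theorem toL_one : toL 1 = D7.f := toL_rv (r := 0) (by norm_num)

/-- The frame. -/
def Fs : Set L7 := toL '' {n | n ∈ fr}

/-- The group generated by the reflections. -/
def H : Subgroup G7 := Subgroup.closure {x | ∃ p ∈ gs, D7.IsX x (toL p.2)}

theorem ex_gen {p : List ℕ × ℕ} (h : p ∈ gs) : ∃ x ∈ H, D7.IsX x (toL p.2) := by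
  have k := allL_iff.1 c1 p h
  simp only [cnd_t, Nat.beq_eq] at k
  obtain ⟨x, hx⟩ := ax7.ex_x (a := toL p.2) ⟨wG p.1, by rw [← k.2.1, toL_wN k.1, toL_eN]⟩
  exact ⟨x, Subgroup.subset_closure ⟨p, h, hx⟩, hx⟩

theorem y_mem : xr 125 ∈ H := Subgroup.subset_closure ⟨_, c3.2.2.2.2.2.2, toL_eN ▸ isX_xr 125⟩

theorem e_em (h : H ≤ M) : D7.e ∈ D7.EM M := ⟨ex_rv 125, _, h y_mem, isX_xr 125⟩

theorem smul_Fs {g : G7} (hg : g ∈ H) (ha : a ∈ Fs) : g • a ∈ Fs := by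
  have : H ≤ E7t.StS Fs := (Subgroup.closure_le _).2 (by
    rintro x ⟨p, hp, hx⟩ _ ⟨n, hn, rfl⟩
    have k := allL_iff.1 c1 p hp
    simp only [cnd_t, allL_iff, inL_iff] at k
    exact ⟨_, k.2.2 n hn, (toL_XN hx n).trans (B1.smul_eq _ _)⟩)
  exact B1.smul_eq g a ▸ this hg a ha

theorem om_of (h : n ∈ fr) : toL n ∈ D7.OM H := by
  obtain ⟨V, h1, h2⟩ := walk_mem (g := fun j => XN (nth gs ([], Cs.eN) j).2) (S := {n | toL n ∈ D7.OM H})
    (fun j n ⟨k, k1, k2⟩ => by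
      obtain ⟨x, h1, h2⟩ := ex_gen (p := nth gs ([], Cs.eN) j) (by
        rw [nth_eq]
        by_cases e : j < gs.length
        · rw [List.getD_eq_getElem _ _ e]; exact List.getElem_mem e
        · rw [List.getD_eq_default _ _ (not_lt.1 e)]; exact c3.2.2.2.2.2.2)
      exact ⟨x * k, mul_mem h1 k1, by rw [mul_smul, k2, toL_XN h2]⟩) wk
    (n := Cs.eN) ⟨1, one_mem _, by rw [one_smul, toL_eN]⟩ fun V => allL fr (inL V)
  exact h1 n (inL_iff.1 (allL_iff.1 (h2 ▸ c2) n h))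

theorem om_mono (h : H ≤ M) : D7.OM H ⊆ D7.OM M := fun _ ⟨k, k1, k2⟩ => ⟨k, h k1, k2⟩

theorem om_em (h : H ≤ M) : D7.OM M ⊆ D7.EM M := fun _ ⟨_, k1, k2⟩ => k2 ▸ ax7.em_smul k1 (e_em h)

theorem ex_fr (h : n ∈ fr) : ∃ x ∈ H, D7.IsX x (toL n) := (om_em le_rfl (om_of h)).2

theorem ex_tN {τ : List ℕ} (h : ∀ s ∈ τ, s ∈ fr) : ∃ t ∈ H, ∀ n, toL (tN τ n) = t • toL n := by
  induction τ with
  | nil => exact ⟨1, one_mem _, fun n => (one_smul _ _).symm⟩
  | cons s τ ih =>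
    obtain ⟨t, h1, h2⟩ := ih fun s hs => h s (List.mem_cons_of_mem _ hs)
    obtain ⟨x, h3, h4⟩ := ex_fr (h s List.mem_cons_self)
    exact ⟨x * t, mul_mem h3 h1, fun n => by rw [mul_smul, ← h2, ← toL_XN h4]; rfl⟩

theorem steps_of {l : List (List ℕ × ℕ × SM)} {E : SM} (h : steps l E = true)
    (ha : ∀ u ∈ sp E, D7.fm a u = 0) : ∃ k ∈ H, ∀ p ∈ kc, D7.fm (k • a) (toL p.1) = 0 := by
  induction l generalizing E a with
  | nil =>
    simp only [steps, cnd_t, allL_iff] at h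
    exact ⟨1, one_mem _, fun p hp => by rw [one_smul]; exact ha _ (mem_sp h.1 (h.2 p hp))⟩
  | cons s l ih =>
    change cnd _ (cnd _ (cnd _ (cnd _ (cnd _ (steps l s.2.2) false) false) false) false) false = true at h
    simp only [cnd_t, cnd_o, allL_iff, inL_iff] at h
    obtain ⟨h1, h2, h3, h4, h5, h6⟩ := h
    obtain ⟨t, t1, t2⟩ := ex_tN h2
    have k4 := mem_sp h1 h4
    rw [toL_xor, toL_xor, t2, t2, t2] at k4
    have k0 : sp E ≤ (sp E).comap (DistribSMul.toLinearMap F L7 t) := sp_le.2 fun p hp => by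
      have := mem_sp h1 (h3 p hp)
      rw [t2] at this
      exact this
    obtain ⟨k, k1, k2, k3⟩ := step ax7 t1 (fun u hu => by
      simpa only [mem_comap, DistribSMul.toLinearMap_apply] using k0 hu) k4 ha
    obtain ⟨k', k5, k6⟩ := ih h6 (a := k • a) fun u hu => sp_ext (δ := 0) (fun p hp => by
      rcases h5 p hp with e | e
      · exact k2 _ (mem_sp h1 e)
      · have := k2 _ (mem_sp h1 e)
        rwa [toL_xor, map_add, k3, add_zero] at this) hu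
    exact ⟨k' * k, mul_mem k5 k1, fun p hp => by rw [mul_smul]; exact k6 p hp⟩

theorem um (h : H ≤ M) (hM : M ≠ ⊤) : D7.UM M ⊆ {0} := by
  obtain ⟨N, n1, n2, n3⟩ := ax7.um_sub M
  obtain ⟨h1, h2⟩ := c6
  simp only [allL_iff, cnd_t, inL_iff, Nat.beq_eq] at h1
  rw [mats_eq] at h2
  rcases Nor.sound (N := N) h2 chkE_E1 rfl (fun T hT => by
      obtain ⟨s, -, rfl⟩ := List.mem_map.1 hT
      exact wf_map (wf_of chkE_E1) _) (sp_le.2 (List.forall_mem_nil _)) (sp_E1 ▸ n2) (fun T hT v hv => by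
      obtain ⟨s, hs, rfl⟩ := List.mem_map.1 hT
      obtain ⟨x, x1, x2⟩ := ex_fr (h1 s hs).1
      rw [lin_mat chkE_E1 (γ := DistribSMul.toLinearMap F L7 x) (toL_XN x2) (sp_E1 ▸ n2 hv)]
      refine n3 x (h x1) ⟨?_, ?_⟩ v hv
      · exact toL_eN ▸ (toL_XN x2 _).symm.trans (congrArg toL (h1 s hs).2.1)
      · exact toL_one ▸ (toL_XN x2 _).symm.trans (congrArg toL (h1 s hs).2.2)) with e | e
  · rw [n1, e]
    exact fun v hv => (sp_le (N := ⊥)).2 (List.forall_mem_nil _) hv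
  · obtain ⟨x, x1, x2⟩ := ex_fr c3.2.2.2.2.1
    exact absurd (ax7.um_top (by rw [n1, e, sp_E1]) (h y_mem) (isX_xr 125) (h x1) (toL_one ▸ x2)) hM

theorem em_le (h : H ≤ M) (hM : M ≠ ⊤) (ha : a ∈ D7.EM M) : a ∈ Fs := by
  obtain ⟨h1, h2, h3, h4, h5⟩ := c5
  obtain ⟨k, k1, k2⟩ := steps_of (a := a) c4.2 fun u hu => sp_ext (δ := 0)
    (fun p hp => (ax7.fm_comm a _).trans (rad_of (allL_iff.1 c4.1 p hp) a)) hu
  have hb := ax7.em_smul (h k1) ha
  have pz : ∀ n ∈ fr, D7.fm (k • a) (toL n) = 0 → D7.br (k • a) (toL n) = 0 := fun n hn =>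
    ax7.perp_zero (um h hM) (e_em h) hb (om_mono h (om_of hn))
  obtain ⟨s, s1, s2⟩ := subs_sp (kerC_sp h2 h1 (fun n => D7.br (toL n)) (fun p _ n => toL_brN _ n)
    (sp_EL.ge mem_top) fun p hp => (ax7.br_comm _ _).trans
      (pz _ (inL_iff.1 (allL_iff.1 h3 p hp)) (k2 p hp)))
  obtain ⟨c, hc⟩ := ex_zip h4 s1
  have e := allL_iff.1 h5 _ hc
  simp only [excl, force_eq, cnd_o, cnd_t, cnd_n, inL_iff] at e
  rw [← s2] at hb pz
  obtain ⟨b1, x, -, b2⟩ := hb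
  rcases e with e | e | e | e
  · simpa using smul_Fs (inv_mem k1) ⟨s, e, s2⟩
  · obtain ⟨v, hv⟩ := ax7.ex_fm b1
    exact absurd ((rad_of e v).symm.trans hv) zero_ne_one
  · exact absurd (by rw [toL_XN b2, toL_brN, toL_brN, toL_XN b2, toL_XN b2, br_smul7]) (ne_of e)
  · exact absurd (by rw [toL_brN, pz _ e.1 (fm_of e.2.1), toL_zero]) (ne_of e.2.2)

theorem lt_of (h : n ∈ fr) : n < 2 ^ 133 := bd_iff.1 (allL_iff.1 c3.2.2.1 n h)

theorem H_ne : H ≠ ⊤ := fun h => by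
  obtain ⟨k, hk⟩ := ex_rv 1
  obtain ⟨n, h1, h2⟩ := smul_Fs (h.ge (Subgroup.mem_top k)) ⟨_, c3.2.2.2.1, toL_eN⟩
  rw [hk, ← toL_rv (by norm_num), pow_one] at h2
  exact c3.2.2.2.2.2.1 (toL_inj (lt_of h1) (by norm_num) h2 ▸ h1)

theorem card_Fs : Fs.ncard = 189 := by
  have : Set.InjOn toL {n | n ∈ fr} := fun m hm n hn => toL_inj (lt_of hm) (lt_of hn)
  rw [Fs, this.ncard_image, ← c3.2.1,
    ← List.toFinset_card_of_nodup c3.1, ← Set.ncard_coe_finset, List.coe_toFinset]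

end Tw

open Tw in
theorem tw7 : ∃ M, IsCoatom M ∧ D7.Tw M := by
  haveI := ax7.finG
  obtain ⟨M, h1, h2⟩ := (eq_top_or_exists_le_coatom H).resolve_left H_ne
  have k1 : D7.EM M ⊆ Fs := fun _ => em_le h2 h1.1
  have k2 : Fs ⊆ D7.OM M := by rintro _ ⟨n, hn, rfl⟩; exact om_mono h2 (om_of hn)
  exact ⟨M, h1, um h2 h1.1, k2 ⟨_, c3.2.2.2.2.1, toL_one⟩, (k1.trans k2).antisymm (om_em h2),
    (k1.antisymm (k2.trans (om_em h2))).symm ▸ card_Fs⟩

end CF.M7
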