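import Cfsg.Agent.M7.TwD

/-! Maximal subgroups of `E₇(2)`: the checks for the normalizer of the torus `3⁷`. -/

set_option autoImplicit false

namespace CF.M7.Tw

open CF.Chev

noncomputable section

/-- The root element of an extremal vector. -/
def XN (s n : ℕ) : ℕ := force s fun s => force n fun n => Nat.xor (Nat.xor n (brN s n)) (cnd (fmN s n) s 0)
/-- A product of root elements. -/
def tN (τ : List ℕ) (n : ℕ) : ℕ := List.rec n (fun s _ ih => XN s ih) τ
def inL (l : List ℕ) (n : ℕ) : Bool := force n fun n => anyL l (Nat.beq n)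
def bd (n : ℕ) : Bool := Nat.blt n (Nat.shiftLeft 1 133)
def neN (m n : ℕ) : Bool := force m fun m => force n fun n =>
  cnd (bd m) (cnd (bd n) (cnd (Nat.beq m n) false true) false) false
/-- The radical of the form. -/
def rad (s : ℕ) : Bool := allL EL fun p => cnd (fmN s p.2) false true
/-- The normalisation steps. -/
def steps (l : List (List ℕ × ℕ × SM)) : SM → Bool :=
  List.rec (fun E => cnd (wf E) (allL kc fun p => mem E p.1) false)
    (fun s _ ih E => cnd (wf E) (cnd (allL s.1 (inL fr)) (cnd (allL E fun p => mem E (tN s.1 p.2))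
      (cnd (mem E (Nat.xor (Nat.xor s.2.1 (tN s.1 s.2.1)) (tN s.1 (tN s.1 s.2.1))))
      (cnd (allL s.2.2 fun p => cnd (mem E p.2) true (mem E (Nat.xor p.2 s.2.1))) (ih s.2.2)
      false) false) false) false) false) l
/-- The exclusion of a vector. -/
def excl (s : ℕ) (c : ℕ × ℕ) : Bool := force s fun s => cnd (inL fr s) true (cnd (rad s) true
  (cnd (neN (XN s (brN c.1 c.2)) (brN (XN s c.1) (XN s c.2))) true
    (cnd (inL fr c.1) (cnd (fmN s c.1) false (neN (brN s c.1) 0)) false)))

end

theorem c1 : allL gs (fun p => cnd (okW p.1) (cnd (Nat.beq (wN p.1 Cs.eN) p.2)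
    (allL fr fun n => inL fr (XN p.2 n)) false) false) = true := by decide +kernel

theorem c2 : walk (fun j => XN (nth gs ([], Cs.eN) j).2) wk Cs.eN (fun V => allL fr (inL V)) = true := by
  decide +kernel

theorem c3 : fr.Nodup ∧ fr.length = 189 ∧ allL fr bd = true ∧ Cs.eN ∈ fr ∧ 1 ∈ fr ∧ 2 ∉ fr ∧
    ([], Cs.eN) ∈ gs := by decide +kernel

theorem c4 : allL A0 (fun p => rad p.2) = true ∧ steps st A0 = true := by decide +kernel

theorem c5 : wf Fx = true ∧ kerC EL Fx kc brN = true ∧ allL kc (fun p => inL fr p.1) = true ∧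
    ex.length = (subs Fx).length ∧ allL ((subs Fx).zip ex) (fun p => excl p.1 p.2) = true := by
  decide +kernel

theorem c6 : allL lv (fun s => cnd (inL fr s) (cnd (Nat.beq (XN s Cs.eN) Cs.eN) (Nat.beq (XN s 1) 1)
    false) false) = true ∧ mats E1 lv XN (fun ms => nr.chk E1 [] ms) = true := by decide +kernel

end CF.M7.Tw
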