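import Cfsg.Agent.M7.K4
import Cfsg.Agent.M7.D1
import Cfsg.Agent.M7.D2
import Cfsg.Agent.M7.T3
import Cfsg.Agent.M7.Pa

/-! Maximal subgroups of `E₇(2)`: the ten subgroups defined by subspaces of `L₁`. -/

set_option autoImplicit false

namespace CF.M7

open Module Submodule

/-- A family of pairwise non-conjugate maximal subgroups with a property. -/
def Fam (ι : Type) (P : Subgroup G7 → Prop) : Prop :=
  ∃ M : ι → Subgroup G7, (∀ i, IsCoatom (M i) ∧ P (M i)) ∧ ∀ i j, Cj (M i) (M j) → i = j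

theorem Fam.one {P : Subgroup G7 → Prop} (h : ∃ M, IsCoatom M ∧ P M) : Fam Unit P :=
  ⟨fun _ => h.choose, fun _ => h.choose_spec, fun _ _ _ => rfl⟩

theorem Fam.sum {ι κ : Type} {P Q : Subgroup G7 → Prop} (a : Fam ι P) (b : Fam κ Q)
    (h : ∀ M M', P M → Q M' → ¬ Cj M M') : Fam (ι ⊕ κ) fun M => P M ∨ Q M := by
  obtain ⟨M, m1, m2⟩ := a
  obtain ⟨N, n1, n2⟩ := b
  refine ⟨Sum.elim M N, ?_, ?_⟩
  · rintro (i | i)
    · exact ⟨(m1 i).1, .inl (m1 i).2⟩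
    · exact ⟨(n1 i).1, .inr (n1 i).2⟩
  · rintro (i | i) (j | j) c
    · exact congrArg _ (m2 i j c)
    · exact absurd c (h _ _ (m1 i).2 (n1 j).2)
    · exact absurd c.symm (h _ _ (m1 j).2 (n1 i).2)
    · exact congrArg _ (n2 i j c)

/-- The invariants of a subspace of `L₁`. -/
def Ty (U : Submodule F L7) (t : ℕ × ℕ × Bool) : Prop :=
  D7.Dat U ∧ finrank F U = t.1 ∧ finrank F (D7.NU U) = t.2.1 ∧ (t.1 = 4 ∨ finrank F (D7.CU U) ≤ 9) ∧
    (t.1 = 16 ∨ t.1 = 4 ∨ (t.2.2 = true ↔ if t.1 = 12 then D7.Spl U U ⊥ else D7.Spl U (D7.Lg 1) U))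

def ty : Fin 10 → ℕ × ℕ × Bool := ![(16, 35, true), (12, 37, true), (12, 37, false), (20, 37, true),
  (20, 37, false), (8, 25, true), (8, 25, false), (8, 19, true), (8, 19, false), (4, 25, true)]

namespace Z

theorem sp_nil : sp [] = ⊥ := le_bot_iff.1 (K3.sp_le.2 fun _ h => absurd h List.not_mem_nil)

theorem chkU {c : Cs} (h : c.chk1 = true) : chkE c.U = true := by
  rw [Cs.chk1, K4.cnd_t] at h
  exact h.1

theorem im_inv (g : G7) (U : Submodule F L7) : im g⁻¹ (im g U) = U := by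
  ext v
  rw [mem_im, mem_im, inv_inv, inv_smul_smul]

theorem im_bot (g : G7) : im g (⊥ : Submodule F L7) = ⊥ := Submodule.map_bot _

theorem spl_iff {l : G7} (hl : l ∈ D7.Lv) {U A B : Submodule F L7} :
    D7.Spl (im l U) (im l A) (im l B) ↔ D7.Spl U A B :=
  ⟨fun k => by simpa only [im_inv] using ax7.spl_im (inv_mem hl) k, ax7.spl_im hl⟩

theorem mk {c : Cs} {t : ℕ × ℕ × Bool} (h1 : c.chk1 = true) (h2 : c.chk2 = true) (h3 : c.chk3 = true)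
    (h4 : c.chk4 = true) (h5 : c.chk5 = true)
    (e : c.U.length = t.1 ∧ c.N.length = t.2.1 ∧ (t.1 = 4 ∨ c.C.length ≤ 9))
    (s : t.1 = 16 ∨ t.1 = 4 ∨ (t.2.2 = true ↔ if t.1 = 12 then D7.Spl (sp c.U) (sp c.U) (sp []) else
      D7.Spl (sp c.U) (sp E1) (sp c.U))) : ∃ U, Ty U t := by
  obtain ⟨a, b, d, f⟩ := Cs.dat h1 h2 h3 h4 h5
  rw [sp_nil, sp_E1] at s
  exact ⟨_, a, b.trans e.1, d.trans e.2.1, e.2.2.imp id f.trans, s⟩

theorem ex_ty (i : Fin 10) : ∃ U, Ty U (ty i) := by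
  fin_cases i
  · exact mk (t := (16, 35, true)) cD6_1 cD6_2 cD6_3 cD6_4 cD6_5 (by decide +kernel) (.inl rfl)
  · exact mk (t := (12, 37, true)) cA7_1 cA7_2 cA7_3 cA7_4 cA7_5 (by decide +kernel) (.inr (.inr
      (iff_of_true rfl (Cs.spl_of cA7_1 cA7_2 (chkU cA7_1) rfl cA7_6))))
  · exact mk (t := (12, 37, false)) ctA7_1 ctA7_2 ctA7_3 ctA7_4 ctA7_5 (by decide +kernel) (.inr (.inr
      (iff_of_false Bool.false_ne_true (Cs.nspl_of ctA7_1 ctA7_2 (chkU ctA7_1) rfl ctA7_6))))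
  · exact mk (t := (20, 37, true)) cE6_1 cE6_2 cE6_3 cE6_4 cE6_5 (by decide +kernel) (.inr (.inr
      (iff_of_true rfl (Cs.spl_of cE6_1 cE6_2 chkE_E1 (chkU cE6_1) cE6_6))))
  · exact mk (t := (20, 37, false)) ctE6_1 ctE6_2 ctE6_3 ctE6_4 ctE6_5 (by decide +kernel) (.inr (.inr
      (iff_of_false Bool.false_ne_true (Cs.nspl_of ctE6_1 ctE6_2 chkE_E1 (chkU ctE6_1) ctE6_6))))
  · exact mk (t := (8, 25, true)) cA5_1 cA5_2 cA5_3 cA5_4 cA5_5 (by decide +kernel) (.inr (.inr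
      (iff_of_true rfl (Cs.spl_of cA5_1 cA5_2 chkE_E1 (chkU cA5_1) cA5_6))))
  · exact mk (t := (8, 25, false)) ctA5_1 ctA5_2 ctA5_3 ctA5_4 ctA5_5 (by decide +kernel) (.inr (.inr
      (iff_of_false Bool.false_ne_true (Cs.nspl_of ctA5_1 ctA5_2 chkE_E1 (chkU ctA5_1) ctA5_6))))
  · exact mk (t := (8, 19, true)) cD4_1 cD4_2 cD4_3 cD4_4 cD4_5 (by decide +kernel) (.inr (.inr
      (iff_of_true rfl (Cs.spl_of cD4_1 cD4_2 chkE_E1 (chkU cD4_1) cD4_6))))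
  · exact mk (t := (8, 19, false)) ctD4_1 ctD4_2 ctD4_3 ctD4_4 ctD4_5 (by decide +kernel) (.inr (.inr
      (iff_of_false Bool.false_ne_true (Cs.nspl_of ctD4_1 ctD4_2 chkE_E1 (chkU ctD4_1) ctD4_6))))
  · exact mk (t := (4, 25, true)) cG2_1 cG2_2 cG2_3 cG2_4 cG2_5 (by decide +kernel) (.inr (.inl rfl))

theorem ty_inj : ∀ i j : Fin 10, (ty i).1 = (ty j).1 → (ty i).2.1 = (ty j).2.1 →
    ((ty i).1 = 16 ∨ (ty i).1 = 4 ∨ ((ty i).2.2 = true ↔ (ty j).2.2 = true)) → i = j := by decide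

theorem ty_four : ∀ i j : Fin 10, 4 ≤ (ty i).1 ∧ ((ty i).1 = 4 → (ty j).1 = 4 → i = j) := by decide

end Z

open Z

theorem std7 : Fam (Fin 10) fun M => ∃ U, D7.Std M U := by
  choose U hU using ex_ty
  choose M m1 m2 using fun i => ax7.ex_std (hU i).1
  refine ⟨M, fun i => ⟨m1 i, _, m2 i⟩, fun i j c => ?_⟩
  obtain ⟨-, a1, a2, a3, a4⟩ := hU i
  obtain ⟨-, b1, b2, b3, b4⟩ := hU j
  by_contra n
  have t1 := ty_four i j
  have t2 := (ty_four j i).1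
  obtain ⟨l, hl, e⟩ := ax7.std_cj (m2 i) (m2 j) c (by omega)
  have e1 : (ty i).1 = (ty j).1 := by rw [← a1, ← b1, ← e, finrank_im]
  refine n (ty_inj i j e1 (by rw [← a2, ← b2, ← e, ax7.nu_im hl, finrank_im]) ?_)
  rw [← e1] at b4
  rcases a4 with a | a | a
  · exact .inl a
  · exact .inr (.inl a)
  rcases b4 with b | b | b
  · exact .inl b
  · exact .inr (.inl b)
  refine .inr (.inr (a.trans (Iff.trans ?_ b.symm)))
  rw [← e]
  split_ifs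
  · rw [← spl_iff hl, im_bot]
  · rw [← spl_iff hl, ax7.lg_im hl]

theorem all7 (tw : ∃ M, IsCoatom M ∧ D7.Tw M) (lz : ∃ M, IsCoatom M ∧ D7.Lz M) :
    ∃ M : Fin 19 → Subgroup G7, (∀ i, IsCoatom (M i)) ∧ ∀ i j, Cj (M i) (M j) → i = j := by
  obtain ⟨M, m1, m2⟩ := ((std7.sum (show Fam (Fin 7) D7.Par from par7)
    fun _ _ a b => ax7.std_par a.choose_spec b).sum (Fam.one tw)
    fun _ _ a b => a.elim (fun a => ax7.std_tw a.choose_spec b) fun a => ax7.par_tw a b).sum (Fam.one lz)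
    fun _ _ a b => a.elim (fun a => a.elim (fun a => ax7.std_lz a.choose_spec b) fun a => ax7.par_lz a b)
      fun a => ax7.tw_lz a b
  let e : ((Fin 10 ⊕ Fin 7) ⊕ Unit) ⊕ Unit ≃ Fin 19 := Fintype.equivFinOfCardEq (by simp)
  exact ⟨M ∘ e.symm, fun i => (m1 _).1, fun i j c => e.symm.injective (m2 _ _ c)⟩

end CF.M7
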